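import Mathlib

/-!
# The polynomial model of a regular unipotent operator

A regular unipotent operator is the translation on polynomials of small degree; this yields an
invariant three-dimensional space of operators (a copy of `sl₂`).
-/

set_option autoImplicit false
set_option linter.unusedSectionVars false

namespace Cfsg.Agent.H42.SmallFaithful

open Module Polynomial

variable {k : Type*} [Field k]

/-- Substituting `X + 1`. -/
noncomputable def tau : Module.End k k[X] := taylor 1

theorem tau_apply (q : k[X]) : tau q = q.comp (X + 1) := by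
  rw [tau, taylor_apply, map_one]

theorem tau_pow_apply (a : ℕ) (q : k[X]) : (tau ^ a) q = q.comp (X + C (a : k)) := by
  induction a with
  | zero => simp
  | succ a ih =>
    rw [pow_succ', Module.End.mul_apply, ih, tau_apply, comp_assoc]
    congr 1
    simp only [add_comp, X_comp, C_comp, Nat.cast_succ, map_add, map_one]
    ring

/-- The difference operator lowers the degree and multiplies the leading coefficient. -/
theorem diff_degree {n : ℕ} {q : k[X]} (hq : q.natDegree ≤ n + 1) :
    ((tau - 1) q).natDegree ≤ n ∧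
      ((tau - 1) q).coeff n = ((n + 1 : ℕ) : k) * q.coeff (n + 1) := by
  have hc : ∀ j, ((tau - 1) q).coeff j =
      ∑ i ∈ Finset.range (n + 2), q.coeff i * (i.choose j : k) - q.coeff j := by
    intro j
    rw [LinearMap.sub_apply, Module.End.one_apply, coeff_sub, tau_apply, comp,
      eval₂_eq_sum_range' C (Nat.lt_succ_of_le hq), finset_sum_coeff]
    congr 1
    refine Finset.sum_congr rfl fun i _ => ?_
    rw [coeff_C_mul, coeff_X_add_one_pow]
  have hlt : ∀ j, ∀ i ∈ Finset.range (n + 2), i < j → q.coeff i * (i.choose j : k) = 0 :=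
    fun j i _ h => by rw [Nat.choose_eq_zero_of_lt h, Nat.cast_zero, mul_zero]
  constructor
  · refine natDegree_le_iff_coeff_eq_zero.2 fun j hj => ?_
    rcases Nat.lt_or_ge (n + 1) j with h | h
    · rw [hc, coeff_eq_zero_of_natDegree_lt (by omega), sub_zero,
        Finset.sum_eq_zero fun i hi => hlt j i hi (by have := Finset.mem_range.1 hi; omega)]
    · obtain rfl : j = n + 1 := by omega
      rw [hc, Finset.sum_range_succ, Finset.sum_eq_zero fun i hi =>
        hlt _ i (Finset.mem_range.2 (by have := Finset.mem_range.1 hi; omega)) (Finset.mem_range.1 hi)]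
      simp
  · rw [hc, Finset.sum_range_succ, Finset.sum_range_succ, Finset.sum_eq_zero fun i hi =>
      hlt _ i (Finset.mem_range.2 (by have := Finset.mem_range.1 hi; omega)) (Finset.mem_range.1 hi),
      Nat.choose_self, Nat.choose_succ_self_right]
    push_cast
    ring

/-- The iterated differences of `X ^ m`. -/
theorem diff_pow_X_pow (m i : ℕ) (hi : i ≤ m) :
    (((tau - 1) ^ i) (X ^ m : k[X])).natDegree ≤ m - i ∧
      (((tau - 1) ^ i) (X ^ m : k[X])).coeff (m - i) = (m.descFactorial i : k) := by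
  induction i with
  | zero => simp [natDegree_X_pow_le]
  | succ i ih =>
    obtain ⟨h1, h2⟩ := ih (by omega)
    rw [pow_succ', Module.End.mul_apply]
    obtain ⟨h3, h4⟩ := diff_degree (n := m - (i + 1))
      (q := ((tau - 1) ^ i) (X ^ m : k[X])) (by omega)
    refine ⟨h3, ?_⟩
    rw [h4, show m - (i + 1) + 1 = m - i by omega, h2, Nat.descFactorial_succ, Nat.cast_mul]

theorem diff_pow_succ_X_pow (m : ℕ) : ((tau - 1) ^ (m + 1)) (X ^ m : k[X]) = 0 := by
  obtain ⟨h1, -⟩ := diff_pow_X_pow (k := k) m m le_rfl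
  rw [Nat.sub_self] at h1
  rw [pow_succ', Module.End.mul_apply, eq_C_of_natDegree_le_zero h1, LinearMap.sub_apply,
    Module.End.one_apply, tau_apply, C_comp, sub_self]

/-- The weight operator. -/
noncomputable def opH (r : k) : Module.End k k[X] :=
  (2 : k) • ((LinearMap.mulLeft k (X : k[X])).comp derivative) - r • 1

/-- The raising operator. -/
noncomputable def opF (r : k) : Module.End k k[X] :=
  r • LinearMap.mulLeft k (X : k[X]) - (LinearMap.mulLeft k (X ^ 2 : k[X])).comp derivative

theorem opH_apply (r : k) (g : k[X]) : opH r g = C 2 * (X * derivative g) - C r * g := by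
  simp only [opH, LinearMap.sub_apply, LinearMap.smul_apply, LinearMap.comp_apply,
    LinearMap.mulLeft_apply, Module.End.one_apply, smul_eq_C_mul]

theorem opF_apply (r : k) (g : k[X]) : opF r g = C r * (X * g) - X ^ 2 * derivative g := by
  simp only [opF, LinearMap.sub_apply, LinearMap.smul_apply, LinearMap.comp_apply,
    LinearMap.mulLeft_apply, smul_eq_C_mul]

theorem tau_derivative (g : k[X]) : tau (derivative g) = derivative (tau g) := by
  simp [tau_apply, derivative_comp]

theorem tau_opH (r : k) (g : k[X]) :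
    tau (opH r g) = opH r (tau g) + (2 : k) • derivative (tau g) := by
  simp only [opH_apply, tau_apply, smul_eq_C_mul, sub_comp, mul_comp, C_comp, X_comp,
    derivative_comp, derivative_add, derivative_X, derivative_one, add_zero, one_mul]
  ring

theorem tau_opF (r : k) (g : k[X]) :
    tau (opF r g) = opF r (tau g) - opH r (tau g) - derivative (tau g) := by
  simp only [opH_apply, opF_apply, tau_apply, sub_comp, mul_comp, C_comp, X_comp, pow_comp,
    derivative_comp, derivative_add, derivative_X, derivative_one, add_zero, one_mul,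
    show (C (2 : k)) = (2 : k[X]) from map_ofNat C 2]
  ring

theorem comp_scale (b r : k) (g : k[X]) :
    derivative (g.comp (C b * X)) = C b * (derivative g).comp (C b * X) ∧
      (opH r g).comp (C b * X) = opH r (g.comp (C b * X)) ∧
      (opF r g).comp (C b * X) = C b * opF r (g.comp (C b * X)) := by
  refine ⟨?_, ?_, ?_⟩
  · simp [derivative_comp]
  · simp only [opH_apply, sub_comp, mul_comp, C_comp, X_comp, derivative_comp, derivative_mul,
      derivative_C, derivative_X, zero_mul, mul_one, zero_add]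
    ring
  · simp only [opF_apply, sub_comp, mul_comp, C_comp, X_comp, pow_comp, derivative_comp,
      derivative_mul, derivative_C, derivative_X, zero_mul, mul_one, zero_add]
    ring

theorem ops_preserve (d : ℕ) (hd : 0 < d) (g : k[X]) (hg : g ∈ degreeLT k d) :
    derivative g ∈ degreeLT k d ∧ opH ((d - 1 : ℕ) : k) g ∈ degreeLT k d ∧
      opF ((d - 1 : ℕ) : k) g ∈ degreeLT k d := by
  have hg' : ∀ j, d ≤ j → g.coeff j = 0 := fun j hj => by
    rw [mem_degreeLT] at hg
    exact coeff_eq_zero_of_degree_lt (hg.trans_le (by exact_mod_cast hj))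
  have key : ∀ q : k[X], (∀ j, d ≤ j → q.coeff j = 0) → q ∈ degreeLT k d := fun q hq => by
    rw [mem_degreeLT, degree_lt_iff_coeff_zero]
    exact fun m hm => hq m (by exact_mod_cast hm)
  refine ⟨key _ fun j hj => ?_, key _ fun j hj => ?_, key _ fun j hj => ?_⟩
  · rw [coeff_derivative, hg' (j + 1) (by omega), zero_mul]
  · obtain ⟨j, rfl⟩ : ∃ i, j = i + 1 := ⟨j - 1, by omega⟩
    rw [opH_apply, coeff_sub, coeff_C_mul, coeff_X_mul, coeff_C_mul, coeff_derivative,
      hg' (j + 1) hj]
    simp
  · obtain ⟨j, rfl⟩ : ∃ i, j = i + 1 := ⟨j - 1, by omega⟩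
    rw [opF_apply, coeff_sub, coeff_C_mul, coeff_X_mul]
    rcases Nat.eq_zero_or_pos j with rfl | hj0
    · rw [pow_two, mul_assoc, coeff_X_mul, coeff_X_mul_zero, show d - 1 = 0 by omega]
      simp
    · obtain ⟨i, rfl⟩ : ∃ i, j = i + 1 := ⟨j - 1, by omega⟩
      rw [show i + 1 + 1 = i + 2 from rfl, coeff_X_pow_mul, coeff_derivative]
      rcases Nat.lt_or_ge (i + 1) d with h | h
      · rw [show d - 1 = i + 1 by omega]
        push_cast
        ring
      · rw [hg' (i + 1) h]
        simp

/-- The sum of the diagonal of `derivative ∘ opF`. -/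
theorem six_mul_sum (d : ℕ) :
    6 * ∑ i ∈ Finset.range d, ((i : ℤ) + 1) * ((d : ℤ) - 1 - i) =
      ((d : ℤ) - 1) * d * (d + 1) := by
  induction d with
  | zero => simp
  | succ d ih =>
    have hs : 2 * ∑ i ∈ Finset.range d, ((i : ℤ) + 1) = d * (d + 1) := by
      clear ih
      induction d with
      | zero => simp
      | succ d ih => rw [Finset.sum_range_succ, mul_add, ih]; push_cast; ring
    have he : ∀ i ∈ Finset.range d, ((i : ℤ) + 1) * (((d + 1 : ℕ) : ℤ) - 1 - i) =
        ((i : ℤ) + 1) * ((d : ℤ) - 1 - i) + ((i : ℤ) + 1) := fun i _ => by push_cast; ring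
    rw [Finset.sum_range_succ, Finset.sum_congr rfl he, Finset.sum_add_distrib]
    push_cast
    linear_combination ih + 3 * hs

variable {U : Type*} [AddCommGroup U] [Module k U] [FiniteDimensional k U]

/-- A regular unipotent operator has an invariant `sl₂`-triple, adapted to a normalising
operator. -/
theorem exists_triple {p : ℕ} [hp : Fact p.Prime] [CharP k p] {d : ℕ} (hdU : finrank k U = d)
    (hd2 : 2 ≤ d) (hd : d + 1 < p) (T : Module.End k U) (v₀ : U) (hT : (T - 1) ^ d = 0)
    (hv₀ : ((T - 1) ^ (d - 1)) v₀ ≠ 0) (M : Module.End k U) {lam : k} (hM : M v₀ = lam • v₀)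
    (a : ℕ) (ha : (a : k) ≠ 0) (hMT : M * T = T ^ a * M) :
    ∃ e h f : Module.End k U, T * e = e * T ∧ T * h = (h + (2 : k) • e) * T ∧
      T * f = (f - h - e) * T ∧
      (∃ b : k, b ≠ 0 ∧ M * e = b • (e * M) ∧ M * h = h * M ∧ M * f = b⁻¹ • (f * M)) ∧
      LinearMap.trace k U (e * f) ≠ 0 ∧ IsNilpotent e := by
  classical
  obtain ⟨m, rfl⟩ : ∃ m, d = m + 1 := ⟨d - 1, by omega⟩
  rw [Nat.add_sub_cancel] at hv₀
  set δ := T - 1 with hδ
  -- the basis of iterated differences
  let bv : Fin (m + 1) → U := fun i => (δ ^ (i : ℕ)) v₀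
  have hind : LinearIndependent k bv := by
    rw [Fintype.linearIndependent_iff]
    intro g hg
    by_contra hne
    push Not at hne
    obtain ⟨i, hi, hmin⟩ : ∃ i, g i ≠ 0 ∧ ∀ j, j < i → g j = 0 := by
      obtain ⟨i, hi⟩ := hne
      obtain ⟨j, hj, hjm⟩ := Finset.exists_min_image (Finset.univ.filter fun j => g j ≠ 0) id
        ⟨i, Finset.mem_filter.2 ⟨Finset.mem_univ _, hi⟩⟩
      refine ⟨j, (Finset.mem_filter.1 hj).2, fun l hl => ?_⟩
      by_contra h
      exact (not_le.2 hl) (hjm l (Finset.mem_filter.2 ⟨Finset.mem_univ _, h⟩))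
    have h := congrArg (δ ^ (m - (i : ℕ))) hg
    rw [map_sum, map_zero, Finset.sum_eq_single i (fun j _ hji => ?_)
      (fun h => absurd (Finset.mem_univ _) h)] at h
    · rw [map_smul, ← Module.End.mul_apply, ← pow_add, Nat.sub_add_cancel (Fin.is_le i),
        smul_eq_zero] at h
      exact h.elim hi hv₀
    · rcases lt_or_gt_of_ne hji with hlt | hgt
      · rw [hmin j hlt, zero_smul, map_zero]
      · rw [map_smul, ← Module.End.mul_apply, ← pow_add,
          show m - (i : ℕ) + j = (m + 1) + ((j : ℕ) - i - 1) by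
            have : (i : ℕ) < j := hgt
            have := Fin.is_le i
            omega,
          pow_add, hT, zero_mul, LinearMap.zero_apply, smul_zero]
  let B : Basis (Fin (m + 1)) k U :=
    basisOfLinearIndependentOfCardEqFinrank hind (by rw [Fintype.card_fin, hdU])
  have hB : ∀ i, B i = (δ ^ (i : ℕ)) v₀ := fun i => by simp [B, bv]
  -- the model map
  set Φ : U →ₗ[k] k[X] := B.constr k fun i => ((tau - 1) ^ (i : ℕ)) (X ^ m : k[X]) with hΦ
  have hΦB : ∀ i, Φ (B i) = ((tau - 1) ^ (i : ℕ)) (X ^ m : k[X]) := fun i => by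
    rw [hΦ, Basis.constr_basis]
  have hΦpow : ∀ j : ℕ, Φ ((δ ^ j) v₀) = ((tau - 1) ^ j) (X ^ m : k[X]) := by
    intro j
    rcases Nat.lt_or_ge j (m + 1) with h | h
    · rw [← hB ⟨j, h⟩, hΦB]
    · rw [pow_eq_zero_of_le h hT, LinearMap.zero_apply, map_zero,
        ← Nat.sub_add_cancel h, pow_add, Module.End.mul_apply, diff_pow_succ_X_pow, map_zero]
  have hΦδ : ∀ u, Φ (δ u) = (tau - 1) (Φ u) := by
    refine fun u => LinearMap.congr_fun (B.ext (f₁ := Φ ∘ₗ δ) (f₂ := (tau - 1) ∘ₗ Φ)
      fun i => ?_) u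
    rw [LinearMap.comp_apply, LinearMap.comp_apply, hΦB, hB, ← Module.End.mul_apply, ← pow_succ',
      hΦpow, pow_succ', Module.End.mul_apply]
  have hΦT : ∀ u, Φ (T u) = tau (Φ u) := by
    intro u
    have h := hΦδ u
    simpa [hδ, LinearMap.sub_apply, map_sub] using h
  have hΦTpow : ∀ (j : ℕ) u, Φ ((T ^ j) u) = (tau ^ j) (Φ u) := by
    intro j
    induction j with
    | zero => intro u; simp
    | succ j ih => intro u; rw [pow_succ', Module.End.mul_apply, hΦT, ih, pow_succ', Module.End.mul_apply]
  have hdeg : ∀ j : Fin (m + 1), ((tau - 1) ^ (j : ℕ)) (X ^ m : k[X]) ∈ degreeLT k (m + 1) := by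
    intro j
    rw [mem_degreeLT]
    refine lt_of_le_of_lt degree_le_natDegree ?_
    have := (diff_pow_X_pow (k := k) m j (Fin.is_le j)).1
    exact_mod_cast (show _ < m + 1 by omega)
  have hmem : ∀ u, Φ u ∈ degreeLT k (m + 1) := by
    intro u
    rw [← B.sum_repr u, map_sum]
    refine Submodule.sum_mem _ fun i _ => ?_
    rw [map_smul, hΦB]
    exact Submodule.smul_mem _ _ (hdeg i)
  have hfact : ∀ i : ℕ, i ≤ m → ((m.descFactorial i : ℕ) : k) ≠ 0 := by
    intro i hi h
    rw [CharP.cast_eq_zero_iff k p] at h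
    have hle : p ≤ m := by
      by_contra hlt
      have h1 : m.descFactorial i ∣ m.factorial :=
        ⟨(m - i).factorial, by rw [mul_comm, Nat.factorial_mul_descFactorial hi]⟩
      exact hlt ((hp.out.dvd_factorial).1 (h.trans h1))
    omega
  have hinj : Function.Injective Φ := by
    refine (injective_iff_map_eq_zero Φ).2 fun u hu => ?_
    have h : ∀ i, B.repr u i = 0 := by
      by_contra hne
      push Not at hne
      obtain ⟨i, hi⟩ := hne
      obtain ⟨j, hj, hjm⟩ := Finset.exists_min_image
        (Finset.univ.filter fun j => B.repr u j ≠ 0) id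
        ⟨i, Finset.mem_filter.2 ⟨Finset.mem_univ _, hi⟩⟩
      refine (Finset.mem_filter.1 hj).2 ?_
      have h1 := congrArg (fun q : k[X] => q.coeff (m - (j : ℕ))) hu
      simp only [coeff_zero] at h1
      rw [← B.sum_repr u, map_sum, finset_sum_coeff, Finset.sum_eq_single j (fun l _ hlj => ?_)
        (fun h => absurd (Finset.mem_univ _) h)] at h1
      · rw [map_smul, hΦB, coeff_smul, (diff_pow_X_pow m j (Fin.is_le j)).2, smul_eq_mul,
          mul_eq_zero] at h1
        exact h1.resolve_right (hfact j (Fin.is_le j))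
      · rcases lt_or_gt_of_ne hlj with hlt | hgt
        · have : B.repr u l = 0 := by
            by_contra hl
            exact (not_le.2 hlt) (hjm l (Finset.mem_filter.2 ⟨Finset.mem_univ _, hl⟩))
          rw [this, zero_smul, map_zero, coeff_zero]
        · rw [map_smul, hΦB, coeff_smul, coeff_eq_zero_of_natDegree_lt, smul_zero]
          have := (diff_pow_X_pow (k := k) m l (Fin.is_le l)).1
          have : (j : ℕ) < l := hgt
          have := Fin.is_le l
          omega
    rw [← B.sum_repr u]
    exact Finset.sum_eq_zero fun i _ => by rw [h i, zero_smul]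
  let Ψ₀ : U →ₗ[k] degreeLT k (m + 1) := Φ.codRestrict _ hmem
  have hΨbij : Function.Bijective Ψ₀ := by
    have hinj' : Function.Injective Ψ₀ := fun u v h => hinj (congrArg Subtype.val h)
    refine ⟨hinj', (LinearMap.injective_iff_surjective_of_finrank_eq_finrank ?_).1 hinj'⟩
    rw [hdU, finrank_eq_card_basis (degreeLT.basis k (m + 1)), Fintype.card_fin]
  let Ψ : U ≃ₗ[k] degreeLT k (m + 1) := LinearEquiv.ofBijective Ψ₀ hΨbij
  have hΨ : ∀ u, (Ψ u : k[X]) = Φ u := fun u => rfl
  set r : k := (m : k) with hr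
  have hpres := fun g => ops_preserve (k := k) (m + 1) (Nat.succ_pos m) g
  rw [Nat.add_sub_cancel] at hpres
  set De : Module.End k (degreeLT k (m + 1)) :=
    LinearMap.restrict derivative (fun g hg => (hpres g hg).1) with hDe
  set He : Module.End k (degreeLT k (m + 1)) :=
    LinearMap.restrict (opH r) (fun g hg => (hpres g hg).2.1) with hHe
  set Fe : Module.End k (degreeLT k (m + 1)) :=
    LinearMap.restrict (opF r) (fun g hg => (hpres g hg).2.2) with hFe
  have hval : ∀ (Q : Module.End k (degreeLT k (m + 1))) u,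
      Φ (Ψ.symm.conj Q u) = (Q (Ψ u) : k[X]) := by
    intro Q u
    rw [← hΨ, LinearEquiv.conj_apply_apply, LinearEquiv.symm_symm, LinearEquiv.apply_symm_apply]
  have he : ∀ u, Φ (Ψ.symm.conj De u) = derivative (Φ u) := fun u => by rw [hval]; rfl
  have hh : ∀ u, Φ (Ψ.symm.conj He u) = opH r (Φ u) := fun u => by rw [hval]; rfl
  have hf : ∀ u, Φ (Ψ.symm.conj Fe u) = opF r (Φ u) := fun u => by rw [hval]; rfl
  -- the scaling
  set b : k := (a : k)⁻¹ with hb
  have hscale : ∀ j : ℕ, (((tau - 1) ^ j) (X ^ m : k[X])).comp (C b * X) =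
      ((tau ^ a - 1) ^ j) ((X ^ m : k[X]).comp (C b * X)) := by
    intro j
    induction j with
    | zero => simp
    | succ j ih =>
      rw [pow_succ', Module.End.mul_apply, pow_succ' (tau ^ a - 1), Module.End.mul_apply, ← ih,
        LinearMap.sub_apply, LinearMap.sub_apply, Module.End.one_apply, Module.End.one_apply,
        tau_apply, tau_pow_apply, sub_comp, comp_assoc, comp_assoc]
      congr 2
      simp only [add_comp, one_comp, X_comp, mul_comp, C_comp, mul_add, ← map_mul, hb,
        inv_mul_cancel₀ ha, map_one]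
  have hMδ : ∀ j : ℕ, M * δ ^ j = (T ^ a - 1) ^ j * M := by
    intro j
    induction j with
    | zero => simp
    | succ j ih =>
      rw [pow_succ, ← mul_assoc, ih, mul_assoc, hδ, mul_sub, mul_one, hMT, pow_succ, mul_assoc,
        sub_mul, one_mul]
  set c : k := lam * (a : k) ^ m with hc
  have hΦM : ∀ u, Φ (M u) = C c * (Φ u).comp (C b * X) := by
    refine fun u => LinearMap.congr_fun (B.ext (f₁ := Φ ∘ₗ M)
      (f₂ := LinearMap.mulLeft k (C c) ∘ₗ (aeval (C b * X)).toLinearMap ∘ₗ Φ) fun i => ?_) u
    rw [LinearMap.comp_apply, LinearMap.comp_apply, LinearMap.comp_apply, hΦB, hB,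
      LinearMap.mulLeft_apply, AlgHom.toLinearMap_apply, ← comp_eq_aeval, ← Module.End.mul_apply,
      hMδ, Module.End.mul_apply, hM, map_smul, map_smul, hscale, pow_comp, X_comp, mul_pow, ← C_pow,
      ← smul_eq_C_mul (a := b ^ m), map_smul, ← smul_eq_C_mul, smul_smul]
    have hq : ∀ (j : ℕ) w, Φ (((T ^ a - 1) ^ j) w) = ((tau ^ a - 1) ^ j) (Φ w) := by
      intro j
      induction j with
      | zero => intro w; simp
      | succ j ih =>
        intro w
        rw [pow_succ', Module.End.mul_apply, LinearMap.sub_apply, Module.End.one_apply, map_sub,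
          hΦTpow, ih, pow_succ', Module.End.mul_apply]
        rfl
    have h0 : Φ v₀ = X ^ m := by simpa using hΦpow 0
    rw [hq, h0]
    congr 1
    rw [hc, hb, mul_assoc, ← mul_pow, mul_inv_cancel₀ ha, one_pow, mul_one]
  refine ⟨Ψ.symm.conj De, Ψ.symm.conj He, Ψ.symm.conj Fe, ?_, ?_, ?_, ⟨(a : k), ha, ?_, ?_, ?_⟩,
    ?_, ?_⟩
  · refine LinearMap.ext fun u => hinj ?_
    rw [Module.End.mul_apply, Module.End.mul_apply, hΦT, he, he, hΦT, tau_derivative]
  · refine LinearMap.ext fun u => hinj ?_
    rw [Module.End.mul_apply, Module.End.mul_apply, hΦT, hh, LinearMap.add_apply,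
      LinearMap.smul_apply, map_add, map_smul, hh, he, hΦT, tau_opH]
  · refine LinearMap.ext fun u => hinj ?_
    rw [Module.End.mul_apply, Module.End.mul_apply, hΦT, hf, LinearMap.sub_apply,
      LinearMap.sub_apply, map_sub, map_sub, hf, hh, he, hΦT, tau_opF]
  · refine LinearMap.ext fun u => hinj ?_
    rw [Module.End.mul_apply, LinearMap.smul_apply, Module.End.mul_apply, map_smul, hΦM, he, he,
      hΦM, derivative_C_mul, (comp_scale b r (Φ u)).1, smul_eq_C_mul]
    simp only [← mul_assoc, ← map_mul]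
    congr 2
    rw [hb]; field_simp
  · refine LinearMap.ext fun u => hinj ?_
    rw [Module.End.mul_apply, Module.End.mul_apply, hΦM, hh, hh, hΦM, (comp_scale b r (Φ u)).2.1]
    simp only [← smul_eq_C_mul, map_smul]
  · refine LinearMap.ext fun u => hinj ?_
    rw [Module.End.mul_apply, LinearMap.smul_apply, Module.End.mul_apply, map_smul, hΦM, hf, hf,
      hΦM, (comp_scale b r (Φ u)).2.2]
    simp only [← smul_eq_C_mul, map_smul, smul_smul]
    rw [hb, mul_comm]
  · rw [show Ψ.symm.conj De * Ψ.symm.conj Fe = Ψ.symm.conj (De * Fe) from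
      (LinearEquiv.conj_comp _ _ _).symm, LinearMap.trace_conj',
      LinearMap.trace_eq_matrix_trace k (degreeLT.basis k (m + 1))]
    have hdiag : ∀ i : Fin (m + 1), LinearMap.toMatrix (degreeLT.basis k (m + 1))
        (degreeLT.basis k (m + 1)) (De * Fe) i i =
        (((i : ℤ) + 1) * (((m + 1 : ℕ) : ℤ) - 1 - i) : ℤ) := by
      intro i
      rw [LinearMap.toMatrix_apply, degreeLT.basis_repr]
      show (derivative (opF r ((degreeLT.basis k (m + 1) i : degreeLT k (m + 1)) : k[X]))).coeff i = _
      rw [degreeLT.basis_val, coeff_derivative, opF_apply, coeff_sub, coeff_C_mul, coeff_X_mul,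
        coeff_X_pow_self]
      rcases Nat.eq_zero_or_pos (i : ℕ) with h0 | h0
      · rw [h0, pow_two, mul_assoc, coeff_X_mul, coeff_X_mul_zero]
        simp [hr]
      · obtain ⟨j, hj⟩ : ∃ j, (i : ℕ) = j + 1 := ⟨(i : ℕ) - 1, by omega⟩
        rw [hj, show j + 1 + 1 = j + 2 from rfl, coeff_X_pow_mul, coeff_derivative,
          coeff_X_pow_self, hr]
        push_cast
        ring
    rw [Matrix.trace, Finset.sum_congr rfl fun i _ => by rw [Matrix.diag_apply, hdiag],
      Fin.sum_univ_eq_sum_range (fun i => ((((i : ℤ) + 1) * (((m + 1 : ℕ) : ℤ) - 1 - i) : ℤ) : k))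
        (m + 1), ← Int.cast_sum, Ne, CharP.intCast_eq_zero_iff k p]
    intro hdvd
    have h6 : (p : ℤ) ∣ (((m + 1 : ℕ) : ℤ) - 1) * ((m + 1 : ℕ) : ℤ) * (((m + 1 : ℕ) : ℤ) + 1) := by
      rw [← six_mul_sum]
      exact hdvd.mul_left 6
    have hn : p ∣ m * (m + 1) * (m + 2) := by
      rw [← Int.natCast_dvd_natCast]
      convert h6 using 1
      push_cast
      ring
    rcases (Nat.Prime.dvd_mul hp.out).1 hn with h | h
    · rcases (Nat.Prime.dvd_mul hp.out).1 h with h | h
      · have := Nat.le_of_dvd (by omega) h; omega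
      · have := Nat.le_of_dvd (by omega) h; omega
    · have := Nat.le_of_dvd (by omega) h; omega
  · refine ⟨m + 1, LinearMap.ext fun u => hinj ?_⟩
    have hpw : ∀ (j : ℕ), Φ (((Ψ.symm.conj De) ^ j) u) = (derivative^[j]) (Φ u) := by
      intro j
      induction j with
      | zero => simp
      | succ j ih => rw [pow_succ', Module.End.mul_apply, he, ih, Function.iterate_succ_apply']
    rw [hpw, LinearMap.zero_apply, map_zero]
    refine iterate_derivative_eq_zero ?_
    have h1 := mem_degreeLT.1 (hmem u)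
    by_cases h0 : Φ u = 0
    · rw [h0]; simp
    · exact (natDegree_lt_iff_degree_lt h0).2 h1

end Cfsg.Agent.H42.SmallFaithful
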