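import Mathlib
import Cfsg.Agent.H42.SmallFaithful.Model
import Cfsg.Agent.H43.D1.SmallModular
import Cfsg.Agent.H43.D1.Classes

/-!
# The three-dimensional orthogonal representation inside the adjoint module

For an irreducible module of dimension at most `p / 2` on which `x` acts nontrivially and the
centralizer of `x` in the complement by scalars, the adjoint module has a three-dimensional
invariant subspace with a nondegenerate invariant symmetric form.
-/

set_option autoImplicit false
set_option maxHeartbeats 1600000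
set_option linter.unusedSectionVars false

namespace Cfsg.Agent.H42.SmallFaithful

open Module Cfsg.Agent.H43.D1

variable {k : Type*} [Field k] [IsAlgClosed k] {G : Type*} [Group G] [Fintype G] {p : ℕ}
  [hp : Fact p.Prime] [CharP k p] {U : Type*} [AddCommGroup U] [Module k U] [FiniteDimensional k U]

/-- An operator of finite order prime to the characteristic has an eigenvector outside any proper
subspace. -/
theorem exists_eigenvector_not_mem (A : Module.End k U) {n : ℕ} (hn : ¬ p ∣ n) (hA : A ^ n = 1)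
    (D : Submodule k U) (hD : D ≠ ⊤) : ∃ (c : k) (v : U), A v = c • v ∧ v ∉ D := by
  have hn0 : (n : k) ≠ 0 := fun h => hn ((CharP.cast_eq_zero_iff k p n).1 h)
  have hss : A.IsSemisimple := by
    refine Module.End.isSemisimple_of_squarefree_aeval_eq_zero
      (p := Polynomial.X ^ n - Polynomial.C (1 : k)) ?_ ?_
    · exact (Polynomial.separable_X_pow_sub_C (1 : k) hn0 one_ne_zero).squarefree
    · simp [hA]
  have htop : ⨆ c : k, A.eigenspace c = ⊤ := by
    rw [← Module.End.iSup_maxGenEigenspace_eq_top A]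
    exact iSup_congr fun c => (hss.isFinitelySemisimple.maxGenEigenspace_eq_eigenspace c).symm
  by_contra h
  push Not at h
  refine hD (top_le_iff.1 (htop ▸ iSup_le fun c v hv => ?_))
  exact h c v (Module.End.mem_eigenspace_iff.1 hv)

/-- A small irreducible module is a single Jordan block for `x`, with a generating eigenvector
for the complement. -/
theorem exists_adapted (S : Setup p G) (ρ : G →* Module.End k U) (hρ : IsIrred ρ)
    (hd : 2 * finrank k U ≤ p) (hx : ρ S.x ≠ 1)
    (hscal : ∀ v : S.V, ∃ c : k, ρ ((v : S.L) : G) = c • 1) :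
    ∃ (l₀ : S.L) (v₀ : U) (lam : k), ρ (l₀ : G) v₀ = lam • v₀ ∧
      ((ρ S.x - 1) ^ (finrank k U - 1)) v₀ ≠ 0 ∧
      ∀ l : S.L, ∃ (i : ℕ) (v : S.V), l = l₀ ^ i * (v : S.L) := by
  classical
  set δ := delta ρ S.x with hδ
  set D := LinearMap.range δ with hD
  have hδ0 : δ ≠ 0 := fun h => hx (sub_eq_zero.1 h)
  have hnil : IsNilpotent δ := ⟨p, delta_pow_eq_zero ρ S.orderOf_x⟩
  have hDtop : D ≠ ⊤ := by
    intro h
    have hinj : Function.Injective δ :=
      LinearMap.injective_iff_surjective.2 (LinearMap.range_eq_top.1 h)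
    obtain ⟨n, hn⟩ := hnil
    have hinjn : Function.Injective (δ ^ n) := by
      rw [Module.End.coe_pow]; exact hinj.iterate n
    refine hδ0 (LinearMap.ext fun u => ?_)
    have := hinjn (a₁ := δ u) (a₂ := 0) (by rw [hn]; simp)
    simpa using this
  obtain ⟨γ, hγ⟩ := IsCyclic.exists_generator (α := S.act.range)
  obtain ⟨l₀, hl₀⟩ := γ.2
  have hgenL : ∀ l : S.L, ∃ (i : ℕ) (v : S.V), l = l₀ ^ i * (v : S.L) := by
    intro l
    obtain ⟨i, hi⟩ := (mem_powers_iff_mem_zpowers).2 (hγ ⟨S.act l, ⟨l, rfl⟩⟩)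
    refine ⟨i, ⟨(l₀ ^ i)⁻¹ * l, ?_⟩, by simp⟩
    rw [MonoidHom.mem_ker, map_mul, map_inv, map_pow, hl₀]
    have h1 := congrArg Subtype.val hi
    simp only [SubmonoidClass.coe_pow] at h1
    rw [h1, inv_mul_cancel]
  obtain ⟨lam, v₀, hv₀, hv₀D⟩ := exists_eigenvector_not_mem (ρ (l₀ : G))
    (S.not_dvd_orderOf_L l₀) (by rw [← map_pow, pow_orderOf_eq_one, map_one]) D hDtop
  refine ⟨l₀, v₀, lam, hv₀, ?_, hgenL⟩
  set W : Submodule k U := D ⊔ Submodule.span k {v₀} with hW
  have hDinv : ∀ l ∈ S.L, ∀ w ∈ D, ρ l w ∈ D := by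
    rintro l hl _ ⟨w, rfl⟩
    have h : ρ l (δ w) = ρ (l * S.x * l⁻¹) (ρ l w) - ρ l w := by
      rw [← Module.End.mul_apply (ρ (l * S.x * l⁻¹)), ← map_mul, inv_mul_cancel_right, map_mul,
        Module.End.mul_apply, hδ, delta, LinearMap.sub_apply, Module.End.one_apply, map_sub]
    rw [h]
    exact sub_mem_range ρ (S.le_norm l hl) _
  have hWinv : ∀ l ∈ S.L, ∀ w ∈ W, ρ l w ∈ W := by
    intro l hl w hw
    rw [hW, Submodule.mem_sup] at hw ⊢
    obtain ⟨a, ha, b, hb, rfl⟩ := hw
    obtain ⟨c, rfl⟩ := Submodule.mem_span_singleton.1 hb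
    refine ⟨ρ l a, hDinv l hl a ha, ρ l (c • v₀), ?_, (map_add _ _ _).symm⟩
    obtain ⟨i, v, hiv⟩ := hgenL ⟨l, hl⟩
    obtain ⟨cv, hcv⟩ := hscal v
    have hpow : ∀ j : ℕ, (ρ (l₀ : G) ^ j) v₀ = lam ^ j • v₀ := by
      intro j
      induction j with
      | zero => simp
      | succ j ih => rw [pow_succ, Module.End.mul_apply, hv₀, map_smul, ih, smul_smul, pow_succ']
    rw [show l = (l₀ : G) ^ i * ((v : S.L) : G) from congrArg Subtype.val hiv, map_mul, map_pow, hcv,
      Module.End.mul_apply, LinearMap.smul_apply, Module.End.one_apply]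
    simp only [map_smul, hpow, smul_smul]
    exact Submodule.mem_span_singleton.2 ⟨_, rfl⟩
  have hK : LinearMap.ker (normP ρ S.x) = ⊤ := by
    rw [LinearMap.ker_eq_top, normP_eq_pow ρ S.orderOf_x]
    refine pow_eq_zero_of_le ?_ (delta_pow_finrank ρ S.orderOf_x)
    have := hp.out.two_le
    omega
  have hWtop : W = ⊤ := by
    rcases quot_simple S ρ hρ W le_sup_left (hK ▸ le_top) hWinv with h | h
    · refine absurd ?_ hv₀D
      rw [hD, hδ, ← h]
      exact Submodule.mem_sup_right (Submodule.mem_span_singleton_self v₀)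
    · exact h.trans hK
  -- the orbit of `v₀` under `δ` spans
  have hspan : ∀ j : ℕ, (⊤ : Submodule k U) ≤
      Submodule.span k ((fun i => (δ ^ i) v₀) '' Set.Iio j) ⊔ LinearMap.range (δ ^ j) := by
    intro j
    induction j with
    | zero =>
      rw [pow_zero, Module.End.one_eq_id, LinearMap.range_id]
      exact le_sup_right
    | succ j ih =>
      refine ih.trans (sup_le ((Submodule.span_mono (Set.image_mono
        (Set.Iio_subset_Iio j.le_succ))).trans le_sup_left) ?_)
      rintro _ ⟨u, rfl⟩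
      have hu : u ∈ W := hWtop ▸ Submodule.mem_top
      rw [hW, Submodule.mem_sup] at hu
      obtain ⟨_, ⟨w, rfl⟩, b, hb, rfl⟩ := hu
      obtain ⟨c, rfl⟩ := Submodule.mem_span_singleton.1 hb
      rw [map_add, map_smul, ← Module.End.mul_apply, ← pow_succ]
      exact add_mem (Submodule.mem_sup_right ⟨w, rfl⟩) (Submodule.mem_sup_left (Submodule.smul_mem _ _
        (Submodule.subset_span ⟨j, Set.mem_Iio.2 j.lt_succ_self, rfl⟩)))
  intro hzero
  have hd0 : 0 < finrank k U := by
    have := hρ.1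
    exact finrank_pos
  have hδd : (δ ^ (finrank k U - 1)) = 0 := by
    refine LinearMap.ext fun u => ?_
    have hu := hspan (finrank k U) (Submodule.mem_top (x := u))
    rw [delta_pow_finrank ρ S.orderOf_x, LinearMap.range_zero, sup_bot_eq] at hu
    rw [LinearMap.zero_apply]
    induction hu using Submodule.span_induction with
    | mem a ha =>
      obtain ⟨i, -, rfl⟩ := ha
      rw [← Module.End.mul_apply, ← pow_add, add_comm, pow_add, Module.End.mul_apply,
        show (δ ^ (finrank k U - 1)) v₀ = 0 from hzero, map_zero]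
    | zero => rw [map_zero]
    | add a b _ _ ha hb => rw [map_add, ha, hb, add_zero]
    | smul c a _ ha => rw [map_smul, ha, smul_zero]
  -- too few vectors
  have hlt : finrank k (⊤ : Submodule k U) ≤ finrank k U - 1 := by
    have h1 := hspan (finrank k U - 1)
    rw [hδd, LinearMap.range_zero, sup_bot_eq] at h1
    refine (Submodule.finrank_mono h1).trans ?_
    have hfin : ((fun i => (δ ^ i) v₀) '' Set.Iio (finrank k U - 1)) =
        ↑((Finset.range (finrank k U - 1)).image fun i => (δ ^ i) v₀) := by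
      simp [Finset.coe_image, Finset.coe_range]
    rw [hfin]
    exact (finrank_span_finset_le_card _).trans (Finset.card_image_le.trans (Finset.card_range _).le)
  rw [finrank_top] at hlt
  omega

/-- The trace form on operators is nondegenerate. -/
theorem eq_zero_of_trace_mul {a : Module.End k U}
    (h : ∀ b : Module.End k U, LinearMap.trace k U (a * b) = 0) : a = 0 := by
  refine LinearMap.ext fun v => ?_
  rw [LinearMap.zero_apply, ← Module.forall_dual_apply_eq_zero_iff k]
  intro φ
  have h1 := h (φ.smulRight v)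
  have h2 : a * φ.smulRight v = φ.smulRight (a v) := LinearMap.ext fun u => by simp
  rwa [h2, LinearMap.trace_smulRight] at h1

theorem trace_adjRep (ρ : G →* Module.End k U) (g : G) (a b : Module.End k U) :
    LinearMap.trace k U (adjRep ρ g a * adjRep ρ g b) = LinearMap.trace k U (a * b) := by
  have h1 : ρ g⁻¹ * ρ g = 1 := by rw [← map_mul, inv_mul_cancel, map_one]
  rw [adjRep_apply, adjRep_apply,
    show ρ g * a * ρ g⁻¹ * (ρ g * b * ρ g⁻¹) = ρ g * a * (ρ g⁻¹ * ρ g) * b * ρ g⁻¹ by
      simp only [mul_assoc],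
    h1, mul_one, LinearMap.trace_mul_comm, ← mul_assoc, ← mul_assoc, h1, one_mul]

/-- The adjoint module of a small irreducible module contains a three-dimensional invariant
subspace on which the trace form is nondegenerate and `x` is a single Jordan block. -/
theorem exists_three (S : Setup p G) (ρ : G →* Module.End k U) (hρ : IsIrred ρ)
    (hd : 2 * finrank k U ≤ p) (hx : ρ S.x ≠ 1)
    (hscal : ∀ v : S.V, ∃ c : k, ρ ((v : S.L) : G) = c • 1) :
    ∃ Y : Submodule k (Module.End k U), (∀ g, ∀ y ∈ Y, adjRep ρ g y ∈ Y) ∧ finrank k Y = 3 ∧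
      (∀ y ∈ Y, (∀ z ∈ Y, LinearMap.trace k U (y * z) = 0) → y = 0) ∧
      ∃ y ∈ Y, (delta (adjRep ρ) S.x ^ 2) y ≠ 0 := by
  classical
  have := hρ.1
  obtain ⟨l₀, v₀, lam, hM, hv₀, hgenL⟩ := exists_adapted S ρ hρ hd hx hscal
  have hp2 := hp.out.two_le
  have hd2 : 2 ≤ finrank k U := by
    by_contra h
    refine hx (sub_eq_zero.1 ?_)
    exact pow_eq_zero_of_le (show finrank k U ≤ 1 by omega) (delta_pow_finrank ρ S.orderOf_x) |>
      fun e => by rwa [pow_one] at e
  have hd1 : finrank k U + 1 < p := by omega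
  set a₀ : ℕ := (S.act l₀ : ZMod p).val with ha₀
  have ha : (a₀ : k) ≠ 0 := by
    intro h
    rw [CharP.cast_eq_zero_iff k p, ← CharP.cast_eq_zero_iff (ZMod p) p, ha₀,
      ZMod.natCast_rightInverse] at h
    exact (S.act l₀).ne_zero h
  have hMT : ρ (l₀ : G) * ρ S.x = ρ S.x ^ a₀ * ρ (l₀ : G) := by
    rw [← map_pow, ← map_mul, ← map_mul, ← S.act_spec l₀, inv_mul_cancel_right]
  obtain ⟨e, h, f, hTe, hTh, hTf, ⟨b, hb, hMe, hMh, hMf⟩, hc, hen⟩ :=
    exists_triple rfl hd2 hd1 (ρ S.x) v₀ (delta_pow_finrank ρ S.orderOf_x) hv₀ (ρ (l₀ : G)) hM a₀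
      ha hMT
  have h2k : (2 : k) ≠ 0 := fun h2 => by
    have := Nat.le_of_dvd (by omega) ((CharP.cast_eq_zero_iff k p 2).1 (by exact_mod_cast h2))
    omega
  set α := adjRep ρ with hα
  set δ := delta α S.x with hδ
  set τ : Module.End k U →ₗ[k] Module.End k U →ₗ[k] k :=
    (LinearMap.mul k (Module.End k U)).compr₂ (LinearMap.trace k U) with hτ
  have hτa : ∀ a b, τ a b = LinearMap.trace k U (a * b) := fun a b => rfl
  have hτc : ∀ a b, τ a b = τ b a := fun a b => LinearMap.trace_mul_comm k a b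
  have hinvτ : ∀ g a b, τ (α g a) (α g b) = τ a b := fun g a b => trace_adjRep ρ g a b
  have hconj : ∀ g (a a' : Module.End k U), ρ g * a = a' * ρ g → α g a = a' := by
    intro g a a' he
    rw [hα, adjRep_apply, he, mul_assoc, ← map_mul, mul_inv_cancel, map_one, mul_one]
  have hxe : α S.x e = e := hconj _ _ _ hTe
  have hxh : α S.x h = h + (2 : k) • e := hconj _ _ _ hTh
  have hxf : α S.x f = f - h - e := hconj _ _ _ hTf
  have hle : α (l₀ : G) e = b • e := hconj _ _ _ (by rw [hMe, smul_mul_assoc])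
  have hlh : α (l₀ : G) h = h := hconj _ _ _ hMh
  have hlf : α (l₀ : G) f = b⁻¹ • f := hconj _ _ _ (by rw [hMf, smul_mul_assoc])
  -- the Gram matrix
  set c := τ e f with hcdef
  have hc0 : c ≠ 0 := hc
  have hee : τ e e = 0 :=
    (LinearMap.isNilpotent_trace_of_isNilpotent ((Commute.refl e).isNilpotent_mul_right hen)).eq_zero
  have heh : τ e h = 0 := by
    have h1 := hinvτ S.x h h
    simp only [hxh, map_add, map_smul, LinearMap.add_apply, LinearMap.smul_apply, smul_eq_mul,
      hee, hτc h e] at h1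
    exact mul_left_cancel₀ (mul_ne_zero h2k h2k) (by linear_combination h1)
  have hhh : τ h h = 2 * c := by
    have h1 := hinvτ S.x h f
    simp only [hxh, hxf, map_add, map_sub, map_smul, LinearMap.add_apply, LinearMap.sub_apply,
      LinearMap.smul_apply, smul_eq_mul, hee, hτc h e, heh, ← hcdef] at h1
    linear_combination -h1
  have hhf : τ h f = 0 := by
    have h1 := hinvτ S.x f f
    simp only [hxf, map_sub, LinearMap.sub_apply, smul_eq_mul, hee, hτc h e, heh, hhh, hτc f e,
      hτc f h, ← hcdef] at h1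
    exact mul_left_cancel₀ h2k (by linear_combination -h1)
  set W : Submodule k (Module.End k U) := Submodule.span k {e, h, f} with hW
  have heW : e ∈ W := Submodule.subset_span (by simp)
  have hhW : h ∈ W := Submodule.subset_span (by simp)
  have hfW : f ∈ W := Submodule.subset_span (by simp)
  have hWdec : ∀ w ∈ W, ∃ r s t : k, w = r • e + s • h + t • f := by
    intro w hw
    rw [hW, Submodule.mem_span_insert] at hw
    obtain ⟨r, z, hz, rfl⟩ := hw
    rw [Submodule.mem_span_pair] at hz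
    obtain ⟨s, t, rfl⟩ := hz
    exact ⟨r, s, t, by rw [add_assoc]⟩
  -- the normalizer stabilizes `W`
  let St : Submonoid G :=
    { carrier := {g | ∀ w ∈ W, α g w ∈ W}
      one_mem' := fun w hw => by rwa [map_one, Module.End.one_apply]
      mul_mem' := fun {g g'} hg hg' w hw => by
        rw [map_mul, Module.End.mul_apply]; exact hg _ (hg' w hw) }
  have hmemSt : ∀ g, α g e ∈ W → α g h ∈ W → α g f ∈ W → g ∈ St := by
    intro g h1 h2 h3 w hw
    obtain ⟨r, s, t, rfl⟩ := hWdec w hw
    rw [map_add, map_add, map_smul, map_smul, map_smul]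
    exact add_mem (add_mem (W.smul_mem r h1) (W.smul_mem s h2)) (W.smul_mem t h3)
  have hxSt : S.x ∈ St := hmemSt _ (by rw [hxe]; exact heW)
    (by rw [hxh]; exact add_mem hhW (W.smul_mem _ heW))
    (by rw [hxf]; exact sub_mem (sub_mem hfW hhW) heW)
  have hlSt : (l₀ : G) ∈ St := hmemSt _ (by rw [hle]; exact W.smul_mem _ heW)
    (by rw [hlh]; exact hhW) (by rw [hlf]; exact W.smul_mem _ hfW)
  have hWinv : ∀ g ∈ S.N, ∀ w ∈ W, α g w ∈ W := by
    intro g hg
    obtain ⟨l, hl, u, hu, rfl⟩ := S.mem_N_iff.1 hg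
    obtain ⟨i, v, hiv⟩ := hgenL ⟨l, hl⟩
    obtain ⟨j, rfl⟩ := (mem_powers_iff_mem_zpowers (x := S.x)).2 hu
    refine (mul_mem ?_ (pow_mem hxSt j) : l * S.x ^ j ∈ St)
    rw [show l = (l₀ : G) ^ i * ((v : S.L) : G) from congrArg Subtype.val hiv]
    refine mul_mem (pow_mem hlSt i) fun w hw => ?_
    obtain ⟨cv, hcv⟩ := hscal v
    rw [hconj ((v : S.L) : G) w w (by rw [hcv, smul_mul_assoc, one_mul, mul_smul_comm, mul_one])]
    exact hw
  -- the orthogonal projection
  set π : Module.End k (Module.End k U) :=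
    (c⁻¹ • τ f - (c⁻¹ * c⁻¹ * τ f f) • τ e).smulRight e + ((2 * c)⁻¹ • τ h).smulRight h +
      (c⁻¹ • τ e).smulRight f with hπ
  have hπW : ∀ a, π a ∈ W := by
    intro a
    simp only [hπ, LinearMap.add_apply, LinearMap.smulRight_apply]
    exact add_mem (add_mem (W.smul_mem _ heW) (W.smul_mem _ hhW)) (W.smul_mem _ hfW)
  have hπperp : ∀ a, ∀ w ∈ W, τ (π a) w = τ a w := by
    intro a w hw
    obtain ⟨r, s, t, rfl⟩ := hWdec w hw
    simp only [hπ, LinearMap.add_apply, LinearMap.smulRight_apply, map_add, map_smul,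
      LinearMap.smul_apply, LinearMap.sub_apply, smul_eq_mul, hee, hτc h e, heh, hhh, hτc f e,
      hτc f h, hhf, ← hcdef, hτc a e, hτc a h, hτc a f]
    field_simp
    ring
  have hWzero : ∀ w ∈ W, (∀ w' ∈ W, τ w w' = 0) → w = 0 := by
    intro w hw hall
    obtain ⟨r, s, t, rfl⟩ := hWdec w hw
    have h1 := hall e heW
    have h2 := hall h hhW
    have h3 := hall f hfW
    simp only [map_add, map_smul, LinearMap.add_apply, LinearMap.smul_apply, smul_eq_mul, hee,
      hτc h e, heh, hhh, hτc f e, hτc f h, hhf, ← hcdef, mul_zero, zero_add, add_zero,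
      mul_eq_zero, hc0, h2k, or_false, false_or] at h1 h2
    simp only [map_add, map_smul, LinearMap.add_apply, LinearMap.smul_apply, smul_eq_mul, hhf,
      ← hcdef, mul_zero, add_zero, h1, h2, zero_mul, mul_eq_zero, hc0, or_false] at h3
    simp [h1, h2, h3]
  have hπid : ∀ w ∈ W, π w = w := by
    intro w hw
    refine sub_eq_zero.1 (hWzero _ (sub_mem (hπW w) hw) fun w' hw' => ?_)
    rw [map_sub, LinearMap.sub_apply, hπperp w w' hw', sub_self]
  have hπsym : ∀ a a', τ (π a) a' = τ a (π a') := by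
    intro a a'
    rw [← hπperp a (π a') (hπW a'), hτc (π a) (π a'), hπperp a' (π a) (hπW a), hτc]
  have hπN : ∀ g ∈ S.N, α g * π * α g⁻¹ = π := by
    intro g hg
    refine LinearMap.ext fun a => ?_
    rw [Module.End.mul_apply, Module.End.mul_apply]
    refine sub_eq_zero.1 (hWzero _ (sub_mem (hWinv g hg _ (hπW _)) (hπW a)) fun w hw => ?_)
    have h0 : α g (α g⁻¹ w) = w := by
      rw [← Module.End.mul_apply, ← map_mul, mul_inv_cancel, map_one, Module.End.one_apply]
    rw [map_sub, LinearMap.sub_apply, hπperp a w hw, sub_eq_zero]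
    conv_lhs => rw [← h0]
    rw [hinvτ, hπperp _ _ (hWinv g⁻¹ (S.N.inv_mem hg) w hw), hinvτ]
  -- the transfer
  let F : G ⧸ S.N → Module.End k (Module.End k U) := fun q => α q.out * π * α q.out⁻¹
  have hFact : ∀ (g : G) (q : G ⧸ S.N), F (g • q) = α g * F q * α g⁻¹ := by
    intro g q
    obtain ⟨n, hn⟩ := QuotientGroup.mk_out_eq_mul S.N (g * q.out)
    have hgc : g • q = QuotientGroup.mk (g * q.out) := by
      conv_lhs => rw [← QuotientGroup.out_eq' q]
      rfl
    show α (g • q).out * π * α (g • q).out⁻¹ = _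
    rw [hgc, hn]
    simp only [F, map_mul, mul_inv_rev]
    calc α g * α q.out * α (n : G) * π * (α (n : G)⁻¹ * (α q.out⁻¹ * α g⁻¹))
        = α g * α q.out * (α (n : G) * π * α (n : G)⁻¹) * (α q.out⁻¹ * α g⁻¹) := by
          simp only [mul_assoc]
      _ = _ := by rw [hπN n n.2]; simp only [mul_assoc]
  set E : Module.End k (Module.End k U) := ∑ q : G ⧸ S.N, F q with hE
  have hEcomm : ∀ g, α g * E = E * α g := by
    intro g
    have h : α g * E * α g⁻¹ = E := by
      rw [hE, Finset.mul_sum, Finset.sum_mul]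
      exact Fintype.sum_equiv (MulAction.toPerm g) _ _ fun q => (hFact g q).symm
    conv_rhs => rw [← h]
    rw [mul_assoc, ← map_mul, inv_mul_cancel, map_one, mul_one]
  have hEsym : ∀ a a', τ (E a) a' = τ a (E a') := by
    intro a a'
    simp only [hE, LinearMap.sum_apply, map_sum]
    refine Finset.sum_congr rfl fun q _ => ?_
    show τ (α q.out (π (α q.out⁻¹ a))) a' = τ a (α q.out (π (α q.out⁻¹ a')))
    rw [← hinvτ q.out⁻¹ _ a', ← hinvτ q.out⁻¹ a (α q.out _)]
    simp only [← Module.End.mul_apply (α q.out⁻¹) (α q.out), ← map_mul, inv_mul_cancel, map_one,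
      Module.End.one_apply, hπsym]
  have hK : ∀ a, normP α S.x a = 0 := fun a => by
    rw [normP_eq_pow α S.orderOf_x, adjRep_delta_pow ρ S.orderOf_x hd, LinearMap.zero_apply]
  have hEmod : ∀ a, ∃ a', E a = π a + δ a' := by
    intro a
    suffices E a - π a ∈ LinearMap.range δ by
      obtain ⟨a', ha'⟩ := this
      exact ⟨a', by rw [ha', add_sub_cancel]⟩
    set q₀ : G ⧸ S.N := QuotientGroup.mk (1 : G)
    have hF0 : F q₀ = π := hπN _ (by
      obtain ⟨n, hn⟩ := QuotientGroup.mk_out_eq_mul S.N (1 : G)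
      rw [hn, one_mul]; exact n.2)
    rw [hE, ← Finset.add_sum_erase _ _ (Finset.mem_univ q₀), LinearMap.add_apply, hF0,
      add_sub_cancel_left]
    refine sum_free_mem α _ (fun u q hq => ?_) (fun u q hq huq => ?_) _
      (fun u q _ => hFact (u : G) q) (hK a)
    · refine Finset.mem_erase.2 ⟨fun h => (Finset.mem_erase.1 hq).1 ?_, Finset.mem_univ _⟩
      rw [← inv_smul_smul u q, h]
      exact QuotientGroup.eq.2 (by simpa using S.P_le_N u.2)
    · induction q using QuotientGroup.induction_on with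
      | H g =>
        by_contra hu
        have hg : g ∈ S.N := by
          refine S.mem_N_of_fix u.2 (fun h => hu (Subtype.ext h)) ?_
          have h2 : (QuotientGroup.mk g : G ⧸ S.N) = QuotientGroup.mk ((u : G) * g) := huq.symm
          rw [QuotientGroup.eq] at h2
          simpa [mul_assoc] using h2
        exact (Finset.mem_erase.1 hq).1 (QuotientGroup.eq.2 (by simpa using hg))
  have hEδ : Commute E δ := by
    rw [hδ, delta]
    exact (show Commute E (α S.x) from (hEcomm S.x).symm).sub_right (Commute.one_right _)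
  have hδe : δ e = 0 := by
    rw [hδ, delta, LinearMap.sub_apply, Module.End.one_apply, hxe, sub_self]
  have hδh : δ h = (2 : k) • e := by
    rw [hδ, delta, LinearMap.sub_apply, Module.End.one_apply, hxh, add_sub_cancel_left]
  have hδf : δ f = -h - e := by
    rw [hδ, delta, LinearMap.sub_apply, Module.End.one_apply, hxf]; abel
  have hδ2f : (δ ^ 2) f = -((2 : k) • e) := by
    rw [sq, Module.End.mul_apply, hδf, map_sub, map_neg, hδh, hδe, sub_zero]
  have hδ3W : ∀ w ∈ W, (δ ^ 3) w = 0 := by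
    intro w hw
    obtain ⟨r, s, t, rfl⟩ := hWdec w hw
    simp only [pow_succ, pow_zero, one_mul, Module.End.mul_apply, map_add, map_smul, hδe, hδh, hδf,
      map_sub, map_neg, map_zero, smul_zero, neg_zero, sub_zero, add_zero]
  have hδWpow : ∀ (i : ℕ), ∀ w ∈ W, (δ ^ i) w ∈ W := by
    intro i
    induction i with
    | zero => exact fun w hw => hw
    | succ i ih =>
      intro w hw
      rw [pow_succ, Module.End.mul_apply]
      refine ih _ ?_
      rw [hδ, delta, LinearMap.sub_apply, Module.End.one_apply]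
      exact sub_mem (hxSt w hw) hw
  have hEpow : ∀ (i : ℕ) a, ∃ a', E ((δ ^ i) a) = (δ ^ i) (π a) + (δ ^ (i + 1)) a' := by
    intro i a
    obtain ⟨a', ha'⟩ := hEmod a
    refine ⟨a', ?_⟩
    rw [← Module.End.mul_apply, (hEδ.pow_right i).eq, Module.End.mul_apply, ha', map_add,
      pow_succ, Module.End.mul_apply]
  have hiter : ∀ (n i : ℕ) a, ∃ a', (E ^ n) ((δ ^ (i + 3)) a) = (δ ^ (i + 3 + n)) a' := by
    intro n
    induction n with
    | zero => exact fun i a => ⟨a, rfl⟩
    | succ n ih =>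
      intro i a
      obtain ⟨a', ha'⟩ := hEpow (i + 3) a
      rw [pow_add δ i 3, Module.End.mul_apply _ _ (π a), hδ3W _ (hπW a), map_zero, zero_add,
        ← pow_add] at ha'
      obtain ⟨a'', ha''⟩ := ih (i + 1) a'
      exact ⟨a'', by rw [pow_succ, Module.End.mul_apply, ha', show i + 3 + 1 = i + 1 + 3 by ring,
        ha'', show i + 1 + 3 + n = i + 3 + (n + 1) by ring]⟩
  obtain ⟨n, hn, hcompl⟩ : ∃ n, p ≤ n ∧
      IsCompl (LinearMap.ker (E ^ n)) (LinearMap.range (E ^ n)) :=
    (Filter.eventually_atTop.1 E.eventually_isCompl_ker_pow_range_pow).elim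
      fun n h => ⟨max n p, le_max_right _ _, h _ (le_max_left _ _)⟩
  have hF3 : ∀ a, (E ^ n) ((δ ^ 3) a) = 0 := by
    intro a
    obtain ⟨a', ha'⟩ := hiter n 0 a
    rw [zero_add] at ha'
    rw [ha', pow_eq_zero_of_le (by omega) (delta_pow_eq_zero α S.orderOf_x), LinearMap.zero_apply]
  set Y := LinearMap.range (E ^ n) with hY
  set Q : ℕ → Submodule k (Module.End k U) :=
    fun i => (LinearMap.range (δ ^ i)).map (E ^ n) with hQ
  have hQY : ∀ i, Q i ≤ Y := fun i => LinearMap.map_le_range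
  have hQE : ∀ i, Q i = (Q i).map E := by
    intro i
    symm
    refine Submodule.eq_of_le_of_finrank_le ?_ ?_
    · rintro _ ⟨_, ⟨_, ⟨a, rfl⟩, rfl⟩, rfl⟩
      refine ⟨(δ ^ i) (E a), ⟨E a, rfl⟩, ?_⟩
      rw [← Module.End.mul_apply (δ ^ i), ← (hEδ.pow_right i).eq, Module.End.mul_apply,
        ← Module.End.mul_apply (E ^ n), ← pow_succ, pow_succ', Module.End.mul_apply]
    · rw [← LinearMap.range_domRestrict]
      refine (LinearMap.finrank_range_of_inj ?_).ge
      refine (injective_iff_map_eq_zero _).2 fun z hz => Subtype.ext ?_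
      refine Submodule.disjoint_def.1 hcompl.disjoint _ (LinearMap.mem_ker.2 ?_) (hQY i z.2)
      rw [← Nat.sub_add_cancel (show 1 ≤ n by omega), pow_add, pow_one, Module.End.mul_apply,
        show E (z : Module.End k U) = 0 from hz, map_zero]
  have hQstep : ∀ i, Q i ≤ W.map (E ^ n) ⊔ Q (i + 1) := by
    intro i
    rw [hQE i]
    rintro _ ⟨_, ⟨_, ⟨a, rfl⟩, rfl⟩, rfl⟩
    obtain ⟨a', ha'⟩ := hEpow i a
    rw [← Module.End.mul_apply E, ← pow_succ', pow_succ, Module.End.mul_apply, ha', map_add]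
    exact add_mem (Submodule.mem_sup_left ⟨_, hδWpow i _ (hπW a), rfl⟩)
      (Submodule.mem_sup_right ⟨_, ⟨a', rfl⟩, rfl⟩)
  have hYW : Y ≤ W.map (E ^ n) := by
    have h3 : Q 3 ≤ W.map (E ^ n) := by
      rintro _ ⟨_, ⟨a, rfl⟩, rfl⟩
      rw [hF3]; exact zero_mem _
    have h2 : Q 2 ≤ W.map (E ^ n) := (hQstep 2).trans (sup_le le_rfl h3)
    have h1 : Q 1 ≤ W.map (E ^ n) := (hQstep 1).trans (sup_le le_rfl h2)
    have h0 : Q 0 ≤ W.map (E ^ n) := (hQstep 0).trans (sup_le le_rfl h1)
    rintro _ ⟨a, rfl⟩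
    exact h0 ⟨a, ⟨a, rfl⟩, rfl⟩
  have hdim : finrank k Y ≤ 3 := by
    refine (Submodule.finrank_mono hYW).trans ((Submodule.finrank_map_le _ _).trans ?_)
    rw [hW, show ({e, h, f} : Set (Module.End k U)) = ↑({e, h, f} : Finset (Module.End k U)) by simp]
    exact (finrank_span_finset_le_card _).trans Finset.card_le_three
  have hYinv : ∀ g, ∀ y ∈ Y, α g y ∈ Y := by
    rintro g _ ⟨a, rfl⟩
    exact ⟨α g a, (LinearMap.congr_fun ((show Commute (α g) E from hEcomm g).pow_right n).eq a).symm⟩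
  -- the top of the block survives
  have heF3 : ∀ a, (δ ^ 3) a ≠ e := by
    intro a hae
    refine hc0 ?_
    have hadj : ∀ a b, τ (δ a) b = τ a (α S.x⁻¹ b - b) := by
      intro a b
      rw [hδ, delta, LinearMap.sub_apply, Module.End.one_apply, map_sub, LinearMap.sub_apply,
        map_sub, ← hinvτ S.x⁻¹ (α S.x a) b, ← Module.End.mul_apply (α S.x⁻¹), ← map_mul,
        inv_mul_cancel, map_one, Module.End.one_apply]
    have hxi : ∀ b b', α S.x b' = b → α S.x⁻¹ b = b' := fun b b' hb => by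
      rw [← hb, ← Module.End.mul_apply, ← map_mul, inv_mul_cancel, map_one, Module.End.one_apply]
    have hie : α S.x⁻¹ e = e := hxi _ _ hxe
    have hih : α S.x⁻¹ h = h - (2 : k) • e :=
      hxi _ _ (by rw [map_sub, map_smul, hxh, hxe, add_sub_cancel_right])
    have hif : α S.x⁻¹ f = f + h - e :=
      hxi _ _ (by rw [map_sub, map_add, hxh, hxf, hxe, two_smul]; abel)
    have d1 : α S.x⁻¹ f - f = h - e := by rw [hif]; abel
    have d2 : α S.x⁻¹ (h - e) - (h - e) = -((2 : k) • e) := by rw [map_sub, hih, hie]; abel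
    have d3 : α S.x⁻¹ (-((2 : k) • e)) - -((2 : k) • e) = 0 := by
      rw [map_neg, map_smul, hie, sub_self]
    rw [hcdef, ← hae, pow_succ', pow_succ', pow_one, Module.End.mul_apply, Module.End.mul_apply,
      hadj, hadj, hadj, d1, d2, d3, map_zero]
  have hEe : ∀ j : ℕ, ∃ a, (E ^ j) e = e + (δ ^ 3) a := by
    intro j
    induction j with
    | zero => exact ⟨0, by simp⟩
    | succ j ih =>
      obtain ⟨a, ha⟩ := ih
      obtain ⟨a₁, ha₁⟩ := hEpow 2 (-((2 : k)⁻¹ • f))
      have he2 : (δ ^ 2) (-((2 : k)⁻¹ • f)) = e := by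
        rw [map_neg, map_smul, hδ2f, smul_neg, neg_neg, smul_smul, inv_mul_cancel₀ h2k, one_smul]
      rw [hπid _ (neg_mem (W.smul_mem _ hfW)), he2] at ha₁
      obtain ⟨a₂, ha₂⟩ := hEpow 3 a
      rw [hδ3W _ (hπW a), zero_add] at ha₂
      refine ⟨a₁ + δ a₂, ?_⟩
      rw [pow_succ', Module.End.mul_apply, ha, map_add, ha₁, ha₂, map_add,
        ← Module.End.mul_apply (δ ^ 3), ← pow_succ]
      abel
  have htop : (δ ^ 2) ((E ^ n) f) ≠ 0 := by
    intro h0
    rw [← Module.End.mul_apply, ← ((hEδ.pow_left n).pow_right 2).eq, Module.End.mul_apply, hδ2f,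
      map_neg, map_smul, neg_eq_zero, smul_eq_zero] at h0
    obtain ⟨a, ha⟩ := hEe n
    rw [h0.resolve_left h2k] at ha
    exact heF3 (-a) (by rw [map_neg]; exact neg_eq_of_add_eq_zero_left ha.symm)
  have hfY : (E ^ n) f ∈ Y := ⟨f, rfl⟩
  refine ⟨Y, hYinv, le_antisymm hdim ?_, ?_, (E ^ n) f, hfY, htop⟩
  · set y := (E ^ n) f
    have hδY : ∀ z ∈ Y, δ z ∈ Y := fun z hz => by
      rw [hδ, delta, LinearMap.sub_apply, Module.End.one_apply]
      exact sub_mem (hYinv _ z hz) hz
    have hy2 : δ (δ y) ≠ 0 := by rwa [sq, Module.End.mul_apply] at htop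
    obtain ⟨a', ha'⟩ : ∃ a', δ (δ (δ y)) = (δ ^ 3) a' := ⟨y, by simp [pow_succ]⟩
    have hy3 : δ (δ (δ y)) = 0 := by
      refine Submodule.disjoint_def.1 hcompl.disjoint _ (LinearMap.mem_ker.2 ?_)
        (hδY _ (hδY _ (hδY _ hfY)))
      rw [ha', hF3]
    have hind : LinearIndependent k ![(⟨y, hfY⟩ : Y), ⟨δ y, hδY _ hfY⟩, ⟨δ (δ y), hδY _ (hδY _ hfY)⟩] := by
      rw [Fintype.linearIndependent_iff]
      intro g hg
      have h0 := congrArg Subtype.val hg
      simp [Fin.sum_univ_three] at h0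
      have h1 := congrArg (fun z => δ (δ z)) h0
      simp only [map_add, map_smul, hy3, map_zero, smul_zero, add_zero, smul_eq_zero, hy2,
        or_false] at h1
      rw [h1, zero_smul, zero_add] at h0
      have h2 := congrArg δ h0
      simp only [map_add, map_smul, hy3, smul_zero, add_zero, map_zero, smul_eq_zero, hy2,
        or_false] at h2
      rw [h2, zero_smul, zero_add, smul_eq_zero] at h0
      intro i
      fin_cases i
      exacts [h1, h2, h0.resolve_right hy2]
    simpa using hind.fintype_card_le_finrank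
  · rintro _ ⟨a, rfl⟩ hall
    have hsym : ∀ (j : ℕ) a a', τ ((E ^ j) a) a' = τ a ((E ^ j) a') := by
      intro j
      induction j with
      | zero => simp
      | succ j ih =>
        intro a a'
        rw [pow_succ', Module.End.mul_apply, hEsym, ih, ← Module.End.mul_apply (E ^ j), ← pow_succ,
          pow_succ']
    have h0 : (E ^ n) ((E ^ n) a) = 0 := by
      refine eq_zero_of_trace_mul fun a' => ?_
      rw [← hτa, hsym]
      exact hall _ ⟨a', rfl⟩
    exact Submodule.disjoint_def.1 hcompl.disjoint _ (LinearMap.mem_ker.2 h0) ⟨a, rfl⟩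

end Cfsg.Agent.H42.SmallFaithful
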