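import Mathlib
import Cfsg.Agent.H43.D1.SmallDegree

/-!
# Complex representations of a group with `p` dividing the order once
-/

set_option autoImplicit false
set_option maxHeartbeats 800000
set_option linter.unusedSectionVars false

namespace Cfsg.Agent.H42.SmallFaithful

open Module Cfsg.Agent.H43.D1

attribute [local instance] Fintype.ofFinite

variable {p : ℕ} [hp : Fact p.Prime]

/-- The automizer of the Sylow subgroup is no larger than a faithful degree. -/
theorem act_card_le {G : Type*} [Group G] [Finite G] (S : Setup p G) {E : Type*} [AddCommGroup E]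
    [Module ℂ E] [FiniteDimensional ℂ E] (ρ : G →* Module.End ℂ E) (hx : ρ S.x ≠ 1) :
    Nat.card S.act.range ≤ finrank ℂ E := by
  classical
  set T := ρ S.x with hT
  have hTp : T ^ p = 1 := by rw [hT, ← map_pow, S.x_pow_p, map_one]
  have hss : T.IsSemisimple := by
    refine Module.End.isSemisimple_of_squarefree_aeval_eq_zero
      (p := Polynomial.X ^ p - Polynomial.C (1 : ℂ)) ?_ ?_
    · exact (Polynomial.separable_X_pow_sub_C (1 : ℂ) (Nat.cast_ne_zero.2 hp.out.ne_zero)
        one_ne_zero).squarefree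
    · simp [hTp]
  obtain ⟨ζ, hζ1, v, hv0, hv⟩ : ∃ ζ : ℂ, ζ ≠ 1 ∧ ∃ v, v ≠ 0 ∧ T v = ζ • v := by
    by_contra hcon
    push Not at hcon
    refine hx (LinearMap.ext fun v => ?_)
    have htop : ⨆ c : ℂ, T.eigenspace c = ⊤ := by
      rw [← Module.End.iSup_maxGenEigenspace_eq_top T]
      exact iSup_congr fun c => (hss.isFinitelySemisimple.maxGenEigenspace_eq_eigenspace c).symm
    have hle : ⨆ c : ℂ, T.eigenspace c ≤ T.eigenspace 1 := by
      refine iSup_le fun c w hw => ?_
      by_cases hc : c = 1
      · rwa [hc] at hw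
      · by_cases hw0 : w = 0
        · rw [hw0]; exact zero_mem _
        · exact absurd (Module.End.mem_eigenspace_iff.1 hw) (hcon c hc w hw0)
    have := Module.End.mem_eigenspace_iff.1 (hle (htop ▸ Submodule.mem_top : v ∈ _))
    rw [one_smul] at this
    exact this
  have hpow : ∀ (j : ℕ) (μ : ℂ) (w : E), T w = μ • w → (T ^ j) w = μ ^ j • w := by
    intro j μ w hw
    induction j with
    | zero => simp
    | succ j ih => rw [pow_succ, Module.End.mul_apply, hw, map_smul, ih, smul_smul, pow_succ']
  have hζp : ζ ^ p = 1 := by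
    have h := hpow p ζ v hv
    rw [hTp, Module.End.one_apply] at h
    exact smul_left_injective ℂ hv0 (h.symm.trans (one_smul ℂ v).symm)
  have hord : orderOf ζ = p := orderOf_eq_prime hζp hζ1
  have hroot : ∀ u : S.act.range, ζ ^ ((u : (ZMod p)ˣ) : ZMod p).val ∈ T.charpoly.roots.toFinset := by
    rintro ⟨_, l, rfl⟩
    set a := ((S.act l⁻¹ : (ZMod p)ˣ) : ZMod p).val with ha
    set b := ((S.act l : (ZMod p)ˣ) : ZMod p).val with hb
    set w := ρ ((l⁻¹ : S.L) : G) v with hw
    have hw1 : (T ^ a) w = ζ • w := by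
      rw [hw, hT, ← map_pow, ha, ← S.act_spec l⁻¹, ← Module.End.mul_apply, ← map_mul,
        inv_mul_cancel_right, map_mul, Module.End.mul_apply, ← hT, hv, map_smul]
    have hab : T ^ (a * b) = T := by
      rw [hT, ← map_pow]
      congr 1
      conv_rhs => rw [← pow_one S.x]
      rw [S.x_pow_eq_iff, Nat.cast_mul, ha, hb, ZMod.natCast_rightInverse, ZMod.natCast_rightInverse,
        ← Units.val_mul, ← map_mul, inv_mul_cancel, map_one, Units.val_one, Nat.cast_one]
    have hw2 : T w = ζ ^ b • w := by
      have hall : ∀ j : ℕ, ((T ^ a) ^ j) w = ζ ^ j • w := by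
        intro j
        induction j with
        | zero => simp
        | succ j ih => rw [pow_succ, Module.End.mul_apply, hw1, map_smul, ih, smul_smul, pow_succ']
      conv_lhs => rw [← hab, pow_mul]
      exact hall b
    have hwne : w ≠ 0 := by
      intro h
      refine hv0 ?_
      rw [← Module.End.one_apply (R := ℂ) v, ← map_one ρ,
        show (1 : G) = (l : G) * ((l⁻¹ : S.L) : G) by simp, map_mul, Module.End.mul_apply, ← hw, h,
        map_zero]
    rw [Multiset.mem_toFinset, Polynomial.mem_roots T.charpoly_monic.ne_zero]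
    exact (Module.End.hasEigenvalue_iff_isRoot_charpoly T _).1
      (Module.End.hasEigenvalue_of_hasEigenvector ⟨Module.End.mem_eigenspace_iff.2 hw2, hwne⟩)
  have hinj : Function.Injective fun u : S.act.range =>
      (⟨_, hroot u⟩ : T.charpoly.roots.toFinset) := by
    intro u u' h
    have h1 : ζ ^ ((u : (ZMod p)ˣ) : ZMod p).val = ζ ^ ((u' : (ZMod p)ˣ) : ZMod p).val :=
      congrArg Subtype.val h
    refine Subtype.ext (Units.ext (ZMod.val_injective p ?_))
    exact pow_injOn_Iio_orderOf (Set.mem_Iio.2 (hord.symm ▸ ZMod.val_lt _))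
      (Set.mem_Iio.2 (hord.symm ▸ ZMod.val_lt _)) h1
  refine (Nat.card_le_card_of_injective _ hinj).trans ?_
  rw [Nat.card_eq_fintype_card, Fintype.card_coe]
  exact (Multiset.toFinset_card_le _).trans ((Polynomial.card_roots' _).trans
    (LinearMap.charpoly_natDegree T).le)

/-- A monoid homomorphism of a group is injective modulo its kernel. -/
theorem lift_ker_injective {G M : Type*} [Group G] [Monoid M] (τ : G →* M) :
    Function.Injective (QuotientGroup.lift τ.ker τ le_rfl) := by
  intro a b h
  induction a using QuotientGroup.induction_on with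
  | H a =>
    induction b using QuotientGroup.induction_on with
    | H b =>
      rw [QuotientGroup.lift_mk', QuotientGroup.lift_mk'] at h
      refine QuotientGroup.eq.2 (MonoidHom.mem_ker.2 ?_)
      rw [map_mul, ← h, ← map_mul, inv_mul_cancel, map_one]

/-- A faithful representation in coordinates. -/
theorem exists_coord_rep {Q E : Type*} [Group Q] [AddCommGroup E] [Module ℂ E] {n : ℕ}
    (e : E ≃ₗ[ℂ] (Fin n → ℂ)) (τ : Q →* Module.End ℂ E) (hτ : Function.Injective τ) :
    ∃ r : Representation ℂ Q (Fin n → ℂ), Function.Injective r := by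
  let f : Module.End ℂ E →* Module.End ℂ (Fin n → ℂ) :=
    { toFun := fun A => e.toLinearMap ∘ₗ A ∘ₗ e.symm.toLinearMap
      map_one' := LinearMap.ext fun z => e.apply_symm_apply z
      map_mul' := fun A B => LinearMap.ext fun z => by
        simp [Module.End.mul_apply] }
  refine ⟨f.comp τ, fun a b h => hτ (LinearMap.ext fun z => e.injective ?_)⟩
  have h2 := LinearMap.congr_fun (show f (τ a) = f (τ b) from h) (e z)
  simpa [f] using h2

/-- A representation of degree less than `(p - 1) / 2` of a perfect group generated by the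
conjugates of `x` is trivial at `x`. -/
theorem small_rep_trivial {G : Type*} [Group G] [Finite G] (S : Setup p G)
    (hgen : ∀ H : Subgroup G, H.Normal → S.x ∈ H → H = ⊤) (hperf : commutator G = ⊤)
    {E : Type*} [AddCommGroup E] [Module ℂ E] [FiniteDimensional ℂ E]
    (τ : G →* Module.End ℂ E) (hd : 2 * finrank ℂ E + 2 ≤ p) : τ S.x = 1 := by
  classical
  by_contra hx
  set K := τ.ker with hK
  have hxK : S.x ∉ K := hx
  have hcomm : (⊤ : Subgroup (G ⧸ K)) = commutator (G ⧸ K) := by
    rw [commutator_def, ← Subgroup.map_top_of_surjective _ (QuotientGroup.mk'_surjective K),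
      ← Subgroup.map_commutator, ← commutator_def, hperf]
  have hxb : orderOf (QuotientGroup.mk' K S.x) = p := by
    refine orderOf_eq_prime (by rw [← map_pow, S.x_pow_p, map_one]) fun h => hxK ?_
    exact (QuotientGroup.eq_one_iff _).1 h
  have hdvd : p ∣ Nat.card (G ⧸ K) := by
    have := orderOf_dvd_natCard (QuotientGroup.mk' K S.x)
    rwa [hxb] at this
  have hsq : ¬ p ^ 2 ∣ Nat.card (G ⧸ K) := fun h =>
    S.not_sq (h.trans K.card_quotient_dvd_card)
  obtain ⟨n, hn⟩ : ∃ n, finrank ℂ E = n := ⟨_, rfl⟩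
  obtain ⟨e⟩ : Nonempty (E ≃ₗ[ℂ] (Fin n → ℂ)) :=
    FiniteDimensional.nonempty_linearEquiv_of_finrank_eq (by rw [hn, finrank_fin_fun])
  obtain ⟨r, hr⟩ := exists_coord_rep e (QuotientGroup.lift τ.ker τ le_rfl)
    (lift_ker_injective τ)
  have hchar1 : r.character 1 = (n : ℂ) := by rw [r.char_one, finrank_fin_fun]
  have hdeg : Cfsg.charDegree r.character = n := by
    rw [Cfsg.charDegree, hchar1]; simp
  obtain ⟨H, hH, hHc⟩ := exists_normal_of_small _ (G ⧸ K) le_rfl hdvd hsq r.character ⟨_, r, rfl⟩
    (fun g hg => hr (by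
      rw [map_one]
      refine (H25.char_eq_degree_iff r g).1 ?_
      rw [← r.char_one]
      exact hg)) (by rw [hdeg]; omega)
  have hxH : QuotientGroup.mk' K S.x ∈ H :=
    mem_of_normal_card hsq H hHc (by rw [← map_pow, S.x_pow_p, map_one])
  have htop := hgen (H.comap (QuotientGroup.mk' K)) (hH.comap _) hxH
  have hHtop : H = ⊤ := by
    rw [eq_top_iff]
    intro q _
    obtain ⟨g, rfl⟩ := QuotientGroup.mk'_surjective K q
    exact Subgroup.mem_comap.1 (htop ▸ Subgroup.mem_top g)
  have hcyc : IsCyclic (G ⧸ K) := by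
    refine isCyclic_of_prime_card (p := p) ?_
    rw [← hHc, hHtop, Subgroup.card_top]
  have hbot : commutator (G ⧸ K) = ⊥ := by
    rw [commutator_def, Subgroup.commutator_eq_bot_iff_le_centralizer]
    intro a _
    rw [Subgroup.mem_centralizer_iff]
    intro b _
    exact (IsCyclic.isMulCommutative (α := G ⧸ K)).is_comm.comm b a
  refine hxK ((QuotientGroup.eq_one_iff S.x).1 ?_)
  have h1 : (S.x : G ⧸ K) ∈ (⊤ : Subgroup (G ⧸ K)) := Subgroup.mem_top _
  rw [hcomm, hbot, Subgroup.mem_bot] at h1
  exact h1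

/-- A commuting operator is scalar. -/
theorem scalar_of_commute {G : Type*} [Group G] [Finite G] (S : Setup p G)
    (hgen : ∀ H : Subgroup G, H.Normal → S.x ∈ H → H = ⊤) (hperf : commutator G = ⊤)
    {E : Type*} [AddCommGroup E] [Module ℂ E] [FiniteDimensional ℂ E] [Nontrivial E]
    (ρ : G →* Module.End ℂ E) (hd : 2 * finrank ℂ E + 1 = p) (hx : ρ S.x ≠ 1)
    (A : Module.End ℂ E) (hA : ∀ g, ρ g * A = A * ρ g) : ∃ c : ℂ, A = c • 1 := by
  classical
  obtain ⟨c, hc⟩ := Module.End.exists_eigenvalue A
  refine ⟨c, ?_⟩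
  set W := A.eigenspace c with hW
  have hinv : ∀ g, ∀ w ∈ W, ρ g w ∈ W := by
    intro g w hw
    rw [hW, Module.End.mem_eigenspace_iff] at hw ⊢
    rw [← Module.End.mul_apply, ← hA, Module.End.mul_apply, hw, map_smul]
  by_cases htop : W = ⊤
  · refine LinearMap.ext fun w => ?_
    have hw : w ∈ W := by rw [htop]; exact Submodule.mem_top
    simpa using Module.End.mem_eigenspace_iff.1 hw
  exfalso
  have hlt : finrank ℂ W < finrank ℂ E := Submodule.finrank_lt htop
  have hpos : 0 < finrank ℂ W := Nat.pos_of_ne_zero fun h => hc (Submodule.finrank_eq_zero.1 h)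
  have hlt2 : finrank ℂ (E ⧸ W) < finrank ℂ E := by
    have := W.finrank_quotient_add_finrank
    omega
  let τ₂ : G →* Module.End ℂ (E ⧸ W) :=
    { toFun := fun a => W.mapQ W (ρ a) (hinv a)
      map_one' := Submodule.linearMap_qext _ (LinearMap.ext fun z => by simp)
      map_mul' := fun a b => Submodule.linearMap_qext _ (LinearMap.ext fun z => by simp) }
  have h1 := small_rep_trivial S hgen hperf (restrictRep ρ W hinv) (by omega)
  have h2 := small_rep_trivial S hgen hperf τ₂ (by omega)
  set N := ρ S.x - 1 with hN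
  have hN2 : N * N = 0 := by
    refine LinearMap.ext fun z => ?_
    have hz : N z ∈ W := (Submodule.Quotient.eq W).1
      (LinearMap.congr_fun h2 (Submodule.Quotient.mk z))
    have h3 : ρ S.x (N z) = N z := congrArg Subtype.val (LinearMap.congr_fun h1 ⟨N z, hz⟩)
    rw [Module.End.mul_apply, LinearMap.zero_apply]
    exact sub_eq_zero.2 h3
  have hpow : ∀ j : ℕ, (1 + N) ^ j = 1 + (j : ℂ) • N := by
    intro j
    induction j with
    | zero => simp
    | succ j ih =>
      rw [pow_succ, ih, mul_add, add_mul, add_mul, one_mul, one_mul, mul_one, smul_mul_assoc, hN2,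
        smul_zero, add_zero, Nat.cast_succ, add_smul, one_smul]
      abel
  have h3 := hpow p
  rw [hN, add_sub_cancel, ← map_pow, S.x_pow_p, map_one, ← hN, left_eq_add, smul_eq_zero] at h3
  exact hx (sub_eq_zero.1 (h3.resolve_left (Nat.cast_ne_zero.2 hp.out.ne_zero)))

end Cfsg.Agent.H42.SmallFaithful
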