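import Mathlib
import Cfsg.Agent.H43.D1.Setup
import Cfsg.Agent.H43.D1.Classes

/-!
# Counting the elements of a group of rotations of a conic
-/

set_option autoImplicit false
set_option maxHeartbeats 1000000
set_option linter.unusedSectionVars false

namespace Cfsg.Agent.H42.SmallFaithful

open Cfsg.Agent.H43.D1

attribute [local instance] Fintype.ofFinite Classical.propDecidable

theorem arith_one {n p S : ℕ} (hp : 5 ≤ p) (hn : 1 ≤ n) (h1 : n * (p - 1) + S + 1 ≤ n * p)
    (h4 : n * p ≤ 4 * S) : False := by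
  obtain ⟨q, rfl⟩ : ∃ q, p = q + 5 := ⟨p - 5, by omega⟩
  rw [show q + 5 - 1 = q + 4 by omega] at h1
  nlinarith [Nat.zero_le (n * q)]

theorem arith_m1 {n p e' S : ℕ} (hp : 5 ≤ p) (hn : 2 ≤ n)
    (h1 : n * (p - 1) + n * p * e' + S + 1 ≤ n * ((e' + 1) * p))
    (h4 : n * ((e' + 1) * p) ≤ 4 * S) : False := by
  obtain ⟨q, rfl⟩ : ∃ q, p = q + 5 := ⟨p - 5, by omega⟩
  rw [show q + 5 - 1 = q + 4 by omega] at h1
  nlinarith [Nat.zero_le (n * (e' * (q + 5))), Nat.zero_le (n * q)]

theorem arith_m1_none {n p e' : ℕ} (hp : 5 ≤ p) (hn : 2 ≤ n)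
    (h1 : n * (p - 1) + n * p * e' + 1 = n * ((e' + 1) * p)) : False := by
  obtain ⟨q, rfl⟩ : ∃ q, p = q + 1 := ⟨p - 1, by omega⟩
  rw [Nat.add_sub_cancel] at h1
  nlinarith

theorem arith_m2_none {n p e' C : ℕ} (hp : 5 ≤ p) (hn : 2 ≤ n) (he : 1 ≤ e')
    (hC : 2 * C = n * p * e') (h1 : n * (p - 1) + C + 1 = n * ((e' + 1) * p)) : False := by
  obtain ⟨q, rfl⟩ : ∃ q, p = q + 1 := ⟨p - 1, by omega⟩
  rw [Nat.add_sub_cancel] at h1
  nlinarith [Nat.zero_le (n * (q * e'))]

theorem arith_lt {n p e' C S : ℕ} (hp : 5 ≤ p)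
    (hC : 2 * C = n * p * e') (h1 : n * (p - 1) + C + S + 1 ≤ n * ((e' + 1) * p)) :
    2 * S < n * ((e' + 1) * p) := by
  obtain ⟨q, rfl⟩ : ∃ q, p = q + 5 := ⟨p - 5, by omega⟩
  rw [show q + 5 - 1 = q + 4 by omega] at h1
  nlinarith [Nat.zero_le (n * q)]

theorem arith_four {n p e' C S S' : ℕ} (hp : 5 ≤ p)
    (hC : 2 * C = n * p * e') (h1 : n * (p - 1) + C + S + S' + 1 ≤ n * ((e' + 1) * p))
    (h4 : n * ((e' + 1) * p) ≤ 4 * S) (h4' : n * ((e' + 1) * p) ≤ 4 * S') : False := by
  obtain ⟨q, rfl⟩ : ∃ q, p = q + 5 := ⟨p - 5, by omega⟩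
  rw [show q + 5 - 1 = q + 4 by omega] at h1
  nlinarith [Nat.zero_le (n * q)]

theorem arith_final {n p e a : ℤ} (hp : 5 ≤ p) (hn : p + 1 ≤ n) (ha : 1 ≤ a) (hb : 2 * e + 1 ≤ p)
    (key : n * (p * e - (p - 2) * a) = 2 * a) : n = p + 1 ∧ 2 * e + 1 = p := by
  have hD : 0 < p * e - (p - 2) * a := by
    rcases lt_or_ge 0 (p * e - (p - 2) * a) with h | h
    · exact h
    · have := mul_nonpos_of_nonneg_of_nonpos (by omega : (0 : ℤ) ≤ n) h
      omega
  have hbd : 2 * a ≤ p + 1 := by
    refine le_of_mul_le_mul_left ?_ (by omega : (0 : ℤ) < p - 2)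
    have := mul_le_mul_of_nonneg_left hb (by omega : (0 : ℤ) ≤ p)
    linarith
  have h1 : n ≤ n * (p * e - (p - 2) * a) := le_mul_of_one_le_right (by omega) hD
  have hna : n = p + 1 := by omega
  subst hna
  have hD1 : p * e - (p - 2) * a = 1 := by
    refine le_antisymm ?_ hD
    refine le_of_mul_le_mul_left ?_ (by omega : (0 : ℤ) < p + 1)
    linarith
  rw [hD1, mul_one] at key
  have h2 : p * (2 * e + 1 - p) = 0 := by linear_combination 2 * hD1 - (p - 2) * key
  rcases mul_eq_zero.1 h2 with h | h <;> omega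

variable {p : ℕ} [hp : Fact p.Prime] {H : Type*} [Group H] [Finite H]

/-- The nontrivial elements conjugate into a subgroup. -/
noncomputable def clsSet (A : Subgroup H) : Finset H :=
  Finset.univ.filter fun g => g ≠ 1 ∧ ∃ c : H, c * g * c⁻¹ ∈ A

theorem mem_clsSet {A : Subgroup H} {g : H} : g ∈ clsSet A ↔ g ≠ 1 ∧ ∃ c : H, c * g * c⁻¹ ∈ A := by
  simp [clsSet]

/-- The axioms of a family of axis stabilizers. -/
structure AxisData (M : H → Subgroup H) : Prop where
  self_mem : ∀ g, g ≠ 1 → g ∈ M g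
  eq_of_mem : ∀ g h, g ≠ 1 → h ∈ M g → h ≠ 1 → M h = M g
  conj : ∀ g c : H, g ≠ 1 → M (c * g * c⁻¹) = (M g).map (MulAut.conj c).toMonoidHom

variable {M : H → Subgroup H} (hM : AxisData M)

include hM

theorem map_conj_of_mem {g h c : H} (hg : g ≠ 1) (hh : h ≠ 1) (hc : c * h * c⁻¹ ∈ M g) :
    M g = (M h).map (MulAut.conj c).toMonoidHom := by
  rw [← hM.conj h c hh, hM.eq_of_mem g _ hg hc (by simpa [conj_eq_one_iff] using hh)]

theorem card_clsSet {a₀ : H} (ha : a₀ ≠ 1) :
    (clsSet (M a₀)).card * Nat.card (Subgroup.normalizer (M a₀ : Set H)) =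
      Nat.card H * (Nat.card (M a₀) - 1) := by
  set A := M a₀ with hA
  set N := Subgroup.normalizer (A : Set H) with hN
  set T : Finset (H × H) := Finset.univ.filter fun q => q.2 ≠ 1 ∧ q.1 * q.2 * q.1⁻¹ ∈ A with hT
  have h1 : T.card = Nat.card H * (Nat.card A - 1) := by
    have hcard : ((A : Set H).toFinset.erase 1).card = Nat.card A - 1 := by
      rw [Finset.card_erase_of_mem (by simp [A.one_mem]), Set.toFinset_card,
        ← Nat.card_eq_fintype_card]
      rfl
    rw [← hcard, Nat.card_eq_fintype_card, ← Finset.card_univ, ← Finset.card_product]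
    refine Finset.card_bij' (fun q _ => (q.1, q.1 * q.2 * q.1⁻¹))
      (fun q _ => (q.1, q.1⁻¹ * q.2 * q.1)) (fun q hq => ?_) (fun q hq => ?_) (fun q _ => ?_)
      (fun q _ => ?_)
    · simp only [hT, Finset.mem_filter, Finset.mem_univ, true_and] at hq
      simp only [Finset.mem_product, Finset.mem_univ, true_and, Finset.mem_erase, Set.mem_toFinset,
        SetLike.mem_coe]
      exact ⟨by simpa [conj_eq_one_iff] using hq.1, hq.2⟩
    · simp only [Finset.mem_product, Finset.mem_univ, true_and, Finset.mem_erase, Set.mem_toFinset,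
        SetLike.mem_coe] at hq
      simp only [hT, Finset.mem_filter, Finset.mem_univ, true_and]
      exact ⟨by simpa [mul_assoc, inv_mul_eq_one, eq_comm] using hq.1, by simpa [mul_assoc] using hq.2⟩
    · simp [mul_assoc]
    · simp [mul_assoc]
  have h2 : T.card = (clsSet A).card * Nat.card N := by
    rw [Finset.card_eq_sum_card_fiberwise (f := Prod.snd) (t := clsSet A) (fun q hq => by
      simp only [Finset.mem_coe, hT, Finset.mem_filter, Finset.mem_univ, true_and] at hq
      exact mem_clsSet.2 ⟨hq.1, q.1, hq.2⟩)]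
    refine Finset.sum_const_nat fun g hg => ?_
    obtain ⟨hg1, c₀, hc₀⟩ := mem_clsSet.1 hg
    rw [show Nat.card N = (N : Set H).toFinset.card by
      rw [Set.toFinset_card, ← Nat.card_eq_fintype_card]; rfl]
    refine Finset.card_bij' (fun q _ => q.1 * c₀⁻¹) (fun n _ => (n * c₀, g)) (fun q hq => ?_)
      (fun n hn => ?_) (fun q hq => ?_) (fun n _ => ?_)
    · simp only [hT, Finset.mem_filter, Finset.mem_univ, true_and] at hq
      obtain ⟨⟨-, hq2⟩, rfl⟩ := hq
      rw [Set.mem_toFinset, SetLike.mem_coe, hN, Subgroup.mem_normalizer_iff_map_conj_eq]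
      have e1 := map_conj_of_mem hM ha hg1 hq2
      have e2 := map_conj_of_mem hM ha hg1 hc₀
      conv_lhs => rw [hA, e2, Subgroup.map_map]
      rw [hA, e1]
      congr 1
      ext z
      simp [mul_assoc]
    · rw [Set.mem_toFinset, SetLike.mem_coe, hN, Subgroup.mem_normalizer_iff] at hn
      simp only [hT, Finset.mem_filter, Finset.mem_univ, true_and, hg1, ne_eq, not_false_eq_true,
        and_true]
      have := (hn _).1 hc₀
      simpa [mul_assoc, mul_inv_rev] using this
    · simp only [hT, Finset.mem_filter, Finset.mem_univ, true_and] at hq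
      exact Prod.ext (by simp) hq.2.symm
    · simp
  rw [← h2, h1]

theorem disjoint_clsSet {a b : H} (ha : a ≠ 1) (hb : b ≠ 1) (h : b ∉ clsSet (M a)) :
    Disjoint (clsSet (M a)) (clsSet (M b)) := by
  refine Finset.disjoint_left.2 fun g hga hgb => h ?_
  obtain ⟨hg, c, hc⟩ := mem_clsSet.1 hga
  obtain ⟨-, d, hd⟩ := mem_clsSet.1 hgb
  refine mem_clsSet.2 ⟨hb, c * d⁻¹, ?_⟩
  have hbm := hM.self_mem b hb
  rw [map_conj_of_mem hM hb hg hd] at hbm
  obtain ⟨z, hz, hzb⟩ := hbm
  rw [map_conj_of_mem hM ha hg hc]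
  refine ⟨z, hz, ?_⟩
  rw [← hzb]
  simp [mul_assoc]

/-- The count: there are `p + 1` Sylow subgroups. -/
theorem card_sylow_eq (S : Setup p H) (h5 : 5 ≤ p)
    (hpord : ∀ g, g ≠ 1 → p ∣ Nat.card (M g) → Nat.card (M g) = p)
    (hindex : ∀ g, g ≠ 1 → ¬ p ∣ Nat.card (M g) →
      Nat.card (Subgroup.normalizer (M g : Set H)) ≤ 2 * Nat.card (M g))
    (hC : ∀ g, Commute g S.x → g ∈ S.P)
    (hnorm : ∀ s ∈ S.L, s ≠ 1 → M s ≤ S.N ∧ ¬ p ∣ Nat.card (M s))
    (hbound : 2 * Nat.card S.L + 1 ≤ p) (hnn : ¬ S.P.Normal) :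
    Nat.card (Sylow p H) = p + 1 ∧ 2 * Nat.card S.L + 1 = p ∧
      Nat.card H = Nat.card (Sylow p H) * (Nat.card S.L * p) := by
  set e := Nat.card S.L with he
  set n := Nat.card (Sylow p H) with hn
  have hdvd : p ∣ Nat.card H := by
    have := orderOf_dvd_natCard (G := H) S.x
    rwa [S.orderOf_x] at this
  have hfac : (Nat.card H).factorization p = 1 := by
    refine le_antisymm ?_ (hp.out.factorization_pos_of_dvd Nat.card_pos.ne' hdvd)
    by_contra h
    exact S.not_sq ((hp.out.pow_dvd_iff_le_factorization Nat.card_pos.ne').2 (by omega))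
  let PS : Sylow p H := Sylow.ofCard S.P (by rw [S.card_P, hfac, pow_one])
  have hPS : (PS : Subgroup H) = S.P := rfl
  -- the normalizer
  have hNcard : Nat.card S.N = e * p := by
    refine Eq.trans ?_ ((Nat.card_prod S.L S.P).trans (by rw [S.card_P]))
    refine (Nat.card_eq_of_bijective (fun q : S.L × S.P =>
      (⟨q.1 * q.2, S.N.mul_mem (S.L_le_N q.1.2) (S.P_le_N q.2.2)⟩ : S.N)) ⟨?_, ?_⟩).symm
    · intro q q' hq
      obtain ⟨a, b⟩ := S.mul_unique q.1.2 q'.1.2 q.2.2 q'.2.2 (congrArg Subtype.val hq)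
      exact Prod.ext (Subtype.ext a) (Subtype.ext b)
    · rintro ⟨g, hg⟩
      obtain ⟨l, hl, u, hu, rfl⟩ := S.mem_N_iff.1 hg
      exact ⟨(⟨l, hl⟩, ⟨u, hu⟩), rfl⟩
  have hN : Nat.card H = n * (e * p) := by
    rw [hn, Sylow.card_eq_index_normalizer PS, ← hNcard, S.N_eq_normalizer]
    exact (Subgroup.index_mul_card _).symm
  have hnmod : n % p = 1 := by
    have := card_sylow_modEq_one p H
    rwa [Nat.ModEq, Nat.mod_eq_of_lt (by omega : 1 < p)] at this
  have hn1 : n ≠ 1 := by
    intro h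
    refine hnn ?_
    have hidx : (Subgroup.normalizer (S.P : Set H)).index = 1 := by
      rw [← h, hn, Sylow.card_eq_index_normalizer PS]; rfl
    exact Subgroup.normalizer_eq_top_iff.1 (Subgroup.index_eq_one.1 hidx)
  have hnp : p + 1 ≤ n := by
    have := Nat.mod_add_div n p
    rcases Nat.eq_zero_or_pos (n / p) with h | h
    · rw [h] at this; omega
    · nlinarith
  have hx1 : S.x ≠ 1 := S.x_ne_one
  have hMx : M S.x = S.P := by
    refine (Subgroup.eq_of_le_of_card_ge (Subgroup.zpowers_le.2 (hM.self_mem _ hx1)) ?_).symm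
    rw [S.card_P, hpord _ hx1 ?_]
    have := orderOf_dvd_natCard (⟨S.x, hM.self_mem _ hx1⟩ : M S.x)
    rwa [Subgroup.orderOf_mk, S.orderOf_x] at this
  set CP := clsSet (M S.x) with hCP
  have hCPcard : CP.card = n * (p - 1) := by
    have h := card_clsSet hM hx1
    rw [hMx, ← S.N_eq_normalizer, hNcard, S.card_P, hN] at h
    have hpos : 0 < e * p := Nat.mul_pos Nat.card_pos hp.out.pos
    have h' : (clsSet S.P).card * (e * p) = n * (p - 1) * (e * p) := by rw [h]; ring
    rw [hCP, hMx]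
    exact Nat.eq_of_mul_eq_mul_right hpos h'
  have hreg : ∀ g, g ≠ 1 → g ∉ CP → ¬ p ∣ Nat.card (M g) := by
    intro g hg hgC hd
    refine hgC (mem_clsSet.2 ⟨hg, ?_⟩)
    let Q : Sylow p H := Sylow.ofCard (M g) (by rw [hpord g hg hd, hfac, pow_one])
    obtain ⟨c, hc⟩ := MulAction.exists_smul_eq H Q PS
    refine ⟨c, ?_⟩
    rw [hMx, ← hPS, ← hc, Sylow.coe_subgroup_smul, Subgroup.mem_pointwise_smul_iff_inv_smul_mem]
    simpa [MulAut.smul_def, mul_assoc] using (show g ∈ (Q : Subgroup H) from hM.self_mem g hg)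
  have htotal : ∀ s : Finset H, (1 : H) ∉ s → s.card + 1 ≤ n * (e * p) := by
    intro s hs
    rw [← hN, ← Finset.card_insert_of_notMem hs, Nat.card_eq_fintype_card]
    exact Finset.card_le_univ _
  have hone : ∀ A : Subgroup H, (1 : H) ∉ clsSet A := fun A h => (mem_clsSet.1 h).1 rfl
  have hcover : ∀ s : Finset H, (1 : H) ∉ s → (∀ g, g ≠ 1 → g ∈ s) → s.card + 1 = n * (e * p) := by
    intro s hs hall
    rw [← hN, ← Finset.card_insert_of_notMem hs, Nat.card_eq_fintype_card, ← Finset.card_univ]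
    congr 1
    ext g
    simp only [Finset.mem_insert, Finset.mem_univ, iff_true]
    exact (em (g = 1)).imp_right (hall g)
  have htwo : ∀ g, g ≠ 1 → ¬ p ∣ Nat.card (M g) →
      2 ≤ Nat.card (M g) ∧ n * (e * p) ≤ 4 * (clsSet (M g)).card ∧
        (2 * (clsSet (M g)).card < n * (e * p) → Nat.card (Subgroup.normalizer (M g : Set H)) = 2 * Nat.card (M g)) := by
    intro g hg hgp
    have ha : 2 ≤ Nat.card (M g) := by
      have : 1 < Nat.card (M g) := by
        rw [Finite.one_lt_card_iff_nontrivial]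
        exact ⟨⟨g, hM.self_mem g hg⟩, 1, fun h => hg (congrArg Subtype.val h)⟩
      omega
    have hc := card_clsSet hM hg
    rw [hN] at hc
    have hi := hindex g hg hgp
    have hd : Nat.card (M g) ∣ Nat.card (Subgroup.normalizer (M g : Set H)) :=
      Subgroup.card_dvd_of_le Subgroup.le_normalizer
    obtain ⟨a, ha'⟩ : ∃ a, Nat.card (M g) = a + 2 := ⟨_, (Nat.sub_add_cancel ha).symm⟩
    rw [ha'] at hc hi hd ⊢
    rw [show a + 2 - 1 = a + 1 by omega] at hc
    refine ⟨by omega, ?_, fun hlt => ?_⟩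
    · nlinarith [Nat.mul_le_mul_left (clsSet (M g)).card hi]
    · obtain ⟨j, hj⟩ := hd
      have hpos : 0 < Nat.card (Subgroup.normalizer (M g : Set H)) := Nat.card_pos
      rcases Nat.lt_or_ge j 2 with hj2 | hj2
      · exfalso
        have hj1 : j = 1 := by
          rcases Nat.eq_zero_or_pos j with h | h
          · rw [h, mul_zero] at hj; omega
          · omega
        rw [hj1, mul_one] at hj
        rw [hj] at hc
        nlinarith
      · nlinarith
  -- the complement acts faithfully and is cyclic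
  have hinj : Function.Injective S.act := by
    refine (injective_iff_map_eq_one _).2 fun l hl => Subtype.ext ?_
    exact S.inf_eq_one l.2 (hC _ (S.commute_of_mem_V (MonoidHom.mem_ker.2 hl)))
  have hcyc : IsCyclic S.L := isCyclic_of_injective S.act hinj
  obtain ⟨s, hs⟩ := hcyc.exists_generator
  by_cases he1 : e = 1
  · exfalso
    rw [he1, one_mul] at htotal hcover htwo
    by_cases hex : ∀ g, g ≠ 1 → g ∈ CP
    · have := hcover CP (hone _) hex
      rw [hCPcard] at this
      obtain ⟨q, rfl⟩ : ∃ q, p = q + 1 := ⟨p - 1, by omega⟩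
      rw [Nat.add_sub_cancel, mul_add, mul_one] at this
      omega
    · push Not at hex
      obtain ⟨g, hg, hgC⟩ := hex
      obtain ⟨-, h4, -⟩ := htwo g hg (hreg g hg hgC)
      have hdis := disjoint_clsSet hM hx1 hg hgC
      have hsum := htotal (CP ∪ clsSet (M g)) (by
        rw [Finset.mem_union, not_or]; exact ⟨hone _, hone _⟩)
      rw [Finset.card_union_of_disjoint hdis, hCPcard] at hsum
      exact arith_one h5 (by omega) hsum h4
  have he2 : 2 ≤ e := by
    have : 0 < e := Nat.card_pos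
    omega
  have hs1 : (s : H) ≠ 1 := by
    intro h
    refine he1 (Nat.card_eq_one_iff_unique.2 ⟨⟨fun a b => ?_⟩, ⟨1⟩⟩)
    have key : ∀ a : S.L, a = 1 := fun a => by
      obtain ⟨i, hi⟩ := Subgroup.mem_zpowers_iff.1 (hs a)
      rw [← hi, show s = 1 from Subtype.ext h, one_zpow]
    rw [key a, key b]
  obtain ⟨hAN, hAp⟩ := hnorm s s.2 hs1
  set A := M (s : H) with hA
  have hAcard : Nat.card A = e := by
    refine le_antisymm ?_ ?_
    · have hinjA : Function.Injective fun q : A × S.P =>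
          (⟨q.1 * q.2, S.N.mul_mem (hAN q.1.2) (S.P_le_N q.2.2)⟩ : S.N) := by
        rintro ⟨a, u⟩ ⟨a', u'⟩ h
        have h' : (a : H) * u = a' * u' := congrArg Subtype.val h
        have hz : (a' : H)⁻¹ * a = u' * (u : H)⁻¹ := by
          rw [eq_mul_inv_iff_mul_eq, mul_assoc, h', inv_mul_cancel_left]
        have h1 : (a' : H)⁻¹ * a = 1 := by
          have hmem : (a' : H)⁻¹ * a ∈ A ⊓ S.P :=
            ⟨A.mul_mem (A.inv_mem a'.2) a.2, hz ▸ S.P.mul_mem u'.2 (S.P.inv_mem u.2)⟩
          have hbot : A ⊓ S.P = ⊥ := Subgroup.inf_eq_bot_of_coprime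
            (by rw [S.card_P]; exact (hp.out.coprime_iff_not_dvd.2 hAp).symm)
          rwa [hbot, Subgroup.mem_bot] at hmem
        have hz1 := hz.symm.trans h1
        rw [mul_inv_eq_one] at hz1
        rw [inv_mul_eq_one] at h1
        exact Prod.ext (Subtype.ext h1.symm) (Subtype.ext hz1.symm)
      have := Nat.card_le_card_of_injective _ hinjA
      rw [Nat.card_prod, S.card_P, hNcard] at this
      exact Nat.le_of_mul_le_mul_right this hp.out.pos
    · refine Subgroup.card_le_of_le (fun l hl => ?_)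
      obtain ⟨i, hi⟩ := Subgroup.mem_zpowers_iff.1 (hs ⟨l, hl⟩)
      have := congrArg Subtype.val hi
      simp only [SubgroupClass.coe_zpow] at this
      rw [← this]
      exact A.zpow_mem (hM.self_mem _ hs1) i
  have hsC : (s : H) ∉ CP := by
    intro h
    obtain ⟨-, c, hc⟩ := mem_clsSet.1 h
    rw [hMx] at hc
    have h1 : orderOf (s : H) ∣ p := by
      rw [show orderOf (s : H) = orderOf (c * s * c⁻¹) from ((MulAut.conj c).orderOf_eq _).symm]
      have := orderOf_dvd_natCard (⟨_, hc⟩ : S.P)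
      rwa [Subgroup.orderOf_mk, S.card_P] at this
    rcases (Nat.dvd_prime hp.out).1 h1 with h2 | h2
    · exact hs1 (orderOf_eq_one_iff.1 h2)
    · exact S.not_dvd_orderOf_L s (dvd_of_eq h2.symm)
  set CA := clsSet A with hCA
  have hd1 : Disjoint CP CA := disjoint_clsSet hM hx1 hs1 hsC
  have hcA := card_clsSet hM hs1
  rw [← hA, ← hCA, hAcard, hN] at hcA
  have hiA := hindex _ hs1 hAp
  rw [← hA, hAcard] at hiA
  have hdA : e ∣ Nat.card (Subgroup.normalizer (A : Set H)) :=
    hAcard ▸ Subgroup.card_dvd_of_le Subgroup.le_normalizer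
  obtain ⟨j, hj⟩ := hdA
  obtain ⟨e', rfl'⟩ : ∃ e', e = e' + 1 := ⟨e - 1, by omega⟩
  have hjval : j = 1 ∨ j = 2 := by
    have h3 : e * j ≤ e * 2 := by rw [← hj, mul_comm e 2]; exact hiA
    have h4 : j ≤ 2 := Nat.le_of_mul_le_mul_left h3 (by omega)
    rcases Nat.eq_zero_or_pos j with h | h
    · have : 0 < Nat.card (Subgroup.normalizer (A : Set H)) := Nat.card_pos
      rw [hj, h] at this; omega
    · omega
  have hU1 : (1 : H) ∉ CP ∪ CA := by
    rw [Finset.mem_union, not_or]; exact ⟨hone _, hone _⟩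
  have hUcard : (CP ∪ CA).card = n * (p - 1) + CA.card := by
    rw [Finset.card_union_of_disjoint hd1, hCPcard]
  rw [hj, show e - 1 = e' by omega] at hcA
  rcases hjval with rfl | rfl
  · exfalso
    have hCAc : CA.card = n * p * e' := by
      rw [mul_one] at hcA
      have : CA.card * e = n * p * e' * e := by rw [hcA]; ring
      exact Nat.eq_of_mul_eq_mul_right (by omega) this
    by_cases hex : ∀ g, g ≠ 1 → g ∈ CP ∪ CA
    · have := hcover _ hU1 hex
      rw [hUcard, hCAc, rfl'] at this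
      exact arith_m1_none h5 (by omega) this
    · push Not at hex
      obtain ⟨g, hg, hgU⟩ := hex
      rw [Finset.mem_union, not_or] at hgU
      obtain ⟨-, h4, -⟩ := htwo g hg (hreg g hg hgU.1)
      have hsum := htotal ((CP ∪ CA) ∪ clsSet (M g)) (by
        rw [Finset.mem_union, not_or]; exact ⟨hU1, hone _⟩)
      rw [Finset.card_union_of_disjoint (Finset.disjoint_union_left.2
        ⟨disjoint_clsSet hM hx1 hg hgU.1, disjoint_clsSet hM hs1 hg hgU.2⟩), hUcard, hCAc, rfl'] at hsum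
      rw [rfl'] at h4
      exact arith_m1 h5 (by omega) hsum h4
  have hCAc : 2 * CA.card = n * p * e' := by
    have : 2 * CA.card * e = n * p * e' * e := by
      rw [mul_assoc, mul_left_comm, mul_comm 2 e, hcA]; ring
    exact Nat.eq_of_mul_eq_mul_right (by omega) this
  by_cases hex : ∀ g, g ≠ 1 → g ∈ CP ∪ CA
  · exfalso
    have := hcover _ hU1 hex
    rw [hUcard, rfl'] at this
    exact arith_m2_none h5 (by omega) (by omega) hCAc this
  push Not at hex
  obtain ⟨g, hg, hgU⟩ := hex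
  rw [Finset.mem_union, not_or] at hgU
  obtain ⟨ha2, h4, hm⟩ := htwo g hg (hreg g hg hgU.1)
  have hd2 : Disjoint (CP ∪ CA) (clsSet (M g)) := Finset.disjoint_union_left.2
    ⟨disjoint_clsSet hM hx1 hg hgU.1, disjoint_clsSet hM hs1 hg hgU.2⟩
  have hU2 : (1 : H) ∉ (CP ∪ CA) ∪ clsSet (M g) := by
    rw [Finset.mem_union, not_or]; exact ⟨hU1, hone _⟩
  have hsum := htotal _ hU2
  rw [Finset.card_union_of_disjoint hd2, hUcard] at hsum
  have hlt : 2 * (clsSet (M g)).card < n * (e * p) := by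
    rw [rfl'] at hsum ⊢
    exact arith_lt h5 hCAc hsum
  have hnorm2 := hm hlt
  have hall : ∀ h, h ≠ 1 → h ∈ (CP ∪ CA) ∪ clsSet (M g) := by
    intro h hh
    by_contra hnot
    rw [Finset.mem_union, Finset.mem_union, not_or, not_or] at hnot
    obtain ⟨-, h4', -⟩ := htwo h hh (hreg h hh hnot.1.1)
    have hs3 := htotal (((CP ∪ CA) ∪ clsSet (M g)) ∪ clsSet (M h)) (by
      rw [Finset.mem_union, not_or]; exact ⟨hU2, hone _⟩)
    rw [Finset.card_union_of_disjoint (Finset.disjoint_union_left.2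
        ⟨Finset.disjoint_union_left.2 ⟨disjoint_clsSet hM hx1 hh hnot.1.1,
          disjoint_clsSet hM hs1 hh hnot.1.2⟩, disjoint_clsSet hM hg hh hnot.2⟩),
      Finset.card_union_of_disjoint hd2, hUcard, rfl'] at hs3
    rw [rfl'] at h4 h4'
    exact arith_four h5 hCAc hs3 h4 h4'
  have heq := hcover _ hU2 hall
  rw [Finset.card_union_of_disjoint hd2, hUcard] at heq
  have hc := card_clsSet hM hg
  rw [hnorm2, hN] at hc
  set a := Nat.card (M g) with haa
  -- the Diophantine equation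
  have key : (n : ℤ) * (p * e - (p - 2) * a) = 2 * a := by
    have hpe : ((e : ℕ) : ℤ) = e' + 1 := by exact_mod_cast rfl'
    have hca : ((CA.card : ℕ) : ℤ) * 2 = n * p * e' := by exact_mod_cast (mul_comm _ 2).trans hCAc
    have hcg : ((clsSet (M g)).card : ℤ) * (2 * a) = n * (e * p) * (a - 1) := by
      have := congrArg (fun z : ℕ => (z : ℤ)) hc
      push_cast [Nat.cast_sub (show 1 ≤ a by omega)] at this
      exact this
    have heq' : (n : ℤ) * (p - 1) + CA.card + (clsSet (M g)).card + 1 = n * (e * p) := by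
      have := congrArg (fun z : ℕ => (z : ℤ)) heq
      push_cast [Nat.cast_sub (show 1 ≤ p by omega)] at this
      exact this
    linear_combination -((2 * (a : ℤ)) * heq' - hcg - (a : ℤ) * hca + (n : ℤ) * p * a * hpe)
  obtain ⟨hna, hep⟩ := arith_final (by exact_mod_cast h5) (by exact_mod_cast hnp)
    (show (1 : ℤ) ≤ a by exact_mod_cast (show 1 ≤ a by omega)) (by exact_mod_cast hbound) key
  exact ⟨by exact_mod_cast hna, by exact_mod_cast hep, hN⟩

end Cfsg.Agent.H42.SmallFaithful
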