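import Mathlib

/-!
# Rotations of a three-dimensional quadratic space
-/

set_option autoImplicit false
set_option linter.unusedSectionVars false

namespace Cfsg.Agent.H42.SmallFaithful

open Module

variable {k : Type*} [Field k] {V : Type*} [AddCommGroup V] [Module k V] [FiniteDimensional k V]

/-- A nondegenerate symmetric form with an isometry group of determinant one. -/
structure IsRot (B : V →ₗ[k] V →ₗ[k] k) (g : Module.End k V) : Prop where
  isom : ∀ v w, B (g v) (g w) = B v w
  det : LinearMap.det g = 1

/-- The standing hypotheses on the space. -/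
structure IsQuad (B : V →ₗ[k] V →ₗ[k] k) : Prop where
  two : (2 : k) ≠ 0
  dim : finrank k V = 3
  symm : ∀ v w, B v w = B w v
  nondeg : ∀ v, (∀ w, B v w = 0) → v = 0

variable {B : V →ₗ[k] V →ₗ[k] k}

/-- An isometry of determinant one has a fixed vector. -/
theorem IsQuad.exists_fixed (hB : IsQuad B) {g : Module.End k V} (hg : IsRot B g) :
    ∃ u, u ≠ 0 ∧ g u = u := by
  classical
  let b : Basis (Fin 3) k V := finBasisOfFinrankEq k V hB.dim
  set J := LinearMap.toMatrix₂ b b B with hJ
  set M := LinearMap.toMatrix b b g with hM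
  have hJdet : J.det ≠ 0 := (LinearMap.separatingLeft_iff_det_ne_zero b).1 hB.nondeg
  have hMJ : Matrix.transpose M * J * M = J := by
    rw [hM, hJ, ← LinearMap.toMatrix₂_compl₁₂]
    congr 1
    exact LinearMap.ext₂ hg.isom
  have hMdet : M.det = 1 := by rw [hM, LinearMap.det_toMatrix]; exact hg.det
  have key : Matrix.transpose M * J * (M - 1) = -(Matrix.transpose (M - 1) * J) := by
    rw [mul_sub, hMJ, mul_one, Matrix.transpose_sub, Matrix.transpose_one, sub_mul, one_mul]
    abel
  have h0 : (M - 1).det = 0 := by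
    have h := congrArg Matrix.det key
    rw [Matrix.det_mul, Matrix.det_mul, Matrix.det_neg, Matrix.det_mul, Matrix.det_transpose,
      Matrix.det_transpose, hMdet, Fintype.card_fin] at h
    have h' : (2 * J.det) * (M - 1).det = 0 := by linear_combination h
    exact (mul_eq_zero.1 h').resolve_left (mul_ne_zero hB.two hJdet)
  have hdet : LinearMap.det (g - 1) = 0 := by
    rw [← LinearMap.det_toMatrix b, map_sub, LinearMap.toMatrix_one, ← hM, h0]
  obtain ⟨u, hu, hu0⟩ := Submodule.exists_mem_ne_zero_of_ne_bot
    (LinearMap.bot_lt_ker_of_det_eq_zero hdet).ne'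
  exact ⟨u, hu0, sub_eq_zero.1 hu⟩

/-- If two independent vectors are fixed the rotation is unipotent with square zero. -/
theorem IsQuad.sq_eq_zero_of_two_fixed (hB : IsQuad B) {g : Module.End k V} (hg : IsRot B g)
    {u v : V} (hu : g u = u) (hv : g v = v) (huv : LinearIndependent k ![u, v]) :
    (g - 1) ^ 2 = 0 := by
  classical
  have hperp : ∀ a, B u ((g - 1) a) = 0 ∧ B v ((g - 1) a) = 0 := fun a => by
    simp only [LinearMap.sub_apply, Module.End.one_apply, map_sub]
    exact ⟨by rw [sub_eq_zero]; conv_lhs => rw [← hu, hg.isom],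
      by rw [sub_eq_zero]; conv_lhs => rw [← hv, hg.isom]⟩
  set L : V →ₗ[k] k × k := (B u).prod (B v) with hL
  have hsurj : finrank k (LinearMap.range L) = 2 := by
    have hle : finrank k (LinearMap.range L) ≤ 2 := by
      refine (Submodule.finrank_le _).trans ?_
      simp
    refine le_antisymm hle ?_
    by_contra hlt
    push Not at hlt
    have hne : LinearMap.range L ≠ ⊤ := fun h => by
      rw [h, finrank_top, Module.finrank_prod, Module.finrank_self] at hlt
      omega
    obtain ⟨φ, hφ0, hφ⟩ := Submodule.exists_le_ker_of_lt_top (LinearMap.range L) hne.lt_top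
    have hzero : φ (1, 0) • u + φ (0, 1) • v = 0 := by
      refine hB.nondeg _ fun w => ?_
      have hw : φ (L w) = 0 := hφ ⟨w, rfl⟩
      have he : L w = B u w • ((1 : k), (0 : k)) + B v w • ((0 : k), (1 : k)) := by
        ext <;> simp [hL]
      rw [he, map_add, map_smul, map_smul, smul_eq_mul, smul_eq_mul] at hw
      simp only [map_add, map_smul, LinearMap.add_apply, LinearMap.smul_apply, smul_eq_mul]
      linear_combination hw
    obtain ⟨h1, h2⟩ := LinearIndependent.pair_iff.1 huv _ _ hzero
    exact hφ0 (LinearMap.ext fun q => by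
      rw [show q = q.1 • ((1 : k), (0 : k)) + q.2 • ((0 : k), (1 : k)) by ext <;> simp,
        map_add, map_smul, map_smul, h1, h2]; simp)
  have hker : finrank k (LinearMap.ker L) = 1 := by
    have := L.finrank_range_add_finrank_ker
    rw [hB.dim] at this
    omega
  obtain ⟨⟨w, hw⟩, hw0, hgen⟩ := finrank_eq_one_iff'.1 hker
  choose φ hφ using fun a => hgen ⟨(g - 1) a, LinearMap.mem_ker.2
    (Prod.ext (hperp a).1 (hperp a).2)⟩
  have hφ' : ∀ a, φ a • w = (g - 1) a := fun a => congrArg Subtype.val (hφ a)
  have hwne : w ≠ 0 := fun h => hw0 (Subtype.ext h)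
  let φl : Module.Dual k V :=
    { toFun := φ
      map_add' := fun a b => by
        refine smul_left_injective k hwne ?_
        simp only [hφ', add_smul, map_add]
      map_smul' := fun c a => by
        refine smul_left_injective k hwne ?_
        simp only [hφ', RingHom.id_apply, smul_eq_mul, mul_smul, map_smul] }
  have hgt : g = LinearMap.transvection φl w := by
    refine LinearMap.ext fun a => ?_
    show g a = a + φ a • w
    rw [hφ' a, LinearMap.sub_apply, Module.End.one_apply, add_sub_cancel]
  have hφw : φ w = 0 := by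
    have h := hg.det
    rw [hgt, LinearMap.transvection.det] at h
    exact (add_eq_left).1 h
  refine LinearMap.ext fun a => ?_
  rw [sq, Module.End.mul_apply, ← hφ' a, map_smul, ← hφ' w, hφw, zero_smul, smul_zero,
    LinearMap.zero_apply]

/-- An isotropic vector lies in a hyperbolic frame. -/
theorem IsQuad.exists_frame (hB : IsQuad B) {u : V} (hu0 : u ≠ 0) (hu : B u u = 0) :
    ∃ z w, B z z = 0 ∧ B u z = 1 ∧ B u w = 0 ∧ B z w = 0 ∧ B w w ≠ 0 := by
  obtain ⟨z₀, hz₀⟩ : ∃ z₀, B u z₀ ≠ 0 := by
    by_contra h
    push Not at h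
    exact hu0 (hB.nondeg u h)
  set z₁ := (B u z₀)⁻¹ • z₀ with hz₁
  have h1 : B u z₁ = 1 := by rw [hz₁, map_smul, smul_eq_mul, inv_mul_cancel₀ hz₀]
  set z := z₁ - (B z₁ z₁ / 2) • u with hz
  have hzz : B z z = 0 := by
    simp only [hz, map_sub, map_smul, LinearMap.sub_apply, LinearMap.smul_apply, smul_eq_mul,
      hB.symm z₁ u, h1, hu]
    have := hB.two
    field_simp
    ring
  have huz : B u z = 1 := by simp only [hz, map_sub, map_smul, hu, h1, smul_zero, sub_zero]
  have hker : LinearMap.ker ((B u).prod (B z)) ≠ ⊥ :=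
    LinearMap.ker_ne_bot_of_finrank_lt (by rw [Module.finrank_prod, Module.finrank_self, hB.dim]; norm_num)
  obtain ⟨w, hw, hw0⟩ := Submodule.exists_mem_ne_zero_of_ne_bot hker
  have hwu : B u w = 0 := congrArg Prod.fst hw
  have hwz : B z w = 0 := congrArg Prod.snd hw
  refine ⟨z, w, hzz, huz, hwu, hwz, fun hww => hw0 ?_⟩
  have hind : LinearIndependent k ![w, u, z] := by
    rw [Fintype.linearIndependent_iff]
    intro c h
    simp [Fin.sum_univ_three] at h
    have a := congrArg (B u) h
    have b := congrArg (B z) h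
    simp only [map_add, map_smul, smul_eq_mul, hu, huz, hzz, hwu, hwz, hB.symm z u, map_zero,
      mul_zero, mul_one, zero_add, add_zero] at a b
    rw [a, b, zero_smul, zero_smul, add_zero, add_zero, smul_eq_zero] at h
    intro i
    fin_cases i
    exacts [h.resolve_right hw0, b, a]
  have htop : Submodule.span k (Set.range ![w, u, z]) = ⊤ :=
    hind.span_eq_top_of_card_eq_finrank (by rw [hB.dim, Fintype.card_fin])
  refine hB.nondeg w fun a => ?_
  have ha : a ∈ Submodule.span k (Set.range ![w, u, z]) := htop ▸ Submodule.mem_top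
  rw [Submodule.mem_span_range_iff_exists_fun] at ha
  obtain ⟨c, rfl⟩ := ha
  simp [Fin.sum_univ_three, hww, hB.symm w u, hB.symm w z, hwu, hwz]

/-- A hyperbolic frame is a basis. -/
theorem IsQuad.frame_basis (hB : IsQuad B) {u z w : V} (huu : B u u = 0) (hzz : B z z = 0)
    (huz : B u z = 1) (huw : B u w = 0) (hzw : B z w = 0) (hww : B w w ≠ 0) :
    ∃ b : Basis (Fin 3) k V, ⇑b = ![u, w, z] ∧
      ∀ v, b.repr v 0 = B z v ∧ b.repr v 1 = B w v / B w w ∧ b.repr v 2 = B u v := by
  have hzu : B z u = 1 := hB.symm z u ▸ huz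
  have hwu : B w u = 0 := hB.symm w u ▸ huw
  have hwz : B w z = 0 := hB.symm w z ▸ hzw
  have hind : LinearIndependent k ![u, w, z] := by
    rw [Fintype.linearIndependent_iff]
    intro c h
    simp [Fin.sum_univ_three] at h
    have a := congrArg (B u) h
    have b := congrArg (B w) h
    have d := congrArg (B z) h
    simp only [map_add, map_smul, smul_eq_mul, huu, huw, huz, hwu, hwz, hzu, hzw, hzz, map_zero,
      mul_zero, mul_one, zero_add, add_zero, mul_eq_zero, hww, or_false] at a b d
    intro i
    fin_cases i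
    exacts [d, b, a]
  let b := basisOfLinearIndependentOfCardEqFinrank hind (by rw [hB.dim, Fintype.card_fin])
  have hb : ⇑b = ![u, w, z] := coe_basisOfLinearIndependentOfCardEqFinrank _ _
  refine ⟨b, hb, fun v => ?_⟩
  conv => enter [1, 2]; rw [← b.sum_repr v]
  conv => enter [2, 1, 2, 1]; rw [← b.sum_repr v]
  conv => enter [2, 2, 2]; rw [← b.sum_repr v]
  simp [Fin.sum_univ_three, hb, huu, huw, huz, hwu, hwz, hzu, hzw, hzz]
  field_simp

/-- The determinant in terms of a frame. -/
theorem IsQuad.det_frame (hB : IsQuad B) {u z w : V} (huu : B u u = 0) (hzz : B z z = 0)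
    (huz : B u z = 1) (huw : B u w = 0) (hzw : B z w = 0) (hww : B w w ≠ 0)
    (g : Module.End k V) :
    B w w * LinearMap.det g = Matrix.det !![B z (g u), B z (g w), B z (g z);
      B w (g u), B w (g w), B w (g z); B u (g u), B u (g w), B u (g z)] := by
  obtain ⟨b, hb, hr⟩ := hB.frame_basis huu hzz huz huw hzw hww
  have h0 : b 0 = u := by simp [hb]
  have h1 : b 1 = w := by simp [hb]
  have h2 : b 2 = z := by simp [hb]
  rw [← LinearMap.det_toMatrix b, Matrix.det_fin_three, Matrix.det_fin_three]
  simp only [LinearMap.toMatrix_apply, h0, h1, h2, hr, Matrix.of_apply, Matrix.cons_val',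
    Matrix.cons_val_zero, Matrix.cons_val_one, Matrix.cons_val_fin_one,
    Matrix.empty_val', Fin.isValue, Matrix.cons_val]
  field_simp

/-- A rotation fixing an isotropic vector is unipotent. -/
theorem IsQuad.cube_eq_zero (hB : IsQuad B) {g : Module.End k V} (hg : IsRot B g) {u : V}
    (hu0 : u ≠ 0) (hu : B u u = 0) (hgu : g u = u) : (g - 1) ^ 3 = 0 := by
  obtain ⟨z, w, hzz, huz, huw, hzw, hww⟩ := hB.exists_frame hu0 hu
  have hpu : ∀ v, B u (g v) = B u v := fun v => by conv_lhs => rw [← hgu, hg.isom]
  have hdet := hB.det_frame hu hzz huz huw hzw hww g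
  rw [hg.det, Matrix.det_fin_three] at hdet
  simp only [Matrix.of_apply, Matrix.cons_val', Matrix.cons_val_zero, Matrix.cons_val_one,
    Matrix.cons_val_fin_one, Matrix.cons_val, hgu, hpu, hu, huw, huz, hB.symm z u, hB.symm w u,
    mul_zero, zero_mul, sub_zero, add_zero, mul_one, one_mul] at hdet
  obtain ⟨b, hb, hr⟩ := hB.frame_basis hu hzz huz huw hzw hww
  have hexp : ∀ v, v = B z v • u + (B w v / B w w) • w + B u v • z := fun v => by
    conv_lhs => rw [← b.sum_repr v]
    simp [Fin.sum_univ_three, hr, hb]
  set a := g - 1 with ha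
  have hau : a u = 0 := by rw [ha, LinearMap.sub_apply, Module.End.one_apply, hgu, sub_self]
  have haw : a w = B z (g w) • u := by
    rw [ha, LinearMap.sub_apply, Module.End.one_apply]
    conv_lhs => rw [hexp (g w)]
    rw [hpu w, huw, zero_smul, add_zero, ← hdet, div_self hww, one_smul, add_sub_cancel_right]
  have haz : a z = B z (g z) • u + (B w (g z) / B w w) • w := by
    rw [ha, LinearMap.sub_apply, Module.End.one_apply]
    conv_lhs => rw [hexp (g z)]
    rw [hpu z, huz, one_smul, add_sub_cancel_right]
  refine b.ext fun i => ?_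
  rw [hb]
  fin_cases i <;>
    simp [pow_succ, Module.End.mul_apply, hau, haw, haz, map_add, map_smul]

/-- A rotation about a nonisotropic axis preserves every isotropic line orthogonal to it. -/
theorem IsQuad.map_isotropic (hB : IsQuad B) {g : Module.End k V} (hg : IsRot B g) {w u : V}
    (hgw : g w = w) (hww : B w w ≠ 0) (hu0 : u ≠ 0) (huu : B u u = 0) (huw : B u w = 0) :
    ∃ c : k, g u = c • u := by
  obtain ⟨z₀, hz₀⟩ : ∃ z₀, B u z₀ ≠ 0 := by
    by_contra h
    push Not at h
    exact hu0 (hB.nondeg u h)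
  set z₁ := (B u z₀)⁻¹ • z₀ - ((B u z₀)⁻¹ * B w z₀ / B w w) • w with hz₁
  have h1 : B u z₁ = 1 := by
    rw [hz₁, map_sub, map_smul, map_smul, huw, smul_zero, sub_zero, smul_eq_mul, inv_mul_cancel₀ hz₀]
  have h1w : B w z₁ = 0 := by
    rw [hz₁, map_sub, map_smul, map_smul, smul_eq_mul, smul_eq_mul]
    field_simp
    ring
  set z := z₁ - (B z₁ z₁ / 2) • u with hz
  have hzz : B z z = 0 := by
    simp only [hz, map_sub, map_smul, LinearMap.sub_apply, LinearMap.smul_apply, smul_eq_mul,
      hB.symm z₁ u, h1, huu]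
    have := hB.two
    field_simp
    ring
  have huz : B u z = 1 := by simp only [hz, map_sub, map_smul, huu, h1, smul_zero, sub_zero]
  have hzw : B z w = 0 := by
    rw [hB.symm, hz, map_sub, map_smul, h1w, hB.symm w u, huw, smul_zero, sub_zero]
  have hpw : ∀ v, B w (g v) = B w v := fun v => by conv_lhs => rw [← hgw, hg.isom]
  have hdet := hB.det_frame huu hzz huz huw hzw hww g
  rw [hg.det, Matrix.det_fin_three] at hdet
  simp only [Matrix.of_apply, Matrix.cons_val', Matrix.cons_val_zero, Matrix.cons_val_one,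
    Matrix.cons_val_fin_one, Matrix.cons_val, hgw, hpw, huw, hzw, hB.symm w u, hB.symm w z,
    mul_zero, zero_mul, sub_zero, add_zero, mul_one, zero_add] at hdet
  obtain ⟨b, hb, hr⟩ := hB.frame_basis huu hzz huz huw hzw hww
  have hexp : ∀ v, v = B z v • u + (B w v / B w w) • w + B u v • z := fun v => by
    conv_lhs => rw [← b.sum_repr v]
    simp [Fin.sum_univ_three, hr, hb]
  set α := B z (g u) with hα
  set β := B u (g u) with hβ
  have hgu : g u = α • u + β • z := by
    conv_lhs => rw [hexp (g u)]
    rw [hpw u, hB.symm w u, huw, zero_div, zero_smul, add_zero]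
  have hgz : g z = B z (g z) • u + B u (g z) • z := by
    conv_lhs => rw [hexp (g z)]
    rw [hpw z, hB.symm w z, hzw, zero_div, zero_smul, add_zero]
  have hzu : B z u = 1 := by rw [hB.symm, huz]
  have hiso : α * β = 0 := by
    have h := hg.isom u u
    rw [huu, hgu] at h
    simp only [map_add, map_smul, LinearMap.add_apply, LinearMap.smul_apply, smul_eq_mul, huu,
      huz, hzu, hzz, mul_one, mul_zero, zero_add, add_zero] at h
    exact (mul_eq_zero.1 (show (2 : k) * (α * β) = 0 by linear_combination h)).resolve_left hB.two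
  have hpair : α * B u (g z) + β * B z (g z) = 1 := by
    have h := hg.isom u z
    rw [huz] at h
    rw [hgu, hgz] at h
    simp only [map_add, map_smul, LinearMap.add_apply, LinearMap.smul_apply, smul_eq_mul, huu,
      huz, hzu, hzz, mul_one, mul_zero, zero_add, add_zero] at h
    linear_combination h
  have hβ0 : β = 0 := by
    by_contra hne
    have hα0 : α = 0 := (mul_eq_zero.1 hiso).resolve_right hne
    rw [hα0, zero_mul, zero_add] at hpair
    have h2 : (2 : k) * B w w = 0 := by linear_combination hdet + (-B w w) * hpair + (B w w * B u (g z)) * hα0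
    exact mul_ne_zero hB.two hww h2
  exact ⟨α, by rw [hgu, hβ0, zero_smul, add_zero]⟩

end Cfsg.Agent.H42.SmallFaithful
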