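import Mathlib
import Cfsg.Agent.H42.SmallFaithful.Geometry
import Cfsg.Agent.H42.SmallFaithful.Count
import Cfsg.Agent.H43.D1.Stable

/-!
# Perfect rotation groups in characteristic `p` with `p` dividing the order once
-/

set_option autoImplicit false
set_option maxHeartbeats 1000000
set_option linter.unusedSectionVars false

namespace Cfsg.Agent.H42.SmallFaithful

open Module Cfsg.Agent.H43.D1

attribute [local instance] Fintype.ofFinite

variable {k : Type*} [Field k] {V : Type*} [AddCommGroup V] [Module k V]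
  {H : Type*} [Group H]

/-- The stabilizer of a vector. -/
def fixer (σ : H →* Module.End k V) (u : V) : Subgroup H where
  carrier := {g | σ g u = u}
  one_mem' := by simp
  mul_mem' := fun {a b} ha hb => by
    show σ (a * b) u = u
    rw [map_mul, Module.End.mul_apply, show σ b u = u from hb, show σ a u = u from ha]
  inv_mem' := fun {a} ha => by
    show σ a⁻¹ u = u
    conv_lhs => rw [← show σ a u = u from ha]
    rw [← Module.End.mul_apply, ← map_mul, inv_mul_cancel, map_one, Module.End.one_apply]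

theorem mem_fixer {σ : H →* Module.End k V} {u : V} {g : H} : g ∈ fixer σ u ↔ σ g u = u := Iff.rfl

variable {p : ℕ} [hp : Fact p.Prime] [CharP k p] [FiniteDimensional k V] [Finite H]

theorem pow_p_eq_one_of_nilpotent (σ : H →* Module.End k V) (hinj : Function.Injective σ) {g : H}
    {j : ℕ} (hj : j ≤ p) (h : (σ g - 1) ^ j = 0) : g ^ p = 1 := by
  refine hinj (sub_eq_zero.1 ?_)
  rw [map_one, map_pow, ← geom_sum_mul, geom_sum_eq_sub_one_pow (k := k) (p := p), ← pow_succ,
    Nat.sub_add_cancel hp.out.one_lt.le, pow_eq_zero_of_le hj h]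

/-- The count for a perfect rotation group. -/
theorem rotation_group (σ : H →* Module.End k V) (hinj : Function.Injective σ)
    (B : V →ₗ[k] V →ₗ[k] k) (hB : IsQuad B) (hinv : ∀ g v w, B (σ g v) (σ g w) = B v w)
    (hperf : commutator H = ⊤) (S : Setup p H) (h5 : 5 ≤ p)
    (hx2 : (σ S.x - 1) ^ 2 ≠ 0) (hbound : 2 * Nat.card S.L + 1 ≤ p) (hnn : ¬ S.P.Normal) :
    Nat.card (Sylow p H) = p + 1 ∧ 2 * Nat.card S.L + 1 = p ∧
      Nat.card H = Nat.card (Sylow p H) * (Nat.card S.L * p) ∧
      Subgroup.centralizer ({S.x} : Set H) = S.P := by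
  classical
  have hdet : ∀ g, LinearMap.det (σ g) = 1 := by
    intro g
    set D := (LinearMap.det.comp σ).toHomUnits with hD
    have hle : commutator H ≤ D.ker := by
      rw [commutator_def, Subgroup.commutator_le]
      intro a _ b _
      rw [MonoidHom.mem_ker, map_commutatorElement, commutatorElement_eq_one_iff_mul_comm, mul_comm]
    exact congrArg Units.val (MonoidHom.mem_ker.1 (hle (hperf ▸ Subgroup.mem_top g)))
  have hrot : ∀ g, IsRot B (σ g) := fun g => ⟨hinv g, hdet g⟩
  have hdvd : p ∣ Nat.card H := by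
    have := orderOf_dvd_natCard (G := H) S.x
    rwa [S.orderOf_x] at this
  have hfac : (Nat.card H).factorization p = 1 := by
    refine le_antisymm ?_ (hp.out.factorization_pos_of_dvd Nat.card_pos.ne' hdvd)
    by_contra h
    exact S.not_sq ((hp.out.pow_dvd_iff_le_factorization Nat.card_pos.ne').2 (by omega))
  let PS : Sylow p H := Sylow.ofCard S.P (by rw [S.card_P, hfac, pow_one])
  -- elements of order `p` are single blocks
  have hblock : ∀ g : H, g ≠ 1 → g ^ p = 1 → (σ g - 1) ^ 2 ≠ 0 := by
    intro g hg hgp h0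
    have hgo : orderOf g = p := orderOf_eq_prime hgp hg
    let Q : Sylow p H := Sylow.ofCard (Subgroup.zpowers g)
      (by rw [Nat.card_zpowers, hgo, hfac, pow_one])
    obtain ⟨c, hc⟩ := MulAction.exists_smul_eq H Q PS
    have hxQ : c⁻¹ * S.x * c ∈ Subgroup.zpowers g := by
      have h1 : S.x ∈ (PS : Subgroup H) := Subgroup.mem_zpowers S.x
      rw [← hc, Sylow.coe_subgroup_smul, Subgroup.mem_pointwise_smul_iff_inv_smul_mem] at h1
      show c⁻¹ * S.x * c ∈ (Q : Subgroup H)
      simpa [MulAut.smul_def] using h1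
    obtain ⟨i, hi⟩ := (mem_powers_iff_mem_zpowers).2 hxQ
    change g ^ i = _ at hi
    have e : σ S.x - 1 = σ c * ((σ g) ^ i - 1) * σ c⁻¹ := by
      rw [← map_pow, hi, mul_sub, sub_mul, mul_one, ← map_mul σ c c⁻¹, mul_inv_cancel, map_one,
        ← map_mul, ← map_mul]
      simp [mul_assoc]
    refine hx2 ?_
    have hcc : σ c⁻¹ * σ c = 1 := by rw [← map_mul, inv_mul_cancel, map_one]
    rw [e, sq, show σ c * ((σ g) ^ i - 1) * σ c⁻¹ * (σ c * ((σ g) ^ i - 1) * σ c⁻¹) =
      σ c * (((σ g) ^ i - 1) * (σ c⁻¹ * σ c) * ((σ g) ^ i - 1)) * σ c⁻¹ by simp only [mul_assoc],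
      hcc, mul_one, ← sq, ← geom_sum_mul, Commute.mul_pow, h0, mul_zero, mul_zero, zero_mul]
    exact Commute.sum_left _ _ _ fun j _ =>
      ((Commute.refl (σ g)).pow_left j).sub_right (Commute.one_right _)
  have huniq : ∀ g : H, g ≠ 1 → ∀ u v : V, u ≠ 0 → σ g u = u → σ g v = v → ∃ t : k, v = t • u := by
    intro g hg u v hu hgu hgv
    by_contra hcon
    push Not at hcon
    have hind : LinearIndependent k ![u, v] := by
      rw [LinearIndependent.pair_iff' hu]
      exact fun t h => hcon t h.symm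
    have h2 := hB.sq_eq_zero_of_two_fixed (hrot g) hgu hgv hind
    exact hblock g hg (pow_p_eq_one_of_nilpotent σ hinj (by omega) h2) h2
  choose ax hax0 hax using fun g => hB.exists_fixed (hrot g)
  set M : H → Subgroup H := fun g => fixer σ (ax g) with hMdef
  have hMeq : ∀ g, g ≠ 1 → ∀ u : V, u ≠ 0 → σ g u = u → M g = fixer σ u := by
    intro g hg u hu hgu
    obtain ⟨t, ht⟩ := huniq g hg u (ax g) hu hgu (hax g)
    have ht0 : t ≠ 0 := by
      rintro rfl
      exact hax0 g (by rw [ht, zero_smul])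
    ext h
    rw [hMdef, mem_fixer, mem_fixer, ht, map_smul]
    exact ⟨fun he => smul_right_injective V ht0 he, fun he => by rw [he]⟩
  have hM : AxisData M := by
    refine ⟨fun g _ => hax g, fun g h hg hh h1 => hMeq h h1 _ (hax0 g) hh, fun g c hg => ?_⟩
    have hu : σ c (ax g) ≠ 0 := by
      intro h
      refine hax0 g ?_
      rw [← Module.End.one_apply (R := k) (ax g), ← map_one σ, ← inv_mul_cancel c, map_mul,
        Module.End.mul_apply, h, map_zero]
    rw [hMeq (c * g * c⁻¹) (by simpa [conj_eq_one_iff] using hg) (σ c (ax g)) hu (by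
      rw [← Module.End.mul_apply, ← map_mul, inv_mul_cancel_right, map_mul, Module.End.mul_apply,
        hax g])]
    ext h
    rw [Subgroup.mem_map_equiv, MulAut.conj_symm_apply, mem_fixer, mem_fixer, map_mul, map_mul,
      Module.End.mul_apply, Module.End.mul_apply]
    constructor
    · intro he
      rw [he, ← Module.End.mul_apply, ← map_mul, inv_mul_cancel, map_one, Module.End.one_apply]
    · intro he
      have := congrArg (σ c) he
      rwa [← Module.End.mul_apply (σ c) (σ c⁻¹), ← map_mul, mul_inv_cancel, map_one,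
        Module.End.one_apply] at this
  -- isotropic axes
  have hisoP : ∀ g, g ≠ 1 → B (ax g) (ax g) = 0 → Nat.card (M g) = p := by
    intro g hg hiso
    have hpow : ∀ h : M g, h ^ p = 1 := fun h => Subtype.ext
      (pow_p_eq_one_of_nilpotent σ hinj (by omega : 3 ≤ p)
        (hB.cube_eq_zero (hrot h) (hax0 g) hiso h.2))
    have hpg : IsPGroup p (M g) := fun h => ⟨1, by rw [pow_one]; exact hpow h⟩
    obtain ⟨i, hi⟩ := IsPGroup.iff_card.1 hpg
    rcases Nat.lt_or_ge i 2 with h2 | h2
    · interval_cases i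
      · exfalso
        rw [pow_zero] at hi
        have : (⟨g, hax g⟩ : M g) = 1 := by
          have := (Nat.card_eq_one_iff_unique.1 hi).1
          exact Subsingleton.elim _ _
        exact hg (congrArg Subtype.val this)
      · rw [hi, pow_one]
    · refine absurd ?_ S.not_sq
      exact ((pow_dvd_pow p h2).trans (hi ▸ dvd_rfl)).trans (M g).card_subgroup_dvd_card
  have hdvdiso : ∀ g, g ≠ 1 → p ∣ Nat.card (M g) → B (ax g) (ax g) = 0 := by
    intro g hg hd
    obtain ⟨h, hh⟩ := exists_prime_orderOf_dvd_card' (G := M g) p hd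
    rw [← Subgroup.orderOf_coe] at hh
    have h1 : (h : H) ≠ 1 := fun e => by
      rw [e, orderOf_one] at hh
      exact hp.out.one_lt.ne hh
    have hhp : (h : H) ^ p = 1 := hh ▸ pow_orderOf_eq_one _
    have hblk := hblock _ h1 hhp
    set δ := σ (h : H) - 1 with hδ
    have hδ3 : δ ^ 3 = 0 := by
      have hnil : δ ^ p = 0 := by
        rw [hδ, ← Nat.sub_add_cancel hp.out.one_lt.le, pow_succ,
          ← geom_sum_eq_sub_one_pow (k := k) (p := p), geom_sum_mul, ← map_pow, hhp, map_one, sub_self]
      have h2 := Module.End.ker_pow_le_ker_pow_finrank δ p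
      rw [LinearMap.ker_eq_top.2 hnil, top_le_iff, hB.dim] at h2
      exact LinearMap.ker_eq_top.1 h2
    obtain ⟨v, hv⟩ : ∃ v, (δ ^ 2) v ≠ 0 := by
      by_contra hc
      push Not at hc
      exact hblk (LinearMap.ext fun v => by rw [hc v, LinearMap.zero_apply])
    have hfix : σ (h : H) ((δ ^ 2) v) = (δ ^ 2) v := by
      have h3 : δ ((δ ^ 2) v) = 0 := by
        rw [← Module.End.mul_apply, ← pow_succ', hδ3, LinearMap.zero_apply]
      exact sub_eq_zero.1 h3
    obtain ⟨t, ht⟩ := huniq _ h1 _ (ax g) hv hfix h.2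
    have hadj : ∀ a b, B (δ a) b = -B a (σ (h : H)⁻¹ (δ b)) := by
      intro a b
      rw [hδ, LinearMap.sub_apply, Module.End.one_apply, map_sub, LinearMap.sub_apply,
        LinearMap.sub_apply, Module.End.one_apply, map_sub, ← Module.End.mul_apply (σ (h : H)⁻¹),
        ← map_mul, inv_mul_cancel, map_one, Module.End.one_apply, map_sub,
        ← hinv (h : H) a (σ (h : H)⁻¹ b), ← Module.End.mul_apply (σ (h : H)),
        ← map_mul, mul_inv_cancel, map_one, Module.End.one_apply]
      ring
    have h0 : B ((δ ^ 2) v) ((δ ^ 2) v) = 0 := by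
      conv_lhs => arg 1; rw [sq, Module.End.mul_apply]
      rw [hadj, ← Module.End.mul_apply δ, ← pow_succ', hδ3, LinearMap.zero_apply, map_zero, map_zero,
        neg_zero]
    rw [ht, map_smul, map_smul, LinearMap.smul_apply, h0, smul_zero, smul_zero]
  have hpord : ∀ g, g ≠ 1 → p ∣ Nat.card (M g) → Nat.card (M g) = p := fun g hg hd =>
    hisoP g hg (hdvdiso g hg hd)
  have hx1 : S.x ≠ 1 := S.x_ne_one
  have hMx : M S.x = S.P := by
    refine (Subgroup.eq_of_le_of_card_ge (Subgroup.zpowers_le.2 (hax S.x)) ?_).symm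
    rw [S.card_P, hpord _ hx1 ?_]
    have := orderOf_dvd_natCard (G := M S.x) ⟨S.x, hax S.x⟩
    rw [← Subgroup.orderOf_coe] at this
    exact (dvd_of_eq S.orderOf_x.symm).trans this
  have hC : ∀ g, Commute g S.x → g ∈ S.P := by
    intro g hg
    by_cases hg1 : g = 1
    · rw [hg1]; exact S.P.one_mem
    have hcomm : σ g (σ S.x (ax g)) = σ S.x (ax g) := by
      rw [← Module.End.mul_apply, ← map_mul, hg.eq, map_mul, Module.End.mul_apply, hax g]
    obtain ⟨t, ht⟩ := huniq g hg1 (ax g) _ (hax0 g) (hax g) hcomm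
    have hpow : ∀ j : ℕ, σ (S.x ^ j) (ax g) = t ^ j • ax g := by
      intro j
      induction j with
      | zero => simp
      | succ j ih =>
        rw [pow_succ, map_mul, Module.End.mul_apply, ht, map_smul, ih, smul_smul, pow_succ']
    have ht1 : t = 1 := by
      have h1 := hpow p
      rw [S.x_pow_p, map_one, Module.End.one_apply] at h1
      have h2 : t ^ p = 1 := smul_left_injective k (hax0 g) (h1.symm.trans (one_smul k _).symm)
      have h3 : (t - 1) ^ p = 0 := by rw [sub_pow_char, h2, one_pow, sub_self]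
      exact sub_eq_zero.1 (eq_zero_of_pow_eq_zero h3)
    rw [ht1, one_smul] at ht
    rw [← hMx, hMeq S.x hx1 _ (hax0 g) ht]
    exact hax g
  have hindex : ∀ g, g ≠ 1 → ¬ p ∣ Nat.card (M g) →
      Nat.card (Subgroup.normalizer (M g : Set H)) ≤ 2 * Nat.card (M g) := by
    intro g hg hgp
    have hniso : B (ax g) (ax g) ≠ 0 := fun h => hgp (hisoP g hg h ▸ dvd_rfl)
    set N := Subgroup.normalizer (M g : Set H)
    have hsign : ∀ c ∈ N, σ c (ax g) = ax g ∨ σ c (ax g) = -ax g := by
      intro c hc
      have h1 : c⁻¹ * g * c ∈ M g := (Subgroup.mem_normalizer_iff''.1 hc g).1 (hax g)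
      have h2 : σ g (σ c (ax g)) = σ c (ax g) := by
        have := congrArg (σ c) h1
        rw [← Module.End.mul_apply, ← map_mul, show c * (c⁻¹ * g * c) = g * c by group, map_mul,
          Module.End.mul_apply] at this
        exact this
      obtain ⟨t, ht⟩ := huniq g hg (ax g) _ (hax0 g) (hax g) h2
      have h3 := hinv c (ax g) (ax g)
      rw [ht, map_smul, map_smul, LinearMap.smul_apply, smul_eq_mul, smul_eq_mul] at h3
      have h4 : (t - 1) * (t + 1) = 0 := by
        refine (mul_eq_zero.1 (show ((t - 1) * (t + 1)) * B (ax g) (ax g) = 0 from ?_)).resolve_right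
          hniso
        linear_combination h3
      rcases mul_eq_zero.1 h4 with h | h
      · left; rw [ht, sub_eq_zero.1 h, one_smul]
      · right; rw [ht, eq_neg_of_add_eq_zero_left h, neg_one_smul]
    by_cases hall : ∀ c ∈ N, σ c (ax g) = ax g
    · exact (Subgroup.card_le_of_le hall).trans (Nat.le_mul_of_pos_left _ two_pos)
    push Not at hall
    obtain ⟨c₀, hc₀N, hc₀⟩ := hall
    have hc₀' : σ c₀ (ax g) = -ax g := (hsign c₀ hc₀N).resolve_left hc₀
    have hcase : ∀ c : N, (c : H) ∈ M g ∨ c₀⁻¹ * c ∈ M g := by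
      intro c
      refine (hsign c c.2).imp_right fun h => ?_
      have h' : ax g = σ c₀⁻¹ (-ax g) := by
        rw [← hc₀', ← Module.End.mul_apply, ← map_mul, inv_mul_cancel, map_one, Module.End.one_apply]
      show σ (c₀⁻¹ * c) (ax g) = ax g
      rw [map_mul, Module.End.mul_apply, h, ← h']
    let f : N → M g ⊕ M g := fun c =>
      if h : (c : H) ∈ M g then Sum.inl ⟨_, h⟩ else Sum.inr ⟨_, (hcase c).resolve_left h⟩
    have hf : Function.Injective f := by
      intro a b hab
      simp only [f] at hab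
      split_ifs at hab
      · exact Subtype.ext (congrArg Subtype.val (Sum.inl_injective hab) :)
      · exact Subtype.ext (mul_left_cancel (congrArg Subtype.val (Sum.inr_injective hab) :))
    have := Nat.card_le_card_of_injective f hf
    rwa [Nat.card_sum, ← two_mul] at this
  have hnorm : ∀ s ∈ S.L, s ≠ 1 → M s ≤ S.N ∧ ¬ p ∣ Nat.card (M s) := by
    intro s hs hs1
    have hsp : ¬ p ∣ Nat.card (M s) := by
      intro hd
      refine S.not_dvd_orderOf_L ⟨s, hs⟩ ?_
      have := orderOf_dvd_natCard (G := M s) ⟨s, hax s⟩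
      rw [← Subgroup.orderOf_coe, hpord s hs1 hd] at this
      rcases (Nat.dvd_prime hp.out).1 this with h | h
      · exact absurd (orderOf_eq_one_iff.1 h) hs1
      · exact dvd_of_eq h.symm
    refine ⟨fun a ha => ?_, hsp⟩
    have hniso : B (ax s) (ax s) ≠ 0 := fun h => hsp (hisoP s hs1 h ▸ dvd_rfl)
    have hxiso : B (ax S.x) (ax S.x) = 0 := hdvdiso _ hx1 (by rw [hMx, S.card_P])
    obtain ⟨t, ht⟩ : ∃ t : k, σ s (ax S.x) = t • ax S.x := by
      refine huniq S.x hx1 _ _ (hax0 _) (hax _) ?_
      have hm : s⁻¹ * S.x * s ∈ M S.x := by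
        rw [hMx]; exact S.conj_mem' hs (Subgroup.mem_zpowers _)
      have := congrArg (σ s) hm
      rwa [← Module.End.mul_apply, ← map_mul, show s * (s⁻¹ * S.x * s) = S.x * s by group, map_mul,
        Module.End.mul_apply] at this
    have ht1 : t ≠ 1 := by
      rintro rfl
      rw [one_smul] at ht
      exact hs1 (S.inf_eq_one hs (hMx ▸ (ht : s ∈ M S.x)))
    have horth : B (ax S.x) (ax s) = 0 := by
      have h := hinv s (ax S.x) (ax s)
      rw [ht, hax s, map_smul, LinearMap.smul_apply, smul_eq_mul] at h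
      exact (mul_eq_zero.1 (show (t - 1) * B (ax S.x) (ax s) = 0 by linear_combination h)).resolve_left
        (sub_ne_zero.2 ht1)
    obtain ⟨c, hc⟩ := hB.map_isotropic (hrot a) ha hniso (hax0 _) hxiso horth
    refine S.mem_N_of_conj_mem ?_
    rw [← hMx]
    show σ (a * S.x * a⁻¹) (ax S.x) = ax S.x
    have hc' : σ a⁻¹ (ax S.x) = c⁻¹ • ax S.x := by
      have h1 := congrArg (σ a⁻¹) hc
      rw [map_smul, ← Module.End.mul_apply, ← map_mul, inv_mul_cancel, map_one,
        Module.End.one_apply] at h1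
      have hc0 : c ≠ 0 := by
        rintro rfl
        rw [zero_smul] at h1
        exact hax0 _ h1
      conv_rhs => rw [h1, smul_smul, inv_mul_cancel₀ hc0, one_smul]
    rw [map_mul, map_mul, Module.End.mul_apply, Module.End.mul_apply, hc', map_smul, hax, ← hc',
      ← Module.End.mul_apply, ← map_mul, mul_inv_cancel, map_one, Module.End.one_apply]
  obtain ⟨h1, h2, h3⟩ := card_sylow_eq hM S h5 hpord hindex hC hnorm hbound hnn
  refine ⟨h1, h2, h3, le_antisymm (fun g hg => hC g ?_) ?_⟩
  · exact (Subgroup.mem_centralizer_iff.1 hg S.x rfl).symm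
  · refine Subgroup.zpowers_le.2 (Subgroup.mem_centralizer_iff.2 fun y hy => ?_)
    rw [hy]

end Cfsg.Agent.H42.SmallFaithful
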