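import Mathlib
import Cfsg.Agent.H43.D1.SmallDegree
import Cfsg.Agent.S0633

/-!
# Groups generated by the elements of order `p` with a small faithful representation
-/

set_option autoImplicit false
set_option maxHeartbeats 800000
set_option linter.unusedSectionVars false

namespace Cfsg.Agent.H42.SmallFaithful

open Module IsLocalRing Cfsg.Agent.H43.D1
open scoped Pointwise

attribute [local instance] Fintype.ofFinite

variable {p : ℕ} [hp : Fact p.Prime] {G : Type*} [Group G] [Finite G]

theorem setup_dvd (S : Setup p G) : p ∣ Nat.card G := by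
  have := orderOf_dvd_natCard (G := G) S.x
  rwa [S.orderOf_x] at this

/-- Every element of order `p` is conjugate into `P`. -/
theorem exists_conj_mem (S : Setup p G) {y : G} (hy : orderOf y = p) :
    ∃ c : G, c * y * c⁻¹ ∈ S.P := by
  have hfac : (Nat.card G).factorization p = 1 := by
    refine le_antisymm ?_ (hp.out.factorization_pos_of_dvd Nat.card_pos.ne' (setup_dvd S))
    by_contra h
    exact S.not_sq ((hp.out.pow_dvd_iff_le_factorization Nat.card_pos.ne').2 (by omega))
  let PS : Sylow p G := Sylow.ofCard S.P (by rw [S.card_P, hfac, pow_one])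
  let Q : Sylow p G := Sylow.ofCard (Subgroup.zpowers y) (by rw [Nat.card_zpowers, hy, hfac, pow_one])
  obtain ⟨c, hc⟩ := MulAction.exists_smul_eq G Q PS
  refine ⟨c, ?_⟩
  show c * y * c⁻¹ ∈ (PS : Subgroup G)
  rw [← hc, Sylow.coe_subgroup_smul, Subgroup.mem_pointwise_smul_iff_inv_smul_mem]
  simpa [MulAut.smul_def, mul_assoc] using (show y ∈ (Q : Subgroup G) from Subgroup.mem_zpowers y)

/-- A normal subgroup with an element of order divisible by `p` contains `x`. -/
theorem x_mem_of_dvd (S : Setup p G) (H : Subgroup G) [H.Normal] (h : p ∣ Nat.card H) :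
    S.x ∈ H := by
  obtain ⟨y, hy⟩ := exists_prime_orderOf_dvd_card' p h
  rw [← Subgroup.orderOf_coe] at hy
  obtain ⟨c, hc⟩ := exists_conj_mem S hy
  have hgen : Subgroup.zpowers (c * y * c⁻¹) = S.P :=
    Subgroup.eq_of_le_of_card_ge (Subgroup.zpowers_le.2 hc) (by
      rw [S.card_P, Nat.card_zpowers, show orderOf (c * y * c⁻¹) = orderOf (y : G) from
        (MulAut.conj c).orderOf_eq _, hy])
  have hx : S.x ∈ Subgroup.zpowers (c * y * c⁻¹) := hgen.symm ▸ Subgroup.mem_zpowers S.x
  exact Subgroup.zpowers_le.2 (Subgroup.Normal.conj_mem inferInstance _ y.2 c) hx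

/-- A faithful complex representation gives a faithful modular one, provided every normal
subgroup containing `x` is the whole group. -/
theorem exists_faithful_reduction (S : Setup p G)
    (hgen : ∀ H : Subgroup G, H.Normal → S.x ∈ H → H = ⊤) (hP : ¬ S.P.Normal) {d : ℕ}
    (ρ : Representation ℂ G (Fin d → ℂ)) (hinj : Function.Injective ρ) :
    ∃ (k : Type) (_ : Field k) (_ : IsAlgClosed k) (_ : CharP k p)
      (σ : G →* Module.End k (Fin d → k)), Function.Injective σ := by
  classical
  obtain ⟨O, hO⟩ := H44.exists_valuationSubring_natCast_mem p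
  obtain ⟨R, X, hX⟩ := H31.Defect.exists_lattice O (H26.matHom ρ)
  have hAC := isAlgClosed_residueField O
  have hcp : CharP (ResidueField O) p := (CharP.charP_iff_prime_eq_zero hp.out).2 (by
    rw [← map_natCast (residue O), residue_eq_zero_iff]; exact hO)
  refine ⟨ResidueField O, inferInstance, hAC, hcp,
    Matrix.toLinAlgEquiv'.toMonoidHom.comp ((H31.Defect.red O (Fin d)).toMonoidHom.comp R), ?_⟩
  set σ := Matrix.toLinAlgEquiv'.toMonoidHom.comp ((H31.Defect.red O (Fin d)).toMonoidHom.comp R)
  have hreg : ∀ l : G, ¬ p ∣ orderOf l → σ l = 1 → l = 1 := by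
    intro l hl hσl
    have hred : H31.Defect.red O (Fin d) (R l) = 1 :=
      Matrix.toLinAlgEquiv'.injective (hσl.trans (map_one _).symm)
    have hR : R l = 1 := by
      set T := ∑ i ∈ Finset.range (orderOf l), R l ^ i with hT
      have hmul : T * (R l - 1) = 0 := by
        rw [hT, geom_sum_mul, ← map_pow, pow_orderOf_eq_one, map_one, sub_self]
      have hTu : IsUnit T := by
        rw [Matrix.isUnit_iff_isUnit_det]
        by_contra hnu
        have h0 : residue O T.det = 0 := (residue_eq_zero_iff _).2 ((mem_maximalIdeal _).2 hnu)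
        rw [RingHom.map_det] at h0
        change (H31.Defect.red O (Fin d) T).det = 0 at h0
        rw [hT, map_sum, Finset.sum_congr rfl fun i _ => by rw [map_pow, hred, one_pow],
          Finset.sum_const, Finset.card_range, ← Nat.cast_smul_eq_nsmul (ResidueField O),
          Matrix.det_smul, Matrix.det_one, mul_one] at h0
        exact hl ((CharP.cast_eq_zero_iff (ResidueField O) p _).1 (eq_zero_of_pow_eq_zero h0))
      exact sub_eq_zero.1 (hTu.mul_right_eq_zero.1 hmul)
    refine hinj ?_
    have h := hX l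
    rw [hR, map_one, mul_one] at h
    have : H26.matHom ρ l = 1 := by
      calc H26.matHom ρ l = H26.matHom ρ l * (X : Matrix _ _ ℂ) * (↑X⁻¹ : Matrix _ _ ℂ) := by
            rw [Units.mul_inv_cancel_right]
        _ = 1 := by rw [← h, Units.mul_inv]
    rw [map_one]
    exact (LinearMap.toMatrix' (R := ℂ) (m := Fin d) (n := Fin d)).injective
      (this.trans LinearMap.toMatrix'_id.symm)
  -- some element of order prime to `p` is nontrivial
  obtain ⟨l, hl, hl1⟩ : ∃ l : G, ¬ p ∣ orderOf l ∧ l ≠ 1 := by
    by_contra hc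
    push Not at hc
    refine hP ?_
    have hG : IsPGroup p G := by
      intro g
      obtain ⟨u, y, -, -, huy, ⟨a, ha⟩, hpy⟩ :=
        H86.exists_pPart_mul_pPrimePart g (isOfFinOrder_of_finite g) hp.out
      have hy1 : y = 1 := hc y fun h => hp.out.one_lt.ne' (Nat.Coprime.eq_one_of_dvd hpy.symm h)
      exact ⟨a, by rw [← huy, hy1, mul_one, ← ha, pow_orderOf_eq_one]⟩
    obtain ⟨j, hj⟩ := IsPGroup.iff_card.1 hG
    have hPtop : S.P = ⊤ := by
      refine Subgroup.eq_top_of_card_eq _ ?_
      rw [S.card_P, hj]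
      rcases Nat.lt_or_ge j 2 with h | h
      · interval_cases j
        · have := Nat.le_of_dvd Nat.card_pos (setup_dvd S)
          rw [hj, pow_zero] at this
          have := hp.out.two_le
          omega
        · rw [pow_one]
      · exact absurd ((pow_dvd_pow p h).trans (hj ▸ dvd_rfl)) S.not_sq
    rw [hPtop]; infer_instance
  refine (injective_iff_map_eq_one σ).2 fun g hg => ?_
  by_cases hgp : p ∣ orderOf g
  · exfalso
    have hx : S.x ∈ σ.ker := x_mem_of_dvd S σ.ker
      (hgp.trans ((Subgroup.orderOf_coe (⟨g, hg⟩ : σ.ker)) ▸ orderOf_dvd_natCard _))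
    exact hl1 (hreg l hl (MonoidHom.mem_ker.1 (hgen σ.ker inferInstance hx ▸ Subgroup.mem_top l)))
  · exact hreg g hgp hg

/-- A `p'`-subgroup normalized by `x` is centralized by it. -/
theorem commute_of_normalized (S : Setup p G) {k : Type} [Field k] [CharP k p] {d : ℕ}
    (hd : d + 1 < p) (σ : G →* Module.End k (Fin d → k)) (hinj : Function.Injective σ)
    (K : Subgroup G) (hKp : ¬ p ∣ Nat.card K) (hK : S.x ∈ Subgroup.normalizer (K : Set G))
    {g : G} (hg : g ∈ K) : Commute g S.x := by
  classical
  set H : Subgroup G := K ⊔ S.P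
  have hPn : S.P ≤ Subgroup.normalizer (K : Set G) := Subgroup.zpowers_le.2 hK
  have hKH : (K.subgroupOf H).Normal :=
    Subgroup.normal_subgroupOf_of_le_normalizer (sup_le Subgroup.le_normalizer hPn)
  have hdisj : K ⊓ S.P = ⊥ := Subgroup.inf_eq_bot_of_coprime
    (by rw [S.card_P]; exact (hp.out.coprime_iff_not_dvd.2 hKp).symm)
  have hcardH : Nat.card H = Nat.card K * p := by
    rw [show Nat.card H = Nat.card ((K : Set G) * (S.P : Set G) : Set G) from by
      rw [← Subgroup.coe_mul_of_right_le_normalizer_left K S.P hPn]; rfl]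
    refine Eq.trans ?_ ((Nat.card_prod K S.P).trans (by rw [S.card_P]))
    refine (Nat.card_eq_of_bijective (fun q : K × S.P =>
      (⟨q.1 * q.2, Set.mul_mem_mul q.1.2 q.2.2⟩ : ((K : Set G) * (S.P : Set G) : Set G))) ⟨?_, ?_⟩).symm
    · rintro ⟨a, u⟩ ⟨a', u'⟩ h
      have := Subgroup.mul_injective_of_disjoint (disjoint_iff.2 hdisj) (a₁ := (a, u)) (a₂ := (a', u'))
        (congrArg Subtype.val h)
      exact this
    · rintro ⟨_, a, ha, u, hu, rfl⟩
      exact ⟨(⟨a, ha⟩, ⟨u, hu⟩), rfl⟩
  have hindex : (K.subgroupOf H).index = p := by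
    have h1 := (K.subgroupOf H).card_mul_index
    rw [Nat.card_congr (Subgroup.subgroupOfEquivOfLe (le_sup_left : K ≤ H)).toEquiv, hcardH] at h1
    exact Nat.eq_of_mul_eq_mul_left Nat.card_pos h1
  have hPH : S.P ≤ H := le_sup_right
  by_cases hn : (S.P.subgroupOf H).Normal
  · have hgx : g * S.x * g⁻¹ * S.x⁻¹ ∈ K ⊓ S.P := by
      refine Subgroup.mem_inf.2 ⟨?_, ?_⟩
      · rw [show g * S.x * g⁻¹ * S.x⁻¹ = g * (S.x * g⁻¹ * S.x⁻¹) by group]
        exact K.mul_mem hg ((Subgroup.mem_normalizer_iff.1 hK _).1 (K.inv_mem hg))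
      · refine S.P.mul_mem ?_ (S.P.inv_mem (Subgroup.mem_zpowers _))
        exact hn.conj_mem ⟨S.x, hPH (Subgroup.mem_zpowers _)⟩ (Subgroup.mem_zpowers S.x)
          ⟨g, (le_sup_left : K ≤ H) hg⟩
    rw [hdisj, Subgroup.mem_bot, mul_inv_eq_one, mul_inv_eq_iff_eq_mul] at hgx
    exact hgx
  exfalso
  -- apply Theorem B to the image of `H`
  let τ : G →* ((Fin d → k) ≃ₗ[k] (Fin d → k)) :=
    (LinearMap.GeneralLinearGroup.generalLinearEquiv k _).toMonoidHom.comp σ.toHomUnits
  have hτ : ∀ a, ((τ a : (Fin d → k) ≃ₗ[k] (Fin d → k)) : Module.End k (Fin d → k)) = σ a := fun a => rfl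
  have hτinj : Function.Injective τ := fun a b h => hinj (by rw [← hτ, h, hτ])
  let f : H ≃* (H.map τ) := Subgroup.equivMapOfInjective H τ hτinj
  haveI : Finite (H.map τ) := Finite.of_equiv _ f.toEquiv
  have hsol : Cfsg.IsPSolvable p (H.map τ) := by
    set K' : Subgroup (H.map τ) := (K.subgroupOf H).map f.toMonoidHom
    have : K'.Normal := hKH.map _ f.surjective
    refine ⟨2, ![⊥, K', ⊤], rfl, rfl, ?_, ?_, ?_⟩
    · refine Fin.monotone_iff_le_succ.2 fun i => ?_
      fin_cases i <;> simp
    · intro i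
      fin_cases i
      · exact (inferInstance : (⊥ : Subgroup (H.map τ)).Normal)
      · exact this
      · exact (inferInstance : (⊤ : Subgroup (H.map τ)).Normal)
    · intro i
      fin_cases i
      · right
        show ((⊥ : Subgroup (H.map τ)).relIndex K').Coprime p
        rw [Subgroup.relIndex_bot_left, Subgroup.card_map_of_injective f.injective,
          Nat.card_congr (Subgroup.subgroupOfEquivOfLe (le_sup_left : K ≤ H)).toEquiv]
        exact (hp.out.coprime_iff_not_dvd.2 hKp).symm
      · left
        refine ⟨1, ?_⟩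
        show K'.relIndex ⊤ = p ^ 1
        rw [Subgroup.relIndex_top_right, pow_one, ← hindex]
        exact Subgroup.index_map_of_bijective f.bijective _
  have hOp : Cfsg.pCore p (H.map τ) = ⊥ := by
    rw [Cfsg.pCore, sSup_eq_bot]
    rintro N ⟨hN, hNp⟩
    by_contra hne
    obtain ⟨j, hj⟩ := IsPGroup.iff_card.1 hNp
    set N' : Subgroup G := (N.comap f.toMonoidHom).map H.subtype
    have hcardN' : Nat.card N' = p ^ j := by
      rw [Subgroup.card_map_of_injective Subtype.val_injective, ← hj]
      exact Nat.card_congr (f.toEquiv.subtypeEquiv fun u => Iff.rfl)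
    have hdvdH : p ^ j ∣ Nat.card K * p := by
      rw [← hcardH, ← hcardN']
      exact Subgroup.card_dvd_of_le (Subgroup.map_subtype_le _)
    have hj1 : j = 1 := by
      rcases Nat.lt_or_ge j 2 with h | h
      · interval_cases j
        · exact absurd (Subgroup.card_eq_one.1 (by rw [hj, pow_zero])) hne
        · rfl
      · exfalso
        exact S.not_sq ((pow_dvd_pow p h).trans (hdvdH.trans (hcardH ▸ H.card_subgroup_dvd_card)))
    rw [hj1, pow_one] at hcardN'
    refine hn ?_
    have hNn : (N.comap f.toMonoidHom).Normal := hN.comap _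
    have heq : S.P.subgroupOf H = N.comap f.toMonoidHom := by
      refine Subgroup.eq_of_le_of_card_ge ?_ ?_
      · intro u hu
        have hsq : ¬ p ^ 2 ∣ Nat.card H := fun h => S.not_sq (h.trans H.card_subgroup_dvd_card)
        refine mem_of_normal_card hsq _ ?_ (Subtype.ext ?_)
        · rw [← hcardN', Subgroup.card_map_of_injective Subtype.val_injective]
        · obtain ⟨i, hi⟩ := Subgroup.mem_zpowers_iff.1 hu
          rw [Subgroup.coe_pow, Subgroup.coe_one, show (u : G) = S.x ^ i from hi.symm,
            ← zpow_natCast (S.x ^ i), ← zpow_mul,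
            mul_comm, zpow_mul, zpow_natCast, S.x_pow_p, one_zpow]
      · rw [Nat.card_congr (Subgroup.subgroupOfEquivOfLe hPH).toEquiv, S.card_P, ← hcardN',
          Subgroup.card_map_of_injective Subtype.val_injective]
    rwa [heq]
  have hxH : τ S.x ∈ H.map τ := ⟨S.x, hPH (Subgroup.mem_zpowers _), rfl⟩
  have hnt : Nontrivial (Fin d → k) := by
    by_contra h
    rw [not_nontrivial_iff_subsingleton] at h
    exact S.x_ne_one (hinj (LinearMap.ext fun _ => Subsingleton.elim _ _))
  have hord : orderOf (τ S.x) = p ^ 1 := by rw [orderOf_injective τ hτinj, S.orderOf_x, pow_one]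
  set A := σ S.x
  have hA : (A - 1) ^ p = 0 := by
    rw [← Nat.sub_add_cancel hp.out.one_lt.le, pow_succ,
      ← geom_sum_eq_sub_one_pow (k := k) (p := p), geom_sum_mul, ← map_pow, S.x_pow_p, map_one,
      sub_self]
  have hdvd : minpoly k A ∣ (Polynomial.X - Polynomial.C 1) ^ p :=
    minpoly.dvd k A (by simp [hA])
  obtain ⟨r, -, hr⟩ := (dvd_prime_pow (Polynomial.prime_X_sub_C (1 : k)) p).1 hdvd
  have hr' : minpoly k A = (Polynomial.X - 1) ^ r := by
    rw [← Polynomial.C_1]
    exact Polynomial.eq_of_monic_of_associated (minpoly.monic (Algebra.IsIntegral.isIntegral A))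
      ((Polynomial.monic_X_sub_C 1).pow r) hr
  have hrd : r ≤ d := by
    have h1 := Polynomial.natDegree_le_of_dvd (LinearMap.minpoly_dvd_charpoly A)
      A.charpoly_monic.ne_zero
    rw [hr', LinearMap.charpoly_natDegree, Module.finrank_fin_fun, Polynomial.natDegree_pow,
      ← Polynomial.C_1, Polynomial.natDegree_X_sub_C, mul_one] at h1
    exact h1
  rcases Cfsg.Agent.S0633.result (F := k) (p := p) (H.map τ) hsol hOp (τ S.x) hxH 1 hord r
    (by rw [hτ]; exact hr') with h | ⟨n₀, q, m, h1, h2, -, -, -, -, h5⟩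
  · rw [pow_one] at h; omega
  · obtain rfl : n₀ = 1 := by omega
    rw [Nat.sub_self, pow_zero, one_mul, pow_one] at h5
    omega

/-- The group is perfect and its proper normal subgroups are central. -/
theorem perfect_and_central (S : Setup p G)
    (hgen : ∀ H : Subgroup G, H.Normal → S.x ∈ H → H = ⊤) (hP : ¬ S.P.Normal) {k : Type} [Field k]
    [CharP k p] {d : ℕ} (hd : d + 1 < p) (σ : G →* Module.End k (Fin d → k))
    (hinj : Function.Injective σ) :
    commutator G = ⊤ ∧ ∀ H : Subgroup G, H.Normal → S.x ∉ H → H ≤ Subgroup.center G := by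
  have hcent : ∀ H : Subgroup G, H.Normal → S.x ∉ H → H ≤ Subgroup.center G := by
    intro H hH hx h hh
    have hp' : ¬ p ∣ Nat.card H := fun hd' => hx (x_mem_of_dvd S H hd')
    have hN : S.x ∈ Subgroup.normalizer (H : Set G) := by
      rw [Subgroup.normalizer_eq_top]; exact Subgroup.mem_top _
    have hC := hgen (Subgroup.centralizer (H : Set G)) inferInstance
      (Subgroup.mem_centralizer_iff.2 fun a ha =>
        (commute_of_normalized S hd σ hinj H hp' hN ha).eq)
    rw [Subgroup.mem_center_iff]
    intro g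
    exact (Subgroup.mem_centralizer_iff.1 (hC ▸ Subgroup.mem_top g) h hh).symm
  refine ⟨?_, hcent⟩
  by_contra hne
  have hxK : S.x ∉ commutator G := fun h => hne (hgen _ inferInstance h)
  have hK := hcent _ inferInstance hxK
  have hsup : S.P ⊔ commutator G = ⊤ :=
    hgen _ (Subgroup.Normal.of_commutator_le G le_sup_right)
      (Subgroup.mem_sup_left (Subgroup.mem_zpowers _))
  -- `x` commutes with everything
  have hxc : ∀ g : G, Commute g S.x := by
    intro g
    have hle : S.P ⊔ commutator G ≤ Subgroup.centralizer ({S.x} : Set G) := by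
      refine sup_le (Subgroup.zpowers_le.2 ?_) fun c hc => ?_
      · rw [Subgroup.mem_centralizer_singleton_iff]
      · rw [Subgroup.mem_centralizer_singleton_iff]
        exact (Subgroup.mem_center_iff.1 (hK hc) _).symm
    exact Subgroup.mem_centralizer_singleton_iff.1 (hle (hsup ▸ Subgroup.mem_top g))
  refine hP ⟨fun u hu g => ?_⟩
  obtain ⟨i, rfl⟩ := Subgroup.mem_zpowers_iff.1 hu
  rw [((hxc g).zpow_right i).eq, mul_inv_cancel_right]
  exact hu

end Cfsg.Agent.H42.SmallFaithful
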