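import Mathlib
import Cfsg.Agent.H42.SmallFaithful.Reduce
import Cfsg.Agent.H42.SmallFaithful.Complex
import Cfsg.Agent.H42.SmallFaithful.Adjoint
import Cfsg.Agent.H42.SmallFaithful.Conic
import Cfsg.Agent.H31.PSLRingEquiv
import Cfsg.Agent.H93.G2Centralizer
import Cfsg.Agent.S0996
import Cfsg.Agent.S0252
import Cfsg.Agent.S0253

/-!
# The group generated by the elements of order `p` modulo its centre
-/

set_option autoImplicit false
set_option maxHeartbeats 1000000
set_option linter.unusedSectionVars false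

namespace Cfsg.Agent.H42.SmallFaithful

open Module Cfsg.Agent.H43.D1

attribute [local instance] Fintype.ofFinite

variable {p : ℕ} [hp : Fact p.Prime] {G : Type*} [Group G] [Finite G]

/-- An irreducible factor on which `x` is nontrivial. -/
theorem exists_irred {k : Type} [Field k] (S : Setup p G)
    (hgen : ∀ H : Subgroup G, H.Normal → S.x ∈ H → H = ⊤) (hperf : commutator G = ⊤) :
    ∀ (n : ℕ) (W : Type) [AddCommGroup W] [Module k W] [FiniteDimensional k W]
      (ρ : G →* Module.End k W), finrank k W = n → ρ S.x ≠ 1 →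
      ∃ (U : Type) (_ : AddCommGroup U) (_ : Module k U) (_ : FiniteDimensional k U)
        (τ : G →* Module.End k U), IsIrred τ ∧ finrank k U ≤ n ∧ τ S.x ≠ 1 := by
  intro n
  induction n using Nat.strong_induction_on with
  | _ n ih =>
  intro W _ _ _ ρ hn hx
  by_cases hirr : IsIrred ρ
  · exact ⟨W, inferInstance, inferInstance, inferInstance, ρ, hirr, hn.le, hx⟩
  have hWn : Nontrivial W := by
    by_contra h
    rw [not_nontrivial_iff_subsingleton] at h
    exact hx (LinearMap.ext fun z => Subsingleton.elim _ _)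
  obtain ⟨U, hU, hU0, hU1⟩ : ∃ U : Submodule k W, (∀ g, ∀ z ∈ U, ρ g z ∈ U) ∧ U ≠ ⊥ ∧ U ≠ ⊤ := by
    by_contra hc
    refine hirr ⟨hWn, fun U hU => ?_⟩
    by_contra h
    rw [not_or] at h
    exact hc ⟨U, hU, h.1, h.2⟩
  set σ₁ := restrictRep ρ U hU
  let σ₂ : G →* Module.End k (W ⧸ U) :=
    { toFun := fun a => U.mapQ U (ρ a) (hU a)
      map_one' := Submodule.linearMap_qext _ (LinearMap.ext fun z => by simp)
      map_mul' := fun a b => Submodule.linearMap_qext _ (LinearMap.ext fun z => by simp) }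
  by_cases h1 : σ₁ S.x = 1
  swap
  · have hlt : finrank k U < n := hn ▸ Submodule.finrank_lt hU1
    obtain ⟨Z, i1, i2, i3, τ, h1', h2', h3'⟩ := ih _ hlt U σ₁ rfl h1
    exact ⟨Z, i1, i2, i3, τ, h1', by omega, h3'⟩
  by_cases h2 : σ₂ S.x = 1
  swap
  · have hlt : finrank k (W ⧸ U) < n := by
      have := U.finrank_quotient_add_finrank
      have : 0 < finrank k U := Nat.pos_of_ne_zero fun h => hU0 (Submodule.finrank_eq_zero.1 h)
      omega
    obtain ⟨Z, i1, i2, i3, τ, h1', h2', h3'⟩ := ih _ hlt (W ⧸ U) σ₂ rfl h2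
    exact ⟨Z, i1, i2, i3, τ, h1', by omega, h3'⟩
  exfalso
  have hs1 : σ₁.ker = ⊤ := hgen _ inferInstance h1
  have hs2 : σ₂.ker = ⊤ := hgen _ inferInstance h2
  have hU' : ∀ a, ∀ z ∈ U, ρ a z = z := fun a z hz =>
    congrArg Subtype.val (LinearMap.congr_fun
      (MonoidHom.mem_ker.1 (hs1 ▸ Subgroup.mem_top a : a ∈ σ₁.ker)) ⟨z, hz⟩)
  have hQ : ∀ a z, ρ a z - z ∈ U := fun a z =>
    (Submodule.Quotient.eq U).1 (LinearMap.congr_fun
      (MonoidHom.mem_ker.1 (hs2 ▸ Subgroup.mem_top a : a ∈ σ₂.ker)) (Submodule.Quotient.mk z))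
  have hle : commutator G ≤ ρ.ker := by
    rw [commutator_def, Subgroup.commutator_le]
    intro a _ b _
    have hcomm : ρ (a * b) = ρ (b * a) := by
      refine LinearMap.ext fun z => ?_
      rw [map_mul, map_mul, Module.End.mul_apply, Module.End.mul_apply]
      have e1 : ρ a (ρ b z) = ρ b z - z + ρ a z := by
        conv_lhs => rw [show ρ b z = (ρ b z - z) + z by abel]
        rw [map_add, hU' a _ (hQ b z)]
      have e2 : ρ b (ρ a z) = ρ a z - z + ρ b z := by
        conv_lhs => rw [show ρ a z = (ρ a z - z) + z by abel]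
        rw [map_add, hU' b _ (hQ a z)]
      rw [e1, e2]; abel
    rw [MonoidHom.mem_ker, commutatorElement_def, map_mul, map_mul, hcomm, ← map_mul, ← map_mul]
    simp [mul_assoc]
  exact hx (MonoidHom.mem_ker.1 (hle (hperf ▸ Subgroup.mem_top S.x)))

/-- In characteristic two `PSL₂` has the order of `SL₂`. -/
theorem card_psl_two {F : Type} [Field F] [Fintype F] (h2 : (2 : F) = 0) :
    Nat.card (Matrix.ProjectiveSpecialLinearGroup (Fin 2) F) =
      Fintype.card F * (Fintype.card F ^ 2 - 1) := by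
  have hbot : Subgroup.center (Matrix.SpecialLinearGroup (Fin 2) F) = ⊥ := by
    rw [eq_bot_iff]
    intro A hA
    obtain ⟨r, hr, hA'⟩ := Matrix.SpecialLinearGroup.mem_center_iff.1 hA
    rw [Subgroup.mem_bot]
    have hr1 : r = 1 := by
      rw [Fintype.card_fin] at hr
      have h0 : (r - 1) * (r - 1) = 0 := by linear_combination hr - (r - 1) * h2
      exact sub_eq_zero.1 (mul_self_eq_zero.1 h0)
    rw [hr1] at hA'
    refine Subtype.ext ?_
    rw [← hA']
    simp
  rw [← Cfsg.Agent.H93.G2Inv.card_sl_mul (F := F)]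
  exact Nat.card_congr (((QuotientGroup.quotientMulEquivOfEq hbot).trans QuotientGroup.quotientBot).toEquiv)

/-- A group with `p + 1` Sylow subgroups and self-centralizing `P` of the right order is
`PSL(2, p)`. -/
theorem psl_of_count {Q : Type*} [Group Q] [Finite Q] (hperf : commutator Q = ⊤) (S : Setup p Q)
    (h5 : 5 ≤ p) (hn : Nat.card (Sylow p Q) = p + 1) (he : 2 * Nat.card S.L + 1 = p)
    (hN : Nat.card Q = Nat.card (Sylow p Q) * (Nat.card S.L * p))
    (hC : Subgroup.centralizer ({S.x} : Set Q) = S.P) :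
    Nonempty (Q ≃* Matrix.ProjectiveSpecialLinearGroup (Fin 2) (ZMod p)) := by
  have hlt : 2 * Nat.card (Sylow p Q) < (p + 1) * (p + 2) := by
    rw [hn]; nlinarith
  rcases Cfsg.Agent.S0996.result hperf p S.x S.orderOf_x hC hlt with
    ⟨F, iF, iFt, hF, -, ⟨f⟩⟩ | ⟨m, F, iF, iFt, hF, hpm, -, ⟨f⟩⟩
  · obtain ⟨r⟩ := H31.nonempty_psl_ringEquiv
      (FiniteField.ringEquivOfCardEq (hF.trans (ZMod.card p).symm)) (Fin 2)
    exact ⟨f.trans r⟩
  have h2 : (2 : F) = 0 := by
    have h1 : ((2 ^ m : ℕ) : F) = 0 := by rw [← hF]; exact Nat.cast_card_eq_zero F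
    rw [Nat.cast_pow] at h1
    exact_mod_cast eq_zero_of_pow_eq_zero h1
  have hcard := (Nat.card_congr f.toEquiv).trans (card_psl_two h2)
  rw [hN, hn, hF] at hcard
  set e := Nat.card S.L
  set q := 2 ^ m
  have hq : q = 2 * e := by omega
  have hp5 : p = 5 := by
    subst hpm
    rw [hq] at hcard
    have h4 : (2 * e + 1 + 1) * (e * (2 * e + 1)) = 2 * e * ((2 * e) ^ 2 - 1) := hcard
    have h6 : (2 * e) ^ 2 - 1 = (2 * e + 1) * (2 * e - 1) := by
      obtain ⟨j, hj⟩ : ∃ j, 2 * e = j + 1 := ⟨2 * e - 1, by omega⟩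
      rw [hj, Nat.add_sub_cancel]
      refine Nat.sub_eq_of_eq_add ?_
      ring
    rw [h6] at h4
    have h7 : (2 * e + 1) * e * (2 * e + 2) = (2 * e + 1) * e * (2 * (2 * e - 1)) := by
      calc _ = (2 * e + 1 + 1) * (e * (2 * e + 1)) := by ring
        _ = _ := h4
        _ = _ := by ring
    have := Nat.eq_of_mul_eq_mul_left (Nat.mul_pos (by omega) (by omega)) h7
    omega
  subst hp5
  have hF4 : Fintype.card F = 4 := by omega
  obtain ⟨a⟩ := Cfsg.Agent.S0252.result hF4
  obtain ⟨b⟩ := Cfsg.Agent.S0253.result (F := ZMod 5) (ZMod.card 5)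
  exact ⟨(f.trans a).trans b.symm⟩

/-- The group generated by the elements of order `p`. -/
theorem core (S : Setup p G) (hgen : ∀ H : Subgroup G, H.Normal → S.x ∈ H → H = ⊤)
    (hP : ¬ S.P.Normal) {d : ℕ} (ρ : Representation ℂ G (Fin d → ℂ))
    (hinj : Function.Injective ρ) (hd : 2 * d + 1 = p) :
    commutator G = ⊤ ∧ (∀ H : Subgroup G, H.Normal → S.x ∉ H → H ≤ Subgroup.center G) ∧
      Nat.card (Sylow p G) = p + 1 ∧ Nat.card S.act.range = d ∧
      Nonempty ((G ⧸ Subgroup.center G) ≃* Matrix.ProjectiveSpecialLinearGroup (Fin 2) (ZMod p)) := by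
  classical
  have hd2 : 2 ≤ d := by
    by_contra hlt
    refine hP ⟨fun u hu g => ?_⟩
    have hcomm : g * u = u * g := by
      have : Subsingleton (Fin d) := ⟨fun a b => Fin.ext (by omega)⟩
      refine hinj ?_
      rw [map_mul, map_mul]
      refine (LinearMap.toMatrix' (R := ℂ)).injective ?_
      rw [LinearMap.toMatrix'_mul, LinearMap.toMatrix'_mul]
      ext i j
      obtain rfl : i = j := Subsingleton.elim _ _
      rw [Matrix.mul_apply, Matrix.mul_apply]
      refine Finset.sum_congr rfl fun l _ => ?_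
      obtain rfl : i = l := Subsingleton.elim _ _
      ring
    rw [hcomm, mul_inv_cancel_right]
    exact hu
  obtain ⟨k, _, _, _, σ, hσ⟩ := exists_faithful_reduction S hgen hP ρ hinj
  obtain ⟨hperf, hcent⟩ := perfect_and_central S hgen hP (d := d) (by omega) σ hσ
  obtain ⟨U, _, _, _, τ, hirr, hUd, hτx⟩ := exists_irred S hgen hperf d (Fin d → k) σ
    (by rw [finrank_fin_fun]) (fun h => S.x_ne_one (hσ (by rw [h, map_one])))
  have hUp : 2 * finrank k U ≤ p := by omega
  have hscal : ∀ v : S.V, ∃ c : k, τ ((v : S.L) : G) = c • 1 := fun v =>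
    scalar_of_mem S τ hirr hUp hgen S.V (fun w hw => S.commute_of_mem_V hw) v
  obtain ⟨Y, hYinv, hYdim, hYnd, y₀, hy₀, hy₀2⟩ := exists_three S τ hirr hUp hτx hscal
  set σ₃ : G →* Module.End k Y := restrictRep (adjRep τ) Y hYinv with hσ₃
  have hσ₃a : ∀ g (y : Y), ((σ₃ g y : Y) : Module.End k U) = adjRep τ g y := fun g y => rfl
  set K := σ₃.ker with hK
  have hxK : S.x ∉ K := by
    intro h
    refine hy₀2 ?_
    have h1 := congrArg Subtype.val (LinearMap.congr_fun (MonoidHom.mem_ker.1 h) ⟨y₀, hy₀⟩)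
    rw [hσ₃a] at h1
    have h2 : delta (adjRep τ) S.x y₀ = 0 := by
      rw [delta, LinearMap.sub_apply, Module.End.one_apply]
      exact sub_eq_zero.2 h1
    rw [sq, Module.End.mul_apply, h2, map_zero]
  have hKc : K ≤ Subgroup.center G := hcent K inferInstance hxK
  set π := QuotientGroup.mk' K with hπ
  have hπs : Function.Surjective π := QuotientGroup.mk'_surjective K
  have hxo : orderOf (π S.x) = p := by
    refine orderOf_eq_prime (by rw [← map_pow, S.x_pow_p, map_one]) fun h => hxK ?_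
    exact (QuotientGroup.eq_one_iff _).1 h
  -- the setup of the quotient
  have hexists : ∀ g : G, π g * π S.x * (π g)⁻¹ ∈ Subgroup.zpowers (π S.x) →
      g * S.x * g⁻¹ ∈ S.P := by
    intro g hg
    obtain ⟨i, hi⟩ := Subgroup.mem_zpowers_iff.1 hg
    rw [← map_zpow, ← map_inv, ← map_mul, ← map_mul] at hi
    have hz : (S.x ^ i)⁻¹ * (g * S.x * g⁻¹) ∈ K := QuotientGroup.eq.1 hi
    set z := (S.x ^ i)⁻¹ * (g * S.x * g⁻¹) with hz'
    have hzc : ∀ a, Commute z a := fun a => (Subgroup.mem_center_iff.1 (hKc hz) a).symm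
    have hzp : z ^ p = 1 := by
      have h1 : (g * S.x * g⁻¹) ^ p = 1 := by
        rw [conj_pow, S.x_pow_p, mul_one, mul_inv_cancel]
      rw [show g * S.x * g⁻¹ = S.x ^ i * z by rw [hz']; group, ((hzc _).symm).mul_pow,
        ← zpow_natCast (S.x ^ i), ← zpow_mul, mul_comm, zpow_mul, zpow_natCast, S.x_pow_p, one_zpow,
        one_mul] at h1
      exact h1
    have hz1 : z = 1 := by
      by_contra hne
      have hK' : p ∣ Nat.card K := by
        have h := orderOf_dvd_natCard (⟨z, hz⟩ : K)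
        rwa [← Subgroup.orderOf_coe, orderOf_eq_prime hzp hne] at h
      exact hxK (x_mem_of_dvd S K hK')
    have heq : g * S.x * g⁻¹ = S.x ^ i := by
      have := eq_of_inv_mul_eq_one (hz'.symm.trans hz1)
      exact this.symm
    rw [heq]
    exact Subgroup.zpow_mem _ (Subgroup.mem_zpowers _) i
  let T : Setup p (G ⧸ K) :=
    { x := π S.x
      L := S.L.map π
      orderOf_x := hxo
      not_sq := fun h => S.not_sq (h.trans K.card_quotient_dvd_card)
      le_norm := by
        rintro _ ⟨l, hl, rfl⟩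
        obtain ⟨i, hi⟩ := Subgroup.mem_zpowers_iff.1 (S.le_norm l hl)
        refine Subgroup.mem_zpowers_iff.2 ⟨i, ?_⟩
        rw [← map_zpow, hi, map_mul, map_mul, map_inv]
      not_dvd := fun h => S.not_dvd (h.trans (Subgroup.card_map_dvd _ _))
      exists_mul := fun q hq => by
        obtain ⟨g, rfl⟩ := hπs q
        obtain ⟨l, hl, u, hu, rfl⟩ := S.exists_mul g (hexists g hq)
        refine ⟨π l, ⟨l, hl, rfl⟩, π u, ?_, map_mul _ _ _⟩
        obtain ⟨i, rfl⟩ := Subgroup.mem_zpowers_iff.1 hu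
        rw [map_zpow]
        exact Subgroup.zpow_mem _ (Subgroup.mem_zpowers _) i }
  have hTx : T.x = π S.x := rfl
  have hQperf : commutator (G ⧸ K) = ⊤ := by
    rw [commutator_def, ← Subgroup.map_top_of_surjective π hπs, ← Subgroup.map_commutator,
      ← commutator_def, hperf]
  have hTP : ¬ T.P.Normal := by
    intro hn
    have htop := hgen (T.P.comap π) (hn.comap _) (Subgroup.mem_zpowers _)
    have hall : ∀ q : G ⧸ K, q ∈ T.P := fun q => by
      obtain ⟨g, rfl⟩ := hπs q
      exact Subgroup.mem_comap.1 (htop ▸ Subgroup.mem_top g)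
    have hbot : commutator (G ⧸ K) = ⊥ := by
      rw [commutator_def, Subgroup.commutator_eq_bot_iff_le_centralizer]
      intro a _
      rw [Subgroup.mem_centralizer_iff]
      intro b _
      obtain ⟨i, rfl⟩ := Subgroup.mem_zpowers_iff.1 (hall a)
      obtain ⟨j, rfl⟩ := Subgroup.mem_zpowers_iff.1 (hall b)
      exact (Commute.zpow_zpow_self T.x j i).eq
    have h1 : T.x ∈ (⊤ : Subgroup (G ⧸ K)) := Subgroup.mem_top _
    rw [← hQperf, hbot, Subgroup.mem_bot] at h1
    exact T.x_ne_one h1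
  -- the automizer bound
  have hrange : Nat.card S.act.range ≤ d := by
    have := act_card_le S (ρ : G →* Module.End ℂ (Fin d → ℂ))
      (fun h => S.x_ne_one (hinj (by rw [h, map_one])))
    rwa [finrank_fin_fun] at this
  have hTL : Nat.card T.L ≤ Nat.card S.act.range := by
    have hV : ∀ v : S.V, ((v : S.L) : G) ∈ K := by
      intro v
      obtain ⟨c, hc⟩ := hscal v
      refine MonoidHom.mem_ker.2 (LinearMap.ext fun y => Subtype.ext ?_)
      rw [hσ₃a, adjRep_apply, Module.End.one_apply, hc, smul_mul_assoc, one_mul, smul_mul_assoc,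
        show c • ((y : Module.End k U) * τ ((v : S.L) : G)⁻¹) =
          (y : Module.End k U) * (τ ((v : S.L) : G) * τ ((v : S.L) : G)⁻¹) by
            rw [hc, smul_mul_assoc, one_mul, mul_smul_comm],
        ← map_mul, mul_inv_cancel, map_one, mul_one]
    let f : S.L →* T.L := (π.comp S.L.subtype).codRestrict T.L fun l => ⟨l, l.2, rfl⟩
    have hf : Function.Surjective f := by
      rintro ⟨_, l, hl, rfl⟩
      exact ⟨⟨l, hl⟩, rfl⟩
    have hker : S.V ≤ f.ker := fun v hv => MonoidHom.mem_ker.2 (Subtype.ext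
      ((QuotientGroup.eq_one_iff _).2 (hV ⟨v, hv⟩)))
    have h1 := Nat.card_le_card_of_surjective _
      (QuotientGroup.lift_surjective_of_surjective S.V f hf hker)
    rwa [Nat.card_congr (QuotientGroup.quotientKerEquivRange S.act).toEquiv] at h1
  -- the geometry
  set σQ : G ⧸ K →* Module.End k Y := QuotientGroup.lift σ₃.ker σ₃ le_rfl with hσQ
  have hσQπ : ∀ g, σQ (π g) = σ₃ g := fun g => rfl
  set B : Y →ₗ[k] Y →ₗ[k] k :=
    ((LinearMap.mul k (Module.End k U)).compr₂ (LinearMap.trace k U)).compl₁₂ Y.subtype Y.subtype with hB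
  have h5 : 5 ≤ p := by omega
  have h2k : (2 : k) ≠ 0 := fun h2 => by
    have := Nat.le_of_dvd (by omega) ((CharP.cast_eq_zero_iff k p 2).1 (by exact_mod_cast h2))
    omega
  have hquad : IsQuad B := ⟨h2k, hYdim, fun v w => LinearMap.trace_mul_comm k _ _,
    fun v hv => Subtype.ext (hYnd v v.2 fun z hz => hv ⟨z, hz⟩)⟩
  have hinv : ∀ q v w, B (σQ q v) (σQ q w) = B v w := by
    intro q v w
    obtain ⟨g, rfl⟩ := hπs q
    exact trace_adjRep τ g v w
  have hx2 : (σQ T.x - 1) ^ 2 ≠ 0 := by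
    intro h
    refine hy₀2 ?_
    have h1 := congrArg Subtype.val (LinearMap.congr_fun h ⟨y₀, hy₀⟩)
    rw [sq, Module.End.mul_apply] at h1
    rw [sq, Module.End.mul_apply]
    simpa [delta, hTx, hσQπ, hσ₃a] using h1
  obtain ⟨h1, h2, h3, h4⟩ := rotation_group σQ (lift_ker_injective σ₃) B hquad hinv hQperf T h5 hx2
    (by omega) hTP
  obtain ⟨φ⟩ := psl_of_count hQperf T h5 h1 h2 h3 h4
  have hcardR : Nat.card S.act.range = d := by omega
  -- the centre
  have hZ : Subgroup.center G = K := by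
    refine le_antisymm (fun z hz => ?_) hKc
    have hzc : π z ∈ Subgroup.center (G ⧸ K) := by
      rw [Subgroup.mem_center_iff]
      intro q
      obtain ⟨g, rfl⟩ := hπs q
      rw [← map_mul, ← map_mul, Subgroup.mem_center_iff.1 hz g]
    have hle : Subgroup.center (G ⧸ K) ≤ T.P := h4 ▸ Subgroup.center_le_centralizer _
    refine (QuotientGroup.eq_one_iff z).1 ?_
    have : Fact (Nat.card T.P).Prime := ⟨T.card_P.symm ▸ hp.out⟩
    rcases Subgroup.eq_bot_or_eq_top_of_prime_card ((Subgroup.center (G ⧸ K)).subgroupOf T.P)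
      with h | h
    · have h6 : (⟨π z, hle hzc⟩ : T.P) ∈ (⊥ : Subgroup T.P) := by
        rw [← h]; exact hzc
      exact congrArg Subtype.val (Subgroup.mem_bot.1 h6)
    · exfalso
      refine hTP ?_
      have : T.P = Subgroup.center (G ⧸ K) := le_antisymm (fun u hu => by
        have h6 : (⟨u, hu⟩ : T.P) ∈ (Subgroup.center (G ⧸ K)).subgroupOf T.P := by
          rw [h]; exact Subgroup.mem_top _
        exact h6) hle
      rw [this]; infer_instance
  -- the Sylow count
  have hsyl : Nat.card (Sylow p G) = p + 1 := by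
    have hfac : ∀ {X : Type _} [Group X] [Finite X] (R : Setup p X),
        ∃ PS : Sylow p X, (PS : Subgroup X) = R.P := by
      intro X _ _ R
      have hfac : (Nat.card X).factorization p = 1 := by
        refine le_antisymm ?_ (hp.out.factorization_pos_of_dvd Nat.card_pos.ne' (setup_dvd R))
        by_contra h
        exact R.not_sq ((hp.out.pow_dvd_iff_le_factorization Nat.card_pos.ne').2 (by omega))
      exact ⟨Sylow.ofCard R.P (by rw [R.card_P, hfac, pow_one]), rfl⟩
    obtain ⟨PS, hPS⟩ := hfac S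
    obtain ⟨PT, hPT⟩ := hfac T
    rw [← h1, Sylow.card_eq_index_normalizer PS, Sylow.card_eq_index_normalizer PT,
      show (PS : Set G) = (S.P : Set G) from congrArg SetLike.coe hPS,
      show (PT : Set (G ⧸ K)) = (T.P : Set (G ⧸ K)) from congrArg SetLike.coe hPT,
      ← S.N_eq_normalizer, ← T.N_eq_normalizer, ← Subgroup.index_comap_of_surjective T.N hπs]
    congr 1
    ext g
    rw [Subgroup.mem_comap]
    constructor
    · intro hg
      obtain ⟨l, hl, u, hu, rfl⟩ := S.mem_N_iff.1 hg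
      rw [map_mul]
      refine T.N.mul_mem (T.L_le_N ⟨l, hl, rfl⟩) (T.P_le_N ?_)
      obtain ⟨i, rfl⟩ := Subgroup.mem_zpowers_iff.1 hu
      rw [map_zpow]
      exact Subgroup.zpow_mem _ (Subgroup.mem_zpowers _) i
    · intro hg
      exact S.mem_N_of_conj_mem (hexists g ((hg T.x).1 (Subgroup.mem_zpowers _)))
  exact ⟨hperf, hcent, hsyl, hcardR, ⟨(QuotientGroup.quotientMulEquivOfEq hZ).trans φ⟩⟩

end Cfsg.Agent.H42.SmallFaithful
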