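import Mathlib
import Cfsg.Agent.H42.SmallFaithful.Core

/-!
# A faithful character of degree `(p - 1) / 2`
-/

set_option autoImplicit false
set_option maxHeartbeats 1000000
set_option linter.unusedSectionVars false

namespace Cfsg.Agent.H42.SmallFaithful

open Module Cfsg.Agent.H43.D1
open scoped Pointwise

attribute [local instance] Fintype.ofFinite

/-- An automorphism fixing `x`, of order prime to `p`, is trivial when there are `p + 1` Sylow
subgroups. -/
theorem automorphism_trivial {p : ℕ} [hp : Fact p.Prime] {G : Type*} [Group G] [Finite G]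
    (S : Setup p G) (hperf : commutator G = ⊤)
    (hcent : ∀ H : Subgroup G, H.Normal → S.x ∉ H → H ≤ Subgroup.center G)
    (hn : Nat.card (Sylow p G) = p + 1) (φ : MulAut G) (hx : φ S.x = S.x) {m : ℕ} (hm : ¬ p ∣ m)
    (hφm : φ ^ m = 1) : ∀ g, φ g = g := by
  classical
  have hfac : (Nat.card G).factorization p = 1 := by
    refine le_antisymm ?_ (hp.out.factorization_pos_of_dvd Nat.card_pos.ne' (setup_dvd S))
    by_contra h
    exact S.not_sq ((hp.out.pow_dvd_iff_le_factorization Nat.card_pos.ne').2 (by omega))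
  let PS : Sylow p G := Sylow.ofCard S.P (by rw [S.card_P, hfac, pow_one])
  have hPS : (PS : Subgroup G) = S.P := rfl
  have hcardSyl : ∀ Q : Sylow p G, Nat.card (Q : Subgroup G) = p := fun Q => by
    rw [Q.card_eq_multiplicity, hfac, pow_one]
  -- `x` fixes only its own Sylow subgroup
  have hfix : ∀ (i : ℕ) (Q : Sylow p G), ¬ p ∣ i → (S.x ^ i) • Q = Q → Q = PS := by
    intro i Q hi hQ
    rw [Sylow.smul_eq_iff_mem_normalizer] at hQ
    have hxi : orderOf (S.x ^ i) = p := by
      rw [Nat.Coprime.orderOf_pow, S.orderOf_x]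
      rw [S.orderOf_x]
      exact hp.out.coprime_iff_not_dvd.2 hi
    have hz : Subgroup.zpowers (S.x ^ i) = S.P :=
      Subgroup.eq_of_le_of_card_ge (Subgroup.zpowers_le.2 (Subgroup.pow_mem _ (Subgroup.mem_zpowers _) _))
        (by rw [S.card_P, Nat.card_zpowers, hxi])
    have hle : (PS : Subgroup G) ≤ Subgroup.normalizer (Q : Set G) := by
      rw [hPS, ← hz]; exact Subgroup.zpowers_le.2 hQ
    have := Q.is_maximal' (PS.isPGroup'.to_sup_of_normal_right' Q.isPGroup' hle) le_sup_right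
    exact Sylow.ext ((Subgroup.eq_of_le_of_card_ge (le_sup_left.trans this.le)
      (by rw [hcardSyl, hcardSyl])).symm)
  -- the translations reach every other Sylow subgroup
  have horbit : ∀ Q R : Sylow p G, Q ≠ PS → R ≠ PS → ∃ i : ℕ, R = (S.x ^ i) • Q := by
    intro Q R hQ hR
    let f : Fin p → {R : Sylow p G // R ≠ PS} := fun i => ⟨(S.x ^ (i : ℕ)) • Q, fun h => hQ (by
      have h2 : (S.x ^ (i : ℕ)) • PS = PS := by
        rw [Sylow.smul_eq_iff_mem_normalizer]
        exact Subgroup.le_normalizer (Subgroup.pow_mem _ (Subgroup.mem_zpowers _) _)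
      exact smul_left_cancel _ (h.trans h2.symm))⟩
    have hinj : Function.Injective f := by
      have key : ∀ i j : Fin p, i ≤ j → f i = f j → i = j := by
        intro i j hle h
        have h1 : (S.x ^ (i : ℕ)) • Q = (S.x ^ (j : ℕ)) • Q := congrArg Subtype.val h
        by_contra hne
        refine hQ (hfix ((j : ℕ) - i) Q ?_ ?_)
        · intro hd
          have hlt : (i : ℕ) < j := lt_of_le_of_ne hle (fun e => hne (Fin.ext e))
          have := Nat.le_of_dvd (by omega) hd
          have := j.isLt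
          omega
        · refine smul_left_cancel (S.x ^ (i : ℕ)) ?_
          rw [← mul_smul, ← pow_add, Nat.add_sub_cancel' hle, h1]
      intro i j h
      rcases le_total i j with hle | hle
      · exact key i j hle h
      · exact (key j i hle h.symm).symm
    have hsurj : Function.Surjective f := by
      refine (Function.Injective.bijective_of_nat_card_le hinj ?_).2
      have h1 : Nat.card {R : Sylow p G // R ≠ PS} = Nat.card (Sylow p G) - 1 := by
        rw [Nat.card_eq_fintype_card, Nat.card_eq_fintype_card, Fintype.card_subtype_compl,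
          Fintype.card_subtype_eq]
      rw [h1, hn, Nat.card_fin]
      omega
    obtain ⟨i, hi⟩ := hsurj ⟨R, hR⟩
    exact ⟨i, (congrArg Subtype.val hi).symm⟩
  have hφx : ∀ i : ℕ, φ (S.x ^ i) = S.x ^ i := fun i => by rw [map_pow, hx]
  have hφP : φ • PS = PS := by
    refine Sylow.ext ?_
    rw [Sylow.pointwise_smul_def, hPS]
    refine Subgroup.eq_of_le_of_card_ge ?_ ?_
    · rintro _ ⟨u, hu, rfl⟩
      obtain ⟨n, rfl⟩ := (mem_powers_iff_mem_zpowers).2 hu
      show φ (S.x ^ n) ∈ S.P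
      rw [hφx]
      exact Subgroup.pow_mem _ (Subgroup.mem_zpowers _) _
    · exact (Nat.card_congr (Subgroup.equivSMul φ S.P).toEquiv).le
  have hsm : ∀ (a : MulAut G) (g : G) (Q : Sylow p G), a • (g • Q) = a g • (a • Q) := by
    intro a g Q
    refine Sylow.ext ?_
    simp only [Sylow.pointwise_smul_def, Sylow.coe_subgroup_smul, Subgroup.pointwise_smul_def]
    refine (Subgroup.map_map _ _ _).trans
      ((congrArg (fun f : G →* G => (Q : Subgroup G).map f) (MonoidHom.ext fun z => ?_)).trans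
        (Subgroup.map_map _ _ _).symm)
    show a (g * z * g⁻¹) = a g * a z * (a g)⁻¹
    simp
  have hfixall : ∀ Q : Sylow p G, φ • Q = Q := by
    intro Q
    by_cases hQ : Q = PS
    · rw [hQ, hφP]
    obtain ⟨i, hi⟩ := horbit Q (φ • Q) hQ (fun h => hQ (smul_left_cancel φ (h.trans hφP.symm)))
    have hpow : ∀ j : ℕ, (φ ^ j) • Q = (S.x ^ (i * j)) • Q := by
      intro j
      induction j with
      | zero => simp
      | succ j ih =>
        rw [pow_succ', mul_smul, ih, hsm, hφx, hi, ← mul_smul, ← pow_add, mul_add, mul_one]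
    have h := hpow m
    rw [hφm, one_smul] at h
    have hdi : p ∣ i := by
      by_contra hni
      exact hQ (hfix (i * m) Q (fun hd => (hp.out.dvd_mul.1 hd).elim hni hm) h.symm)
    obtain ⟨r, rfl⟩ := hdi
    rw [hi, pow_mul, S.x_pow_p, one_pow, one_smul]
  -- the displacement is central
  set M : Subgroup G := (MulAction.toPermHom G (Sylow p G)).ker with hM
  have hxM : S.x ∉ M := by
    intro h
    have hall : ∀ Q : Sylow p G, Q = PS := fun Q => hfix 1 Q hp.out.not_dvd_one (by
      rw [pow_one]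
      exact Equiv.Perm.congr_fun (MonoidHom.mem_ker.1 h) Q)
    have : Subsingleton (Sylow p G) := ⟨fun a b => (hall a).trans (hall b).symm⟩
    have h2 := Finite.card_le_one_iff_subsingleton.2 this
    rw [hn] at h2
    have := hp.out.two_le
    omega
  have hmem : ∀ h : G, φ h * h⁻¹ ∈ Subgroup.center G := by
    intro h
    refine hcent M inferInstance hxM (MonoidHom.mem_ker.2 (Equiv.ext fun Q => ?_))
    show (φ h * h⁻¹) • Q = Q
    have h1 := hsm φ h (h⁻¹ • Q)
    rw [smul_inv_smul, hfixall, hfixall (h⁻¹ • Q), ← mul_smul] at h1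
    exact h1.symm
  let f : G →* Subgroup.center G :=
    { toFun := fun a => ⟨_, hmem a⟩
      map_one' := Subtype.ext (by simp)
      map_mul' := fun a b => Subtype.ext (by
        show φ (a * b) * (a * b)⁻¹ = (φ a * a⁻¹) * (φ b * b⁻¹)
        have hc := Subgroup.mem_center_iff.1 (hmem b) a⁻¹
        calc φ (a * b) * (a * b)⁻¹ = φ a * ((φ b * b⁻¹) * a⁻¹) := by rw [map_mul]; group
          _ = φ a * (a⁻¹ * (φ b * b⁻¹)) := by rw [hc]
          _ = _ := by group) }
  intro g
  have hle : commutator G ≤ f.ker := by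
    rw [commutator_def, Subgroup.commutator_le]
    intro a _ b _
    rw [MonoidHom.mem_ker, map_commutatorElement, commutatorElement_eq_one_iff_commute]
    exact Subtype.ext (Subgroup.mem_center_iff.1 (f b).2 _)
  have h1 : φ g * g⁻¹ = 1 :=
    congrArg Subtype.val (MonoidHom.mem_ker.1 (hle (hperf ▸ Subgroup.mem_top g)))
  exact mul_inv_eq_one.1 h1

/-- A group with a faithful character of degree `(p - 1) / 2` and no normal subgroup of order `p`
is `PSL(2, p)` modulo its centre. -/
theorem main {p : ℕ} [hp : Fact p.Prime] {G : Type*} [Group G] [Finite G]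
    (hdiv : p ∣ Nat.card G) (hsq : ¬ p ^ 2 ∣ Nat.card G)
    (hnn : ∀ H : Subgroup G, H.Normal → Nat.card H ≠ p) (χ : G → ℂ) (hχ : Cfsg.IsCharacter G χ)
    (hfaith : ∀ g : G, χ g = χ 1 → g = 1) (hdeg : 2 * Cfsg.charDegree χ + 1 = p) :
    Nonempty ((G ⧸ Subgroup.center G) ≃*
      Matrix.ProjectiveSpecialLinearGroup (Fin 2) (ZMod p)) := by
  classical
  obtain ⟨d, ρ, rfl⟩ := hχ
  have hinj : Function.Injective ρ := by
    refine (injective_iff_map_eq_one (ρ : G →* Module.End ℂ (Fin d → ℂ))).2 fun g hg => hfaith g ?_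
    show LinearMap.trace ℂ _ (ρ g) = LinearMap.trace ℂ _ (ρ 1)
    rw [hg, map_one ρ]
  have hdd : Cfsg.charDegree ρ.character = d := by
    rw [Cfsg.charDegree, ρ.char_one]; simp
  rw [hdd] at hdeg
  obtain ⟨x₀, hx₀⟩ := exists_prime_orderOf_dvd_card' p hdiv
  obtain ⟨S, -⟩ := exists_setup hdiv hsq (P := Subgroup.zpowers x₀) (by rw [Nat.card_zpowers, hx₀])
  set G₀ : Subgroup G := Subgroup.normalClosure {S.x} with hG₀
  have hx₀mem : S.x ∈ G₀ := Subgroup.subset_normalClosure rfl
  set y : G₀ := ⟨S.x, hx₀mem⟩ with hy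
  have hyo : orderOf y = p := by rw [hy, Subgroup.orderOf_mk, S.orderOf_x]
  have hsq₀ : ¬ p ^ 2 ∣ Nat.card G₀ := fun h => hsq (h.trans G₀.card_subgroup_dvd_card)
  have hdiv₀ : p ∣ Nat.card G₀ := by
    have := orderOf_dvd_natCard y
    rwa [hyo] at this
  obtain ⟨T, hT⟩ := exists_setup hdiv₀ hsq₀ (P := Subgroup.zpowers y) (by rw [Nat.card_zpowers, hyo])
  have hyT : y ∈ T.P := hT ▸ Subgroup.mem_zpowers y
  have hgen : ∀ H : Subgroup G₀, H.Normal → T.x ∈ H → H = ⊤ := by
    intro H hH hxH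
    have hPH : T.P ≤ H := Subgroup.zpowers_le.2 hxH
    have hall : ∀ z : G₀, orderOf z = p → z ∈ H := by
      intro z hz
      obtain ⟨c, hc⟩ := exists_conj_mem T hz
      have := hH.conj_mem _ (hPH hc) c⁻¹
      simpa [mul_assoc] using this
    have hle : G₀ ≤ H.map G₀.subtype := by
      refine le_trans (le_of_eq hG₀) ((Subgroup.closure_le _).2 fun z hz => ?_)
      obtain ⟨a, rfl, ha⟩ := Group.mem_conjugatesOfSet_iff.1 hz
      obtain ⟨c, rfl⟩ := isConj_iff.1 ha
      have hzmem : c * S.x * c⁻¹ ∈ G₀ := Subgroup.Normal.conj_mem inferInstance _ hx₀mem c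
      refine ⟨⟨_, hzmem⟩, hall _ ?_, rfl⟩
      rw [Subgroup.orderOf_mk, show orderOf (c * S.x * c⁻¹) = orderOf S.x from
        (MulAut.conj c).orderOf_eq _, S.orderOf_x]
    rw [eq_top_iff]
    rintro z -
    obtain ⟨z', hz', e⟩ := hle z.2
    rwa [← Subtype.ext e]
  have hTP : ¬ T.P.Normal := by
    intro hn
    have htop := hgen T.P hn (Subgroup.mem_zpowers _)
    refine hnn G₀ inferInstance ?_
    rw [← Subgroup.card_top (G := G₀), ← htop, T.card_P]
  let ρ₀ : Representation ℂ G₀ (Fin d → ℂ) :=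
    (ρ : G →* Module.End ℂ (Fin d → ℂ)).comp G₀.subtype
  have hρ₀ : Function.Injective ρ₀ := fun a b h => Subtype.ext (hinj h)
  obtain ⟨hperf, hcent, hsyl, hrange₀, ⟨iso⟩⟩ := core T hgen hTP ρ₀ hρ₀ hdeg
  -- compare the automizers
  have hpowT : ∀ (g : G) (u : (ZMod p)ˣ), g * S.x * g⁻¹ = S.x ^ (u : ZMod p).val →
      u ∈ S.act.range := by
    intro g u hg
    obtain ⟨l, hl, w, hw, rfl⟩ := S.exists_mul g (by
      rw [hg]; exact Subgroup.pow_mem _ (Subgroup.mem_zpowers _) _)
    refine ⟨⟨l, hl⟩, Units.ext (S.x_pow_val_inj ?_)⟩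
    rw [← S.act_spec, ← hg]
    obtain ⟨n, rfl⟩ := Subgroup.mem_zpowers_iff.1 hw
    group
  obtain ⟨n₀, hn₀⟩ := (mem_powers_iff_mem_zpowers).2 (show T.x ∈ Subgroup.zpowers y by
    rw [← hT]; exact Subgroup.mem_zpowers _)
  change y ^ n₀ = T.x at hn₀
  obtain ⟨m₀, hm₀⟩ := (mem_powers_iff_mem_zpowers).2 hyT
  change T.x ^ m₀ = y at hm₀
  have hsub : T.act.range ≤ S.act.range := by
    rintro _ ⟨l, rfl⟩
    refine hpowT ((l : G₀) : G) _ ?_
    have h1 := T.conj_x_pow l m₀
    rw [mul_comm, pow_mul, hm₀] at h1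
    exact congrArg Subtype.val h1
  have hle : Nat.card S.act.range ≤ d := by
    have := act_card_le S (ρ : G →* Module.End ℂ (Fin d → ℂ))
      (fun h => S.x_ne_one (hinj (by rw [h, map_one])))
    rwa [finrank_fin_fun] at this
  have hrangeEq : T.act.range = S.act.range :=
    Subgroup.eq_of_le_of_card_ge hsub (by rw [hrange₀]; exact hle)
  -- the centralizer of `x` in the complement is central
  have hne : Nontrivial (Fin d → ℂ) := by
    have : Nonempty (Fin d) := ⟨⟨0, by have := hp.out.two_le; omega⟩⟩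
    infer_instance
  have hρ₀x : ρ₀ T.x ≠ 1 := fun h => T.x_ne_one (hρ₀ (by rw [h, map_one]))
  have hV : ∀ v : S.V, ((v : S.L) : G) ∈ Subgroup.center G ∧
      ∀ a : G₀, Commute ((v : S.L) : G) (a : G) := by
    intro v
    set w : G := ((v : S.L) : G)
    set φ : MulAut G₀ := MulAut.conjNormal w with hφ
    have hφy : φ y = y := Subtype.ext (by
      rw [hφ, MulAut.conjNormal_apply]
      show w * S.x * w⁻¹ = S.x
      rw [(S.commute_of_mem_V v.2).eq, mul_inv_cancel_right])
    have hφx : φ T.x = T.x := by rw [← hn₀, map_pow, hφy]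
    have hφm : φ ^ orderOf w = 1 := by rw [hφ, ← map_pow, pow_orderOf_eq_one, map_one]
    have hid := automorphism_trivial T hperf hcent hsyl φ hφx
      (S.not_dvd_orderOf_L (v : S.L)) hφm
    have hcomm : ∀ a : G₀, Commute w (a : G) := fun a => by
      have h1 := congrArg Subtype.val (hid a)
      rw [hφ, MulAut.conjNormal_apply] at h1
      exact mul_inv_eq_iff_eq_mul.1 h1
    obtain ⟨c, hc⟩ := scalar_of_commute T hgen hperf (ρ₀ : G₀ →* Module.End ℂ (Fin d → ℂ))
      (by rw [finrank_fin_fun]; exact hdeg) hρ₀x (ρ w)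
      (fun a => by
        show ρ (a : G) * ρ w = ρ w * ρ (a : G)
        rw [← map_mul, ← map_mul, (hcomm a).eq])
    refine ⟨Subgroup.mem_center_iff.2 fun g => hinj ?_, hcomm⟩
    rw [map_mul, map_mul, hc, mul_smul_comm, mul_one, smul_mul_assoc, one_mul]
  -- `G₀` and the centre generate
  have hgenG : ∀ g : G, g ∈ G₀ ⊔ Subgroup.center G := by
    intro g
    have hgxo : orderOf (⟨g * S.x * g⁻¹, Subgroup.Normal.conj_mem inferInstance _ hx₀mem g⟩ : G₀) = p := by
      rw [Subgroup.orderOf_mk, show orderOf (g * S.x * g⁻¹) = orderOf S.x from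
        (MulAut.conj g).orderOf_eq _, S.orderOf_x]
    obtain ⟨h, hh⟩ := exists_conj_mem T hgxo
    rw [hT] at hh
    obtain ⟨i, hi⟩ := Subgroup.mem_zpowers_iff.1 hh
    have hconj : ((h : G) * g) * S.x * ((h : G) * g)⁻¹ = S.x ^ i := by
      have h1 := congrArg Subtype.val hi
      simp only [Subgroup.coe_mul, Subgroup.coe_inv, SubgroupClass.coe_zpow, hy] at h1
      rw [h1]; group
    obtain ⟨l, hl, u, hu, hlu⟩ := S.exists_mul ((h : G) * g) (by
      rw [hconj]; exact Subgroup.zpow_mem _ (Subgroup.mem_zpowers _) i)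
    obtain ⟨l₀, hl₀⟩ : S.act ⟨l, hl⟩ ∈ T.act.range := hrangeEq ▸ ⟨⟨l, hl⟩, rfl⟩
    set w := ((l₀ : G₀) : G)⁻¹ * l with hw
    have h1 : ((l₀ : G₀) : G) * S.x * ((l₀ : G₀) : G)⁻¹ = l * S.x * l⁻¹ := by
      have h2 := T.conj_x_pow l₀ m₀
      rw [mul_comm, pow_mul, hm₀] at h2
      have h3 : ((l₀ : G₀) : G) * S.x * ((l₀ : G₀) : G)⁻¹ = S.x ^ (T.act l₀ : ZMod p).val :=
        congrArg Subtype.val h2
      rw [h3, hl₀]
      exact (S.act_spec ⟨l, hl⟩).symm
    have hwx : Commute w S.x := by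
      rw [commute_iff_eq, hw, ← mul_inv_eq_iff_eq_mul,
        show ((l₀ : G₀) : G)⁻¹ * l * S.x * (((l₀ : G₀) : G)⁻¹ * l)⁻¹ =
          ((l₀ : G₀) : G)⁻¹ * (l * S.x * l⁻¹) * ((l₀ : G₀) : G) by group, ← h1]
      group
    obtain ⟨l₁, hl₁, u₁, hu₁, hw'⟩ := S.exists_mul w (by
      rw [hwx.eq, mul_inv_cancel_right]; exact Subgroup.mem_zpowers _)
    have hl₁V : (⟨l₁, hl₁⟩ : S.L) ∈ S.V := by
      refine MonoidHom.mem_ker.2 (Units.ext (S.x_pow_val_inj ?_))
      rw [← S.act_spec, Units.val_one, ZMod.val_one, pow_one]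
      obtain ⟨n, rfl⟩ := Subgroup.mem_zpowers_iff.1 hu₁
      have hcw : w * S.x * w⁻¹ = S.x := by rw [hwx.eq, mul_inv_cancel_right]
      rw [hw'] at hcw
      conv_rhs => rw [← hcw]
      group
    have hPG : ∀ u ∈ S.P, u ∈ G₀ := fun u hu => Subgroup.zpowers_le.2 hx₀mem hu
    have hwmem : w ∈ G₀ ⊔ Subgroup.center G := by
      rw [hw']
      exact Subgroup.mul_mem _ (Subgroup.mem_sup_right (hV ⟨_, hl₁V⟩).1)
        (Subgroup.mem_sup_left (hPG _ hu₁))
    have hl' : l ∈ G₀ ⊔ Subgroup.center G := by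
      rw [show l = ((l₀ : G₀) : G) * w by rw [hw]; group]
      exact Subgroup.mul_mem _ (Subgroup.mem_sup_left (Subtype.coe_prop _)) hwmem
    rw [show g = (h : G)⁻¹ * (l * u) by rw [← hlu]; group]
    exact Subgroup.mul_mem _ (Subgroup.mem_sup_left (G₀.inv_mem h.2))
      (Subgroup.mul_mem _ hl' (Subgroup.mem_sup_left (hPG _ hu)))
  -- transport
  let f : G₀ →* G ⧸ Subgroup.center G := (QuotientGroup.mk' (Subgroup.center G)).comp G₀.subtype
  have hf : Function.Surjective f := by
    intro q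
    obtain ⟨g, rfl⟩ := QuotientGroup.mk'_surjective _ q
    obtain ⟨a, ha, z, hz, rfl⟩ := Subgroup.mem_sup_of_normal_right.1 (hgenG g)
    refine ⟨⟨a, ha⟩, ?_⟩
    show QuotientGroup.mk' _ a = _
    rw [map_mul, show QuotientGroup.mk' (Subgroup.center G) z = 1 from (QuotientGroup.eq_one_iff z).2 hz,
      mul_one]
  have hker : f.ker = Subgroup.center G₀ := by
    ext a
    rw [MonoidHom.mem_ker]
    show QuotientGroup.mk' _ (a : G) = 1 ↔ _
    rw [QuotientGroup.mk'_apply, QuotientGroup.eq_one_iff]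
    constructor
    · intro ha
      rw [Subgroup.mem_center_iff]
      exact fun b => Subtype.ext (Subgroup.mem_center_iff.1 ha b)
    · intro ha
      rw [Subgroup.mem_center_iff]
      intro g
      obtain ⟨b, hb, z, hz, rfl⟩ := Subgroup.mem_sup_of_normal_right.1 (hgenG g)
      have h1 : b * (a : G) = (a : G) * b :=
        congrArg Subtype.val (Subgroup.mem_center_iff.1 ha ⟨b, hb⟩)
      have h2 := Subgroup.mem_center_iff.1 hz (a : G)
      rw [mul_assoc, ← h2, ← mul_assoc, h1, mul_assoc]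
  exact ⟨((QuotientGroup.quotientKerEquivOfSurjective f hf).symm.trans
    (QuotientGroup.quotientMulEquivOfEq hker)).trans iso⟩

end Cfsg.Agent.H42.SmallFaithful
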